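import Mathlib

/-!
# The Frobenius--Hall counting theorem

For a finite group `G`, an element `c` and a natural number `n`, the number of solutions of
`x ^ n = c` is a multiple of `gcd n |C_G(c)|` (P. Hall, *The Theory of Groups*, Theorem 9.1.1).
-/

set_option autoImplicit false

namespace Cfsg.Agent.Helper29

universe u

/-- Counting a finite type through the fibres of a map. -/
theorem card_eq_sum_card_fiber {α β : Type*} [Finite α] [Fintype β] (f : α → β) :
    Nat.card α = ∑ y : β, Nat.card {x : α // f x = y} := by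
  rw [← Nat.card_sigma]
  exact Nat.card_congr (Equiv.sigmaFiberEquiv f).symm

section Counting

variable {G : Type*} [Group G]

/-- The number of `n`-th roots is a class function. -/
theorem card_pow_eq_conj (n : ℕ) (c g : G) :
    Nat.card {x : G // x ^ n = g * c * g⁻¹} = Nat.card {x : G // x ^ n = c} := by
  refine Nat.card_congr ⟨fun x => ⟨g⁻¹ * x.1 * g, ?_⟩, fun x => ⟨g * x.1 * g⁻¹, ?_⟩, ?_, ?_⟩
  · have h := x.2
    have : (g⁻¹ * x.1 * g) ^ n = g⁻¹ * x.1 ^ n * g := by
      simpa using conj_pow (a := g⁻¹) (b := x.1) (i := n)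
    rw [this, h]; group
  · have h := x.2
    rw [conj_pow, h]
  · intro x; apply Subtype.ext; simp [mul_assoc]
  · intro x; apply Subtype.ext; simp [mul_assoc]

/-- Counting the elements whose `n`-th power satisfies `P` through the value of the power. -/
theorem card_pow_mem_eq_sum [Finite G] (n : ℕ) (P : G → Prop) [Fintype {y : G // P y}] :
    Nat.card {x : G // P (x ^ n)} = ∑ y : {y : G // P y}, Nat.card {x : G // x ^ n = y.1} := by
  rw [card_eq_sum_card_fiber (fun x : {x : G // P (x ^ n)} => (⟨x.1 ^ n, x.2⟩ : {y : G // P y}))]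
  refine Finset.sum_congr rfl fun y _ => ?_
  refine Nat.card_congr ⟨fun x => ⟨x.1.1, congrArg Subtype.val x.2⟩,
    fun x => ⟨⟨x.1, by rw [x.2]; exact y.2⟩, Subtype.ext x.2⟩, ?_, ?_⟩
  · intro x; rfl
  · intro x; rfl

/-- `a = h * b`: the number of elements whose `n`-th power is conjugate to `c`. -/
theorem card_isConj_pow [Finite G] (c : G) (n : ℕ) :
    Nat.card {x : G // IsConj c (x ^ n)} =
      Nat.card {y : G // IsConj c y} * Nat.card {x : G // x ^ n = c} := by
  classical
  have : Fintype {y : G // IsConj c y} := Fintype.ofFinite _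
  rw [card_pow_mem_eq_sum n (fun y => IsConj c y)]
  have : ∀ y : {y : G // IsConj c y}, Nat.card {x : G // x ^ n = y.1} =
      Nat.card {x : G // x ^ n = c} := by
    intro y
    obtain ⟨g, hg⟩ := isConj_iff.1 y.2
    rw [← hg]; exact card_pow_eq_conj n c g
  rw [Finset.sum_congr rfl fun y _ => this y, Finset.sum_const, Finset.card_univ,
    Fintype.card_eq_nat_card, smul_eq_mul]

/-- The class equation for one class. -/
theorem card_isConj_mul_card_centralizer [Finite G] (c : G) :
    Nat.card {y : G // IsConj c y} * Nat.card (Subgroup.centralizer {c}) = Nat.card G := by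
  classical
  have : Fintype {y : G // IsConj c y} := Fintype.ofFinite _
  rw [card_eq_sum_card_fiber
    (fun g : G => (⟨g * c * g⁻¹, isConj_iff.2 ⟨g, rfl⟩⟩ : {y : G // IsConj c y}))]
  have : ∀ y : {y : G // IsConj c y},
      Nat.card {g : G // (⟨g * c * g⁻¹, isConj_iff.2 ⟨g, rfl⟩⟩ : {y : G // IsConj c y}) = y} =
      Nat.card (Subgroup.centralizer {c}) := by
    intro y
    obtain ⟨g₀, hg₀⟩ := isConj_iff.1 y.2
    refine Nat.card_congr ⟨fun g => ⟨g₀⁻¹ * g.1, ?_⟩, fun z => ⟨g₀ * z.1, ?_⟩, ?_, ?_⟩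
    · have h : g.1 * c * g.1⁻¹ = y.1 := congrArg Subtype.val g.2
      rw [Subgroup.mem_centralizer_singleton_iff]
      rw [← hg₀] at h
      have h2 : g₀⁻¹ * (g.1 * c * g.1⁻¹) * g.1 = g₀⁻¹ * (g₀ * c * g₀⁻¹) * g.1 := by rw [h]
      simpa [mul_assoc] using h2
    · have hz := Subgroup.mem_centralizer_singleton_iff.1 z.2
      apply Subtype.ext
      change g₀ * z.1 * c * (g₀ * z.1)⁻¹ = y.1
      rw [← hg₀, mul_assoc g₀, hz]; group
    · intro g; apply Subtype.ext; simp
    · intro z; apply Subtype.ext; simp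
  rw [Finset.sum_congr rfl fun y _ => this y, Finset.sum_const, Finset.card_univ,
    Fintype.card_eq_nat_card, smul_eq_mul]

/-- Summing over conjugacy classes. -/
theorem dvd_card_pow_mem_of_forall [Finite G] (n d : ℕ) (P : G → Prop)
    (hP : ∀ x y : G, IsConj x y → P x → P y)
    (h : ∀ y, P y → d ∣ Nat.card {x : G // IsConj y (x ^ n)}) :
    d ∣ Nat.card {x : G // P (x ^ n)} := by
  classical
  have : Fintype (ConjClasses G) := Fintype.ofFinite _
  rw [card_eq_sum_card_fiber (fun x : {x : G // P (x ^ n)} => ConjClasses.mk (x.1 ^ n))]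
  refine Finset.dvd_sum fun k _ => ?_
  obtain ⟨y, rfl⟩ := ConjClasses.mk_surjective k
  by_cases hy : P y
  · have e : {x : {x : G // P (x ^ n)} // ConjClasses.mk (x.1 ^ n) = ConjClasses.mk y} ≃
        {x : G // IsConj y (x ^ n)} :=
      ⟨fun x => ⟨x.1.1, (ConjClasses.mk_eq_mk_iff_isConj.1 x.2).symm⟩,
        fun x => ⟨⟨x.1, hP _ _ x.2 hy⟩, ConjClasses.mk_eq_mk_iff_isConj.2 x.2.symm⟩,
        fun x => rfl, fun x => rfl⟩
    rw [Nat.card_congr e]; exact h y hy
  · have : IsEmpty {x : {x : G // P (x ^ n)} // ConjClasses.mk (x.1 ^ n) = ConjClasses.mk y} :=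
      ⟨fun x => hy (hP _ _ (ConjClasses.mk_eq_mk_iff_isConj.1 x.2) x.1.2)⟩
    simp

theorem self_mem_centralizer_singleton (c : G) : c ∈ Subgroup.centralizer ({c} : Set G) :=
  Subgroup.mem_centralizer_singleton_iff.2 rfl

/-- Roots of `c` lie in the centralizer of `c`. -/
theorem card_pow_eq_centralizer (n : ℕ) (c : G) :
    Nat.card {x : Subgroup.centralizer ({c} : Set G) //
      x ^ n = ⟨c, self_mem_centralizer_singleton c⟩} = Nat.card {x : G // x ^ n = c} := by
  refine Nat.card_congr ⟨fun x => ⟨x.1.1, ?_⟩, fun x => ⟨⟨x.1, ?_⟩, ?_⟩, ?_, ?_⟩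
  · have := congrArg Subtype.val x.2
    simpa using this
  · have key : ∀ y : G, y ^ n = c → y * c = c * y := by
      rintro y rfl; rw [← pow_succ, ← pow_succ']
    exact Subgroup.mem_centralizer_singleton_iff.2 (key x.1 x.2)
  · apply Subtype.ext; simpa using x.2
  · intro x; rfl
  · intro x; rfl

theorem card_centralizer_self_centralizer (c : G) :
    Nat.card (Subgroup.centralizer
      ({(⟨c, self_mem_centralizer_singleton c⟩ : Subgroup.centralizer ({c} : Set G))} : Set _)) =
      Nat.card (Subgroup.centralizer ({c} : Set G)) := by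
  have : Subgroup.centralizer
      ({(⟨c, self_mem_centralizer_singleton c⟩ : Subgroup.centralizer ({c} : Set G))} : Set _) = ⊤ := by
    rw [Subgroup.centralizer_eq_top_iff_subset, Set.singleton_subset_iff]
    change _ ∈ Subgroup.center _
    rw [Subgroup.mem_center_iff]
    intro z
    apply Subtype.ext
    exact Subgroup.mem_centralizer_singleton_iff.1 z.2
  rw [this, Subgroup.card_top]

end Counting

section PrimePower
variable {G : Type*} [Group G]

/-- If `x ^ (p ^ a) = c` and `p` divides the order of `c`, then `x` has order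
`p ^ a * orderOf c`. -/
theorem orderOf_eq_mul_of_prime_pow_eq [Finite G] {p a : ℕ} (hp : p.Prime) {x c : G}
    (hx : x ^ (p ^ a) = c) (hc : p ∣ orderOf c) : orderOf x = p ^ a * orderOf c := by
  have hn : p ^ a ≠ 0 := pow_ne_zero _ hp.ne_zero
  have h1 : orderOf c = orderOf x / Nat.gcd (orderOf x) (p ^ a) := by
    rw [← hx, orderOf_pow' x hn]
  have hgo : Nat.gcd (orderOf x) (p ^ a) ∣ orderOf x := Nat.gcd_dvd_left _ _
  have hgn : Nat.gcd (orderOf x) (p ^ a) ∣ p ^ a := Nat.gcd_dvd_right _ _
  have h2 : orderOf x = Nat.gcd (orderOf x) (p ^ a) * orderOf c := by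
    rw [h1]; exact (Nat.mul_div_cancel' hgo).symm
  obtain ⟨b, hb, hgb⟩ := (Nat.dvd_prime_pow hp).1 hgn
  rcases hb.lt_or_eq with hlt | rfl
  · exfalso
    have hgpos : 0 < Nat.gcd (orderOf x) (p ^ a) := Nat.gcd_pos_of_pos_left _ (orderOf_pos x)
    have h3 : p * Nat.gcd (orderOf x) (p ^ a) ∣ Nat.gcd (orderOf x) (p ^ a) := by
      apply Nat.dvd_gcd
      · conv_rhs => rw [h2]
        rw [mul_comm]; exact Nat.mul_dvd_mul_left _ hc
      · rw [hgb, ← pow_succ']; exact pow_dvd_pow p hlt
    have h4 : p * Nat.gcd (orderOf x) (p ^ a) ≤ Nat.gcd (orderOf x) (p ^ a) := Nat.le_of_dvd hgpos h3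
    nlinarith [hp.two_le]
  · rw [h2, hgb]

/-- The roots of `c` generating a given cyclic group. -/
theorem card_fiber_zpowers [Finite G] {p a : ℕ} (hp : p.Prime) {c : G}
    (hc : p ∣ orderOf c) (x₀ : G) (hx₀ : x₀ ^ (p ^ a) = c) :
    Nat.card {y : G // y ^ (p ^ a) = c ∧ Subgroup.zpowers y = Subgroup.zpowers x₀} = p ^ a := by
  have ho : orderOf x₀ = p ^ a * orderOf c := orderOf_eq_mul_of_prime_pow_eq hp hx₀ hc
  have hm : orderOf c ≠ 0 := (orderOf_pos c).ne'
  have hcard : Nat.card (Subgroup.zpowers (x₀ ^ orderOf c)) = p ^ a := by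
    rw [Nat.card_zpowers, orderOf_pow_of_dvd hm (ho ▸ Dvd.intro_left _ rfl), ho,
      Nat.mul_div_cancel _ (orderOf_pos c)]
  have hpow : (x₀ ^ orderOf c) ^ (p ^ a) = 1 := by
    rw [← pow_mul, mul_comm, ← ho, pow_orderOf_eq_one]
  have hto : ∀ y : G, y ^ (p ^ a) = c → Subgroup.zpowers y = Subgroup.zpowers x₀ →
      y * x₀⁻¹ ∈ Subgroup.zpowers (x₀ ^ orderOf c) := by
    intro y hy hyz
    have hmem : y ∈ Subgroup.zpowers x₀ := hyz ▸ Subgroup.mem_zpowers y
    obtain ⟨k, rfl⟩ := Subgroup.mem_zpowers_iff.1 hmem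
    have h1 : x₀ ^ ((k - 1) * (p ^ a : ℕ)) = 1 := by
      rw [sub_mul, zpow_sub, zpow_mul, one_mul, zpow_natCast, zpow_natCast, hy, hx₀, mul_inv_cancel]
    have h2 : ((orderOf x₀ : ℕ) : ℤ) ∣ (k - 1) * (p ^ a : ℕ) := orderOf_dvd_iff_zpow_eq_one.2 h1
    rw [ho] at h2
    have h3 : ((orderOf c : ℕ) : ℤ) ∣ k - 1 := by
      have hpa : ((p ^ a : ℕ) : ℤ) ≠ 0 := by exact_mod_cast pow_ne_zero a hp.ne_zero
      rw [Nat.cast_mul, mul_comm (k - 1)] at h2
      exact (mul_dvd_mul_iff_left hpa).1 h2
    obtain ⟨j, hj⟩ := h3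
    rw [Subgroup.mem_zpowers_iff]
    refine ⟨j, ?_⟩
    rw [← zpow_natCast, ← zpow_mul, ← hj, zpow_sub, zpow_one]
  have hinv : ∀ z ∈ Subgroup.zpowers (x₀ ^ orderOf c),
      (z * x₀) ^ (p ^ a) = c ∧ Subgroup.zpowers (z * x₀) = Subgroup.zpowers x₀ := by
    intro z hz
    obtain ⟨j, rfl⟩ := Subgroup.mem_zpowers_iff.1 hz
    have hcomm : Commute ((x₀ ^ orderOf c) ^ j) x₀ :=
      ((Commute.refl x₀).pow_left _).zpow_left _
    have hy : ((x₀ ^ orderOf c) ^ j * x₀) ^ (p ^ a) = c := by
      rw [hcomm.mul_pow, hx₀, ← zpow_natCast, ← zpow_mul, mul_comm j, zpow_mul, zpow_natCast, hpow,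
        one_zpow, one_mul]
    refine ⟨hy, ?_⟩
    have hle : Subgroup.zpowers ((x₀ ^ orderOf c) ^ j * x₀) ≤ Subgroup.zpowers x₀ := by
      rw [Subgroup.zpowers_le]
      exact mul_mem (zpow_mem (pow_mem (Subgroup.mem_zpowers x₀) _) _) (Subgroup.mem_zpowers x₀)
    apply Subgroup.eq_of_le_of_card_ge hle
    rw [Nat.card_zpowers, Nat.card_zpowers, ho, orderOf_eq_mul_of_prime_pow_eq hp hy hc]
  let e : {y : G // y ^ (p ^ a) = c ∧ Subgroup.zpowers y = Subgroup.zpowers x₀} ≃
      Subgroup.zpowers (x₀ ^ orderOf c) :=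
    ⟨fun y => ⟨y.1 * x₀⁻¹, hto y.1 y.2.1 y.2.2⟩, fun z => ⟨z.1 * x₀, hinv z.1 z.2⟩,
      fun y => Subtype.ext (by simp), fun z => Subtype.ext (by simp)⟩
  rw [Nat.card_congr e, hcard]

/-- If `p` divides the order of `c`, the number of `p ^ a`-th roots of `c` is a multiple of
`p ^ a`. -/
theorem prime_pow_dvd_card_pow_eq [Finite G] {p a : ℕ} (hp : p.Prime) {c : G}
    (hc : p ∣ orderOf c) : p ^ a ∣ Nat.card {x : G // x ^ (p ^ a) = c} := by
  classical
  have : Fintype (Subgroup G) := Fintype.ofFinite _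
  rw [card_eq_sum_card_fiber (fun x : {x : G // x ^ (p ^ a) = c} => Subgroup.zpowers x.1)]
  refine Finset.dvd_sum fun H _ => ?_
  by_cases hne : Nonempty {x : {x : G // x ^ (p ^ a) = c} // Subgroup.zpowers x.1 = H}
  · obtain ⟨⟨⟨x₀, hx₀⟩, rfl⟩⟩ := hne
    rw [Nat.card_congr (Equiv.subtypeSubtypeEquivSubtypeInter (fun x : G => x ^ (p ^ a) = c)
      (fun x : G => Subgroup.zpowers x = Subgroup.zpowers x₀)), card_fiber_zpowers hp hc x₀ hx₀]
  · rw [not_nonempty_iff] at hne
    simp


/-- Translating by a central root. -/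
theorem card_pow_eq_of_coprime_central {n : ℕ} {c : G} (hc : c ∈ Subgroup.center G)
    (hco : Nat.Coprime n (orderOf c)) :
    Nat.card {x : G // x ^ n = c} = Nat.card {x : G // x ^ n = 1} := by
  obtain ⟨m, hm⟩ := exists_pow_eq_self_of_coprime hco
  have hc₁ : (c ^ m) ^ n = c := by rw [← pow_mul, mul_comm, pow_mul]; exact hm
  have hcomm : ∀ x : G, Commute x (c ^ m) := fun x => Subgroup.mem_center_iff.1 (pow_mem hc m) x
  have hto : ∀ x : G, x ^ n = c → (x * (c ^ m)⁻¹) ^ n = 1 := by
    intro x hx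
    rw [(hcomm x).inv_right.mul_pow, hx, inv_pow, hc₁, mul_inv_cancel]
  have hinv : ∀ x : G, x ^ n = 1 → (x * c ^ m) ^ n = c := by
    intro x hx
    rw [(hcomm x).mul_pow, hx, hc₁, one_mul]
  exact Nat.card_congr ⟨fun x => ⟨x.1 * (c ^ m)⁻¹, hto x.1 x.2⟩, fun x => ⟨x.1 * c ^ m, hinv x.1 x.2⟩,
    fun x => Subtype.ext (by simp), fun x => Subtype.ext (by simp)⟩

/-- The central elements of order prime to `p` form a subgroup of order prime to `p`. -/
theorem exists_central_prime_compl (G : Type*) [Group G] [Finite G] {p : ℕ} (hp : p.Prime) :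
    ∃ Z : Subgroup G, (∀ y, y ∈ Z ↔ (y ∈ Subgroup.center G ∧ ¬ p ∣ orderOf y)) ∧
      Nat.Coprime p (Nat.card Z) := by
  let Z : Subgroup G :=
    { carrier := {y | y ∈ Subgroup.center G ∧ ¬ p ∣ orderOf y}
      mul_mem' := by
        rintro x y ⟨hx, hxp⟩ ⟨hy, hyp⟩
        refine ⟨mul_mem hx hy, fun h => ?_⟩
        have hcomm : Commute x y := Subgroup.mem_center_iff.1 hy x
        have h1 := hcomm.orderOf_mul_dvd_lcm
        have h2 : p ∣ orderOf x * orderOf y := (h.trans h1).trans (Nat.lcm_dvd_mul _ _)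
        rcases (Nat.Prime.dvd_mul hp).1 h2 with h3 | h3
        · exact hxp h3
        · exact hyp h3
      one_mem' := ⟨one_mem _, by rw [orderOf_one]; exact fun h => hp.one_lt.ne' (Nat.dvd_one.1 h)⟩
      inv_mem' := by
        rintro x ⟨hx, hxp⟩
        exact ⟨inv_mem hx, by rwa [orderOf_inv]⟩ }
  refine ⟨Z, fun y => Iff.rfl, ?_⟩
  rw [Nat.Prime.coprime_iff_not_dvd hp]
  intro hdvd
  have : Fact p.Prime := ⟨hp⟩
  obtain ⟨z, hz⟩ := exists_prime_orderOf_dvd_card' p hdvd
  have h1 : orderOf (z : G) = p := by rw [Subgroup.orderOf_coe]; exact hz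
  exact z.2.2 (h1 ▸ dvd_rfl)

end PrimePower

section Main

/-- From the count of roots to the count of elements with power in a class. -/
theorem gcd_dvd_card_isConj_pow_of {G : Type*} [Group G] [Finite G] (c : G) (n : ℕ)
    (h : Nat.gcd n (Nat.card (Subgroup.centralizer ({c} : Set G))) ∣
      Nat.card {x : G // x ^ n = c}) :
    Nat.gcd (Nat.card {y : G // IsConj c y} * n) (Nat.card G) ∣
      Nat.card {x : G // IsConj c (x ^ n)} := by
  rw [card_isConj_pow]
  conv_lhs => rw [← card_isConj_mul_card_centralizer c, Nat.gcd_mul_left]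
  exact Nat.mul_dvd_mul_left _ h

theorem gcd_dvd_card_pow_eq_aux : ∀ (N : ℕ) (G : Type u) [Group G] [Finite G], Nat.card G = N →
    ∀ (n : ℕ) (c : G),
      Nat.gcd n (Nat.card (Subgroup.centralizer ({c} : Set G))) ∣
        Nat.card {x : G // x ^ n = c} := by
  classical
  intro N
  induction N using Nat.strong_induction_on with
  | _ N IH =>
    intro G _ _ hN
    -- noncentral elements: induction on the order
    have hnc : ∀ (n : ℕ) (c : G), c ∉ Subgroup.center G →
        Nat.gcd n (Nat.card (Subgroup.centralizer ({c} : Set G))) ∣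
          Nat.card {x : G // x ^ n = c} := by
      intro n c hc
      have hlt : Nat.card (Subgroup.centralizer ({c} : Set G)) < N := by
        rw [← hN]
        have hne : Subgroup.centralizer ({c} : Set G) ≠ ⊤ := by
          intro h
          rw [Subgroup.centralizer_eq_top_iff_subset, Set.singleton_subset_iff] at h
          exact hc h
        exact lt_of_le_of_ne (Subgroup.card_le_card_group _)
          (fun h => hne ((Subgroup.card_eq_iff_eq_top _).1 h))
      have := IH _ hlt (Subgroup.centralizer ({c} : Set G)) rfl n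
        ⟨c, self_mem_centralizer_singleton c⟩
      rwa [card_centralizer_self_centralizer, card_pow_eq_centralizer] at this
    have hcent : ∀ c : G, c ∈ Subgroup.center G →
        Nat.card (Subgroup.centralizer ({c} : Set G)) = Nat.card G := by
      intro c hc
      have : Subgroup.centralizer ({c} : Set G) = ⊤ := by
        rw [Subgroup.centralizer_eq_top_iff_subset, Set.singleton_subset_iff]; exact hc
      rw [this, Subgroup.card_top]
    intro n
    induction n using Nat.strong_induction_on with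
    | _ n IHn =>
      intro c
      by_cases hc : c ∈ Subgroup.center G
      swap
      · exact hnc n c hc
      rw [hcent c hc]
      -- n = 0
      rcases Nat.eq_zero_or_pos n with rfl | hnpos
      · rw [Nat.gcd_zero_left]
        by_cases h1 : c = 1
        · subst h1
          have : Nat.card {x : G // x ^ 0 = 1} = Nat.card G :=
            Nat.card_congr (Equiv.subtypeUnivEquiv (by simp))
          rw [this]
        · have : IsEmpty {x : G // x ^ 0 = c} := ⟨fun x => h1 (by simpa using x.2.symm)⟩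
          have h0 : Nat.card {x : G // x ^ 0 = c} = 0 := Nat.card_of_isEmpty
          rw [h0]; exact dvd_zero _
      by_cases hn1 : n = 1
      · subst hn1; simp
      -- the coprime splitting
      have key : ∀ n₁ n₂ : ℕ, n = n₁ * n₂ → n₁ < n →
          Nat.gcd n₁ (Nat.card G) ∣ Nat.card {x : G // x ^ n = c} := by
        intro n₁ n₂ hn hlt
        have e : Nat.card {x : G // x ^ n = c} = Nat.card {x : G // (x ^ n₁) ^ n₂ = c} := by
          rw [hn]; simp only [pow_mul]
        rw [e]
        apply dvd_card_pow_mem_of_forall n₁ _ (fun y => y ^ n₂ = c)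
        · intro x y hxy hx
          obtain ⟨g, rfl⟩ := isConj_iff.1 hxy
          rw [conj_pow, hx, Subgroup.mem_center_iff.1 hc g]; simp
        · intro y hy
          have h1 := gcd_dvd_card_isConj_pow_of y n₁ (IHn n₁ hlt y)
          exact (Nat.gcd_dvd_gcd_mul_left_left _ _ _).trans h1
      have hp : (n.minFac).Prime := Nat.minFac_prime hn1
      obtain ⟨e, m, hpm, hnem⟩ := Nat.exists_eq_pow_mul_and_not_dvd hnpos.ne' n.minFac hp.ne_one
      have hpn : n.minFac ∣ n := Nat.minFac_dvd n
      generalize n.minFac = p at hp hpm hnem hpn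
      have hco : Nat.Coprime (p ^ e) m :=
        Nat.Coprime.pow_left _ ((Nat.Prime.coprime_iff_not_dvd hp).2 hpm)
      by_cases hm1 : m = 1
      · -- prime power
        subst hm1
        rw [mul_one] at hnem
        subst hnem
        by_cases hpc : p ∣ orderOf c
        · exact (Nat.gcd_dvd_left _ _).trans (prime_pow_dvd_card_pow_eq hp hpc)
        · rw [card_pow_eq_of_coprime_central hc
            (Nat.Coprime.pow_left _ ((Nat.Prime.coprime_iff_not_dvd hp).2 hpc))]
          obtain ⟨Z, hZ, hZco⟩ := exists_central_prime_compl G hp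
          have hcompl : Nat.gcd (p ^ e) (Nat.card G) ∣
              Nat.card {x : G // ¬ (x ^ (p ^ e) ∈ Z)} := by
            apply dvd_card_pow_mem_of_forall (p ^ e) _ (fun y => ¬ y ∈ Z)
            · intro x y hxy hx hy
              obtain ⟨g, rfl⟩ := isConj_iff.1 hxy
              have hyc := ((hZ _).1 hy).1
              have h3 : g * x * g⁻¹ = x := by
                have h := Subgroup.mem_center_iff.1 hyc g
                have h' : g * (g * x * g⁻¹) = g * x := by rw [h]; group
                exact mul_left_cancel h'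
              rw [h3] at hy; exact hx hy
            · intro y hy
              rw [hZ] at hy
              have hQ : Nat.gcd (p ^ e) (Nat.card (Subgroup.centralizer ({y} : Set G))) ∣
                  Nat.card {x : G // x ^ (p ^ e) = y} := by
                by_cases hyc : y ∈ Subgroup.center G
                · have hpy : p ∣ orderOf y := by
                    by_contra h; exact hy ⟨hyc, h⟩
                  exact (Nat.gcd_dvd_left _ _).trans (prime_pow_dvd_card_pow_eq hp hpy)
                · exact hnc _ y hyc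
              exact (Nat.gcd_dvd_gcd_mul_left_left _ _ _).trans
                (gcd_dvd_card_isConj_pow_of y _ hQ)
          have hsplit : Nat.card G = Nat.card {x : G // x ^ (p ^ e) ∈ Z} +
              Nat.card {x : G // ¬ (x ^ (p ^ e) ∈ Z)} := by
            rw [← Nat.card_sum]
            exact Nat.card_congr (Equiv.sumCompl (fun x : G => x ^ (p ^ e) ∈ Z)).symm
          have hZpart : Nat.gcd (p ^ e) (Nat.card G) ∣ Nat.card {x : G // x ^ (p ^ e) ∈ Z} := by
            have h4 : Nat.gcd (p ^ e) (Nat.card G) ∣ Nat.card {x : G // x ^ (p ^ e) ∈ Z} +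
                Nat.card {x : G // ¬ (x ^ (p ^ e) ∈ Z)} := by
              rw [← hsplit]; exact Nat.gcd_dvd_right _ _
            exact (Nat.dvd_add_left hcompl).1 h4
          have hZcard : Nat.card {x : G // x ^ (p ^ e) ∈ Z} =
              Nat.card Z * Nat.card {x : G // x ^ (p ^ e) = 1} := by
            classical
            have : Fintype {y : G // y ∈ Z} := Fintype.ofFinite _
            rw [card_pow_mem_eq_sum (p ^ e) (fun y => y ∈ Z)]
            have h5 : ∀ y : {y : G // y ∈ Z}, Nat.card {x : G // x ^ (p ^ e) = y.1} =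
                Nat.card {x : G // x ^ (p ^ e) = 1} := by
              intro y
              have hy := (hZ _).1 y.2
              exact card_pow_eq_of_coprime_central hy.1
                (Nat.Coprime.pow_left _ ((Nat.Prime.coprime_iff_not_dvd hp).2 hy.2))
            rw [Finset.sum_congr rfl fun y _ => h5 y, Finset.sum_const, Finset.card_univ,
              Fintype.card_eq_nat_card, smul_eq_mul]
          rw [hZcard] at hZpart
          have hdco : Nat.Coprime (Nat.gcd (p ^ e) (Nat.card G)) (Nat.card Z) :=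
            Nat.Coprime.coprime_dvd_left (Nat.gcd_dvd_left _ _) (Nat.Coprime.pow_left _ hZco)
          exact hdco.dvd_of_dvd_mul_left hZpart
      · -- two coprime factors
        have hm0 : m ≠ 0 := by
          rintro rfl; rw [mul_zero] at hnem; exact hnpos.ne' hnem
        have he0 : e ≠ 0 := by
          rintro rfl
          rw [pow_zero, one_mul] at hnem
          subst hnem
          exact hpm hpn
        have hpe2 : 2 ≤ p ^ e :=
          calc 2 ≤ p := hp.two_le
            _ = p ^ 1 := (pow_one p).symm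
            _ ≤ p ^ e := Nat.pow_le_pow_right hp.pos (Nat.one_le_iff_ne_zero.2 he0)
        have hm2 : 2 ≤ m := by omega
        have h1 : Nat.gcd (p ^ e) (Nat.card G) ∣ Nat.card {x : G // x ^ n = c} :=
          key (p ^ e) m hnem (by rw [hnem]; nlinarith)
        have h2 : Nat.gcd m (Nat.card G) ∣ Nat.card {x : G // x ^ n = c} :=
          key m (p ^ e) (by rw [hnem, mul_comm]) (by rw [hnem]; nlinarith)
        have h3 : Nat.gcd n (Nat.card G) =
            Nat.gcd (p ^ e) (Nat.card G) * Nat.gcd m (Nat.card G) := by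
          rw [hnem, Nat.gcd_comm, Nat.Coprime.gcd_mul _ hco, Nat.gcd_comm,
            Nat.gcd_comm (Nat.card G) m]
        rw [h3]
        exact Nat.Coprime.mul_dvd_of_dvd_of_dvd (Nat.Coprime.coprime_dvd_left (Nat.gcd_dvd_left _ _)
          (Nat.Coprime.coprime_dvd_right (Nat.gcd_dvd_left _ _) hco)) h1 h2

/-- **Frobenius--Hall**: the number of `n`-th roots of `c` is a multiple of
`gcd n |C_G(c)|`. -/
theorem gcd_dvd_card_pow_eq {G : Type u} [Group G] [Finite G] (n : ℕ) (c : G) :
    Nat.gcd n (Nat.card (Subgroup.centralizer ({c} : Set G))) ∣ Nat.card {x : G // x ^ n = c} :=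
  gcd_dvd_card_pow_eq_aux _ G rfl n c

/-- **Frobenius--Hall**, class form: the number of elements whose `n`-th power is conjugate to
`c` is a multiple of `gcd (h n) |G|`, `h` the size of the class of `c`. -/
theorem gcd_dvd_card_isConj_pow {G : Type u} [Group G] [Finite G] (c : G) (n : ℕ) :
    Nat.gcd (Nat.card {y : G // IsConj c y} * n) (Nat.card G) ∣
      Nat.card {x : G // IsConj c (x ^ n)} :=
  gcd_dvd_card_isConj_pow_of c n (gcd_dvd_card_pow_eq n c)

/-- If `e` divides `|G|` and `P` is a class-invariant property, the number of elements whose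
`e`-th power satisfies `P` is a multiple of `e`. -/
theorem dvd_card_pow_mem_of_conj_invariant {G : Type u} [Group G] [Finite G] (e : ℕ)
    (he : e ∣ Nat.card G) (P : G → Prop) (hP : ∀ x y : G, IsConj x y → P x → P y) :
    e ∣ Nat.card {x : G // P (x ^ e)} := by
  apply dvd_card_pow_mem_of_forall e e P hP
  intro y _
  have h1 := gcd_dvd_card_isConj_pow y e
  have h2 : Nat.gcd e (Nat.card G) ∣ Nat.gcd (Nat.card {y' : G // IsConj y y'} * e) (Nat.card G) :=
    Nat.gcd_dvd_gcd_mul_left_left _ _ _
  rw [Nat.gcd_eq_left he] at h2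
  exact h2.trans h1

/-- **Frobenius**: if `m` divides `|G|`, the number of solutions of `x ^ m = 1` is a multiple
of `m`. -/
theorem dvd_card_pow_eq_one {G : Type u} [Group G] [Finite G] (m : ℕ) (hm : m ∣ Nat.card G) :
    m ∣ Nat.card {g : G // g ^ m = 1} :=
  dvd_card_pow_mem_of_conj_invariant m hm (fun y => y = 1) (by
    rintro x y hxy rfl
    exact isConj_one_right.1 hxy)

end Main

section Generators
variable {G : Type*} [Group G]

/-- The number of generators of a cyclic subgroup. -/
theorem card_zpowers_eq_zpowers [Finite G] (x₀ : G) :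
    Nat.card {g : G // Subgroup.zpowers g = Subgroup.zpowers x₀} = Nat.totient (orderOf x₀) := by
  classical
  have : Fintype (Subgroup.zpowers x₀) := Fintype.ofFinite _
  have h := IsCyclic.card_orderOf_eq_totient (α := Subgroup.zpowers x₀) (d := orderOf x₀)
    (by rw [Fintype.card_eq_nat_card, Nat.card_zpowers])
  rw [← h, ← Fintype.card_subtype, ← Nat.card_eq_fintype_card]
  have hmem : ∀ g : G, Subgroup.zpowers g = Subgroup.zpowers x₀ → g ∈ Subgroup.zpowers x₀ :=
    fun g hg => hg ▸ Subgroup.mem_zpowers g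
  have hto : ∀ g : G, Subgroup.zpowers g = Subgroup.zpowers x₀ → orderOf g = orderOf x₀ := by
    intro g hg
    rw [← Nat.card_zpowers, hg, Nat.card_zpowers]
  have hinv : ∀ g : G, g ∈ Subgroup.zpowers x₀ → orderOf g = orderOf x₀ →
      Subgroup.zpowers g = Subgroup.zpowers x₀ := by
    intro g hg ho
    apply Subgroup.eq_of_le_of_card_ge (Subgroup.zpowers_le.2 hg)
    rw [Nat.card_zpowers, Nat.card_zpowers, ho]
  exact Nat.card_congr
    ⟨fun g => ⟨⟨g.1, hmem g.1 g.2⟩, by
        rw [Subgroup.orderOf_mk]; exact hto g.1 g.2⟩,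
      fun h => ⟨h.1.1, hinv h.1.1 h.1.2 (by rw [Subgroup.orderOf_coe]; exact h.2)⟩,
      fun g => rfl, fun h => rfl⟩

/-- A property invariant under change of generator is satisfied by a number of elements
divisible by any common divisor of the relevant totients. -/
theorem dvd_card_of_zpowers_invariant [Finite G] (m : ℕ) (P : G → Prop)
    (hP : ∀ x y : G, Subgroup.zpowers x = Subgroup.zpowers y → P x → P y)
    (h : ∀ x, P x → m ∣ Nat.totient (orderOf x)) : m ∣ Nat.card {x : G // P x} := by
  classical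
  have : Fintype (Subgroup G) := Fintype.ofFinite _
  rw [card_eq_sum_card_fiber (fun x : {x : G // P x} => Subgroup.zpowers x.1)]
  refine Finset.dvd_sum fun H _ => ?_
  by_cases hne : Nonempty {x : {x : G // P x} // Subgroup.zpowers x.1 = H}
  · obtain ⟨⟨⟨x₀, hx₀⟩, rfl⟩⟩ := hne
    have e : {x : {x : G // P x} // Subgroup.zpowers x.1 = Subgroup.zpowers x₀} ≃
        {g : G // Subgroup.zpowers g = Subgroup.zpowers x₀} :=
      ⟨fun x => ⟨x.1.1, x.2⟩, fun g => ⟨⟨g.1, hP _ _ g.2.symm hx₀⟩, g.2⟩, fun x => rfl,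
        fun g => rfl⟩
    rw [Nat.card_congr e, card_zpowers_eq_zpowers]; exact h x₀ hx₀
  · rw [not_nonempty_iff] at hne
    simp

/-- The number of `p`-elements is congruent to `1` modulo `p - 1`. -/
theorem sub_one_dvd_card_pElements_sub_one [Finite G] {p : ℕ} (hp : p.Prime) :
    Nat.card {g : G // ∃ k : ℕ, orderOf g = p ^ k} =
      Nat.card {g : G // g ≠ 1 ∧ ∃ k : ℕ, orderOf g = p ^ k} + 1 ∧
    p - 1 ∣ Nat.card {g : G // g ≠ 1 ∧ ∃ k : ℕ, orderOf g = p ^ k} := by
  constructor
  · have h1 : Nat.card {g : G // ∃ k : ℕ, orderOf g = p ^ k} =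
        Set.ncard {g : G | ∃ k : ℕ, orderOf g = p ^ k} := Nat.card_coe_set_eq _
    have h2 : Nat.card {g : G // g ≠ 1 ∧ ∃ k : ℕ, orderOf g = p ^ k} =
        Set.ncard {g : G | g ≠ 1 ∧ ∃ k : ℕ, orderOf g = p ^ k} := Nat.card_coe_set_eq _
    rw [h1, h2]
    have h3 : {g : G | ∃ k : ℕ, orderOf g = p ^ k} =
        insert 1 {g : G | g ≠ 1 ∧ ∃ k : ℕ, orderOf g = p ^ k} := by
      ext g
      simp only [Set.mem_insert_iff, Set.mem_ofPred_eq]
      constructor
      · intro hg
        by_cases h : g = 1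
        · exact Or.inl h
        · exact Or.inr ⟨h, hg⟩
      · rintro (rfl | ⟨_, hg⟩)
        · exact ⟨0, by simp⟩
        · exact hg
    rw [h3, Set.ncard_insert_of_notMem (by simp) (Set.toFinite _)]
  · apply dvd_card_of_zpowers_invariant
    · rintro x y hxy ⟨hx1, k, hk⟩
      have ho : orderOf y = orderOf x := by
        rw [← Nat.card_zpowers, ← hxy, Nat.card_zpowers]
      refine ⟨?_, k, ho.trans hk⟩
      rintro rfl
      rw [orderOf_one] at ho
      exact hx1 (orderOf_eq_one_iff.1 ho.symm)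
    · rintro x ⟨hx1, k, hk⟩
      rw [hk]
      have hk0 : k ≠ 0 := by
        rintro rfl
        rw [pow_zero] at hk
        exact hx1 (orderOf_eq_one_iff.1 hk)
      rw [Nat.totient_prime_pow hp (Nat.pos_of_ne_zero hk0)]
      exact Dvd.intro_left _ rfl

end Generators

end Cfsg.Agent.Helper29
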