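import Mathlib

/-!
# CALL S2357, piece CYCT (helper29): the number of elements of order `i` in a cyclic subgroup.
-/

set_option autoImplicit false

namespace Cfsg.Agent.Helper29

/-- PIECE CYCT -/
theorem card_orderOf_eq_totient_of_isCyclic {G : Type*} [Group G] [Finite G] (T : Subgroup G)
    (hT : IsCyclic T) {i : ℕ} (hi : i ∣ Nat.card T) :
    Nat.card {g : G // g ∈ T ∧ orderOf g = i} = Nat.totient i := by
  classical
  haveI : Fintype T := Fintype.ofFinite T
  have e : {g : G // g ∈ T ∧ orderOf g = i} ≃ {x : T // orderOf x = i} :=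
    { toFun := fun g => ⟨⟨g.1, g.2.1⟩, by rw [Subgroup.orderOf_mk]; exact g.2.2⟩
      invFun := fun x => ⟨x.1.1, x.1.2, by rw [Subgroup.orderOf_coe]; exact x.2⟩
      left_inv := fun g => rfl
      right_inv := fun x => rfl }
  rw [Nat.card_congr e, Nat.card_eq_fintype_card, Fintype.card_subtype]
  rw [Nat.card_eq_fintype_card] at hi
  exact IsCyclic.card_orderOf_eq_totient hi

end Cfsg.Agent.Helper29
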