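import Mathlib
import Cfsg.Prelude.Def_PLocal
import Cfsg.Agent.Helper29.CyclicMax
import Cfsg.Agent.Helper29.PCube
import Cfsg.Agent.Helper29.ElemAbSq
import Cfsg.Agent.Helper76.PGroup

/-!
# `p`-groups with a normal cyclic self-centralizing subgroup (helper29)

`CSC p G u m`: `⟨u⟩` is normal, self-centralizing, of order `p ^ (m + 1)` in the `p`-group `G`.
-/

set_option autoImplicit false
set_option linter.unusedSectionVars false
set_option linter.unusedVariables false

namespace Cfsg.Agent.Helper29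

/-- For odd `p`: `s ^ p ≡ 1 (mod p ^ (m + 1))` implies `s ≡ 1 (mod p ^ m)`. -/
theorem modEq_one_of_pow_prime {p : ℕ} [Fact p.Prime] (hp2 : p ≠ 2) (m : ℕ) (s : ℕ)
    (hsp : s ^ p ≡ 1 [MOD p ^ (m + 1)]) : s ≡ 1 [MOD p ^ m] := by
  have hp : p.Prime := Fact.out
  have hodd : Odd p := hp.odd_of_ne_two hp2
  have hQ2 : 2 ≤ p ^ (m + 1) := by
    calc 2 ≤ p := hp.two_le
      _ = p ^ 1 := (pow_one p).symm
      _ ≤ p ^ (m + 1) := Nat.pow_le_pow_right hp.pos (by omega)
  rcases Nat.lt_or_ge s 2 with h | hs2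
  · interval_cases s
    · exfalso
      rw [zero_pow hp.ne_zero] at hsp
      unfold Nat.ModEq at hsp
      rw [Nat.zero_mod, Nat.mod_eq_of_lt (by omega)] at hsp
      omega
    · exact Nat.ModEq.refl 1
  have hs_modp : s ≡ 1 [MOD p] := by
    have h1 : s ^ p ≡ 1 [MOD p] := hsp.of_dvd (dvd_pow_self p (by omega))
    have h2 : ((s : ZMod p)) ^ p = 1 := by
      have := (ZMod.natCast_eq_natCast_iff _ _ _).mpr h1
      simpa using this
    rw [ZMod.pow_card] at h2
    exact (ZMod.natCast_eq_natCast_iff _ _ _).mp (by simpa using h2)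
  have hdvd1 : p ∣ s - 1 := (Nat.modEq_iff_dvd' (by omega)).mp hs_modp.symm
  have hnd : ¬ p ∣ s := by
    intro h
    have h1 : p ∣ s - (s - 1) := Nat.dvd_sub h hdvd1
    have h2 : s - (s - 1) = 1 := by omega
    rw [h2] at h1
    exact hp.one_lt.ne' (Nat.dvd_one.mp h1)
  have hlte := padicValNat.pow_sub_pow hodd (show 1 < s by omega) hdvd1 hnd (n := p) hp.ne_zero
  rw [one_pow, padicValNat_self] at hlte
  have hsp2 : 2 ≤ s ^ p := le_trans hs2 (Nat.le_self_pow hp.ne_zero s)
  have hdvd2 : p ^ (m + 1) ∣ s ^ p - 1 := (Nat.modEq_iff_dvd' (by omega)).mp hsp.symm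
  have hval := (padicValNat_dvd_iff_le (by omega : s ^ p - 1 ≠ 0)).mp hdvd2
  have hdvd3 : p ^ m ∣ s - 1 := (padicValNat_dvd_iff_le (by omega : s - 1 ≠ 0)).mpr (by omega)
  exact ((Nat.modEq_iff_dvd' (by omega)).mpr hdvd3).symm

/-- The divisibility behind `Ω₁` of the modular group: `p ^ (m + 1) ∣ i * Σ_{l<p} s^(jl)` with
`s = 1 + p ^ m` forces `p ^ m ∣ i`. -/
theorem dvd_of_dvd_mul_geom {p : ℕ} [Fact p.Prime] (m : ℕ) (hm : 1 ≤ m) (hpm : p ≠ 2 ∨ 2 ≤ m)
    (i j : ℕ) (h : p ^ (m + 1) ∣ i * ∑ l ∈ Finset.range p, ((1 + p ^ m) ^ j) ^ l) :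
    p ^ m ∣ i := by
  have hp : p.Prime := Fact.out
  set T := ∑ l ∈ Finset.range p, l with hT
  have h1 : ∀ l : ℕ, ((((1 + p ^ m) ^ j) ^ l : ℕ) : ZMod (p ^ (m + 1))) =
      1 + ((j * l : ℕ) : ZMod (p ^ (m + 1))) * (p : ZMod (p ^ (m + 1))) ^ m := by
    intro l
    have := one_add_pow_zmod p m hm 1 (j * l)
    rw [mul_one] at this
    rw [← pow_mul, Nat.cast_pow, this]
    push_cast
    ring
  have hsum : ((∑ l ∈ Finset.range p, ((1 + p ^ m) ^ j) ^ l : ℕ) : ZMod (p ^ (m + 1))) =
      ((p + j * T * p ^ m : ℕ) : ZMod (p ^ (m + 1))) := by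
    rw [Nat.cast_sum]
    simp only [h1]
    rw [Finset.sum_add_distrib, ← Finset.sum_mul, ← Nat.cast_sum, ← Finset.mul_sum, ← hT]
    simp only [Finset.sum_const, Finset.card_range, nsmul_eq_mul, mul_one]
    push_cast
    ring
  have h2 : p ^ (m + 1) ∣ i * (p + j * T * p ^ m) := by
    apply (ZMod.natCast_eq_zero_iff _ _).mp
    have h3 := (ZMod.natCast_eq_zero_iff _ _).mpr h
    rw [Nat.cast_mul] at h3 ⊢
    rw [← hsum]
    exact h3
  obtain ⟨m', rfl⟩ : ∃ m', m = m' + 1 := ⟨m - 1, by omega⟩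
  have h3 : i * (p + j * T * p ^ (m' + 1)) = (i * (1 + j * T * p ^ m')) * p := by ring
  rw [h3, pow_succ p (m' + 1)] at h2
  have h4 : p ^ (m' + 1) ∣ i * (1 + j * T * p ^ m') := (Nat.mul_dvd_mul_iff_right hp.pos).mp h2
  have hcop : Nat.Coprime (p ^ (m' + 1)) (1 + j * T * p ^ m') := by
    apply Nat.Coprime.pow_left
    rw [Nat.Prime.coprime_iff_not_dvd hp]
    intro hd
    have hpd : p ∣ j * T * p ^ m' := by
      rcases hpm with hp2 | hm2
      · obtain ⟨k, hk⟩ := hp.odd_of_ne_two hp2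
        have hT' : T = p * k := by
          have e1 := Finset.sum_range_id_mul_two p
          have e2 : p - 1 = 2 * k := by omega
          rw [e2] at e1
          have e3 : T * 2 = (p * k) * 2 := by rw [hT, e1]; ring
          exact Nat.eq_of_mul_eq_mul_right (by norm_num) e3
        rw [hT']
        exact Dvd.intro (j * k * p ^ m') (by ring)
      · exact Dvd.dvd.mul_left (dvd_pow_self p (by omega)) _
    have h5 : p ∣ 1 := (Nat.dvd_add_left hpd).mp hd
    exact hp.one_lt.ne' (Nat.dvd_one.mp h5)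
  exact hcop.dvd_of_dvd_mul_right h4

/-- Variant of `exists_elemAb_sq` recording the shape of the elements. -/
theorem exists_elemAb_sq' {G : Type*} [Group G] [Finite G] (p : ℕ) [Fact p.Prime] (z y : G)
    (hz : orderOf z = p) (hy : orderOf y = p) (hzy : z * y = y * z)
    (hyz : y ∉ Subgroup.zpowers z) :
    ∃ E : Subgroup G, Nat.card E = p * p ∧ IsMulCommutative E ∧ (∀ e ∈ E, e ^ p = 1) ∧
      z ∈ E ∧ y ∈ E ∧ ¬ IsCyclic E ∧ ∀ e ∈ E, ∃ i j : ℕ, e = z ^ i * y ^ j := by
  have hp : p.Prime := Fact.out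
  have hdisj : ∀ u : G, u ∈ Subgroup.zpowers z → u ∈ Subgroup.zpowers y → u = 1 := by
    intro u hu1 hu2
    by_contra hu
    have h1 : Subgroup.zpowers u = Subgroup.zpowers z := by
      have : Finite (Subgroup.zpowers z) := by
        apply Nat.finite_of_card_ne_zero
        rw [Nat.card_zpowers, hz]; exact hp.ne_zero
      apply Subgroup.eq_of_le_of_card_ge (Subgroup.zpowers_le.mpr hu1)
      rw [Nat.card_zpowers, Nat.card_zpowers, hz]
      have h2 : orderOf u ∣ p := by
        have := orderOf_dvd_natCard (⟨u, hu1⟩ : Subgroup.zpowers z)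
        rwa [Subgroup.orderOf_mk, Nat.card_zpowers, hz] at this
      rcases (Nat.dvd_prime hp).mp h2 with h3 | h3
      · exact absurd (orderOf_eq_one_iff.mp h3) hu
      · rw [h3]
    have h2 : Subgroup.zpowers u = Subgroup.zpowers y := by
      have : Finite (Subgroup.zpowers y) := by
        apply Nat.finite_of_card_ne_zero
        rw [Nat.card_zpowers, hy]; exact hp.ne_zero
      apply Subgroup.eq_of_le_of_card_ge (Subgroup.zpowers_le.mpr hu2)
      rw [h1, Nat.card_zpowers, Nat.card_zpowers, hz, hy]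
    apply hyz
    rw [← h1, h2]
    exact Subgroup.mem_zpowers _
  have hcomm : ∀ (m : Subgroup.zpowers z) (n : Subgroup.zpowers y),
      Commute ((Subgroup.zpowers z).subtype m) ((Subgroup.zpowers y).subtype n) := by
    intro m n
    obtain ⟨i, hi⟩ := Subgroup.mem_zpowers_iff.mp m.2
    obtain ⟨j, hj⟩ := Subgroup.mem_zpowers_iff.mp n.2
    show (m : G) * (n : G) = (n : G) * (m : G)
    rw [← hi, ← hj]
    have h1 : Commute z y := hzy
    exact (h1.zpow_zpow i j).eq
  set f := MonoidHom.noncommCoprod (Subgroup.zpowers z).subtype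
    (Subgroup.zpowers y).subtype hcomm with hf
  have hfinj : Function.Injective f := by
    rw [hf, MonoidHom.noncommCoprod_injective]
    refine ⟨Subgroup.subtype_injective _, Subgroup.subtype_injective _, ?_⟩
    rw [Subgroup.range_subtype, Subgroup.range_subtype, Subgroup.disjoint_def]
    exact fun {u} hu1 hu2 => hdisj u hu1 hu2
  have hEcard : Nat.card f.range = p * p := by
    rw [← Nat.card_congr (MonoidHom.ofInjective hfinj).toEquiv, Nat.card_prod, Nat.card_zpowers,
      Nat.card_zpowers, hz, hy]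
  have hEexp : ∀ e ∈ f.range, e ^ p = 1 := by
    rintro _ ⟨⟨u, v⟩, rfl⟩
    have h1 : f (u, v) = (u : G) * (v : G) := by
      rw [hf, MonoidHom.noncommCoprod_apply]; rfl
    have hc : Commute (u : G) (v : G) := hcomm u v
    rw [h1, hc.mul_pow]
    have hu : (u : G) ^ p = 1 := by
      obtain ⟨i, hi⟩ := Subgroup.mem_zpowers_iff.mp u.2
      rw [← hi, ← zpow_natCast, ← zpow_mul, mul_comm, zpow_mul, zpow_natCast, ← hz,
        pow_orderOf_eq_one, one_zpow]
    have hv : (v : G) ^ p = 1 := by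
      obtain ⟨i, hi⟩ := Subgroup.mem_zpowers_iff.mp v.2
      rw [← hi, ← zpow_natCast, ← zpow_mul, mul_comm, zpow_mul, zpow_natCast, ← hy,
        pow_orderOf_eq_one, one_zpow]
    rw [hu, hv, one_mul]
  refine ⟨f.range, hEcard, ?_, hEexp, ?_, ?_, ?_, ?_⟩
  · refine ⟨⟨?_⟩⟩
    rintro ⟨_, a, rfl⟩ ⟨_, b, rfl⟩
    apply Subtype.ext
    show f a * f b = f b * f a
    rw [← map_mul, ← map_mul]
    congr 1
    exact Prod.ext (zpowers_comm' _ a.1 b.1) (zpowers_comm' _ a.2 b.2)
  · refine ⟨(⟨z, Subgroup.mem_zpowers z⟩, 1), ?_⟩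
    rw [hf, MonoidHom.noncommCoprod_apply]; simp
  · refine ⟨(1, ⟨y, Subgroup.mem_zpowers y⟩), ?_⟩
    rw [hf, MonoidHom.noncommCoprod_apply]; simp
  · intro hcyc
    have : Finite f.range := by
      apply Nat.finite_of_card_ne_zero
      rw [hEcard]; exact Nat.mul_ne_zero hp.ne_zero hp.ne_zero
    obtain ⟨g, hg⟩ := hcyc.exists_generator
    have h1 : orderOf g = p * p := by
      rw [← hEcard]
      exact orderOf_eq_card_of_forall_mem_zpowers hg
    have h2 : g ^ p = 1 := Subtype.ext (by simpa using hEexp g g.2)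
    have h3 := orderOf_dvd_of_pow_eq_one h2
    rw [h1] at h3
    have h4 := Nat.le_of_dvd hp.pos h3
    have h5 := hp.one_lt
    nlinarith
  · rintro _ ⟨⟨u, v⟩, rfl⟩
    obtain ⟨i, hi⟩ := (Submonoid.mem_powers_iff _ _).mp (mem_powers_iff_mem_zpowers.mpr u.2)
    obtain ⟨j, hj⟩ := (Submonoid.mem_powers_iff _ _).mp (mem_powers_iff_mem_zpowers.mpr v.2)
    refine ⟨i, j, ?_⟩
    rw [hf, MonoidHom.noncommCoprod_apply, hi, hj]; rfl

/-- `⟨u⟩` is a normal self-centralizing cyclic subgroup of order `p ^ (m + 1)` of the `p`-group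
`G`. -/
structure CSC (p : ℕ) (G : Type*) [Group G] (u : G) (m : ℕ) : Prop where
  pgroup : IsPGroup p G
  order : orderOf u = p ^ (m + 1)
  normal : (Subgroup.zpowers u).Normal
  cent : ∀ g : G, g * u = u * g → g ∈ Subgroup.zpowers u

theorem centralizer_powerClosure {G : Type*} [Group G] (p : ℕ) (u : G) :
    Subgroup.centralizer (Cfsg.powerClosure p 1 (Subgroup.zpowers u) : Set G) =
      Subgroup.centralizer ({u ^ p} : Set G) := by
  ext g
  rw [Subgroup.mem_centralizer_iff, Subgroup.mem_centralizer_singleton_iff]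
  constructor
  · intro h
    have h1 : u ^ p ∈ Cfsg.powerClosure p 1 (Subgroup.zpowers u) :=
      Subgroup.subset_closure ⟨u, Subgroup.mem_zpowers u, by rw [pow_one]⟩
    exact (h _ h1).symm
  · intro h x hx
    have hle : Cfsg.powerClosure p 1 (Subgroup.zpowers u) ≤ Subgroup.centralizer ({g} : Set G) := by
      unfold Cfsg.powerClosure
      rw [Subgroup.closure_le]
      rintro y ⟨w, hw, rfl⟩
      obtain ⟨k, rfl⟩ := Subgroup.mem_zpowers_iff.mp hw
      rw [SetLike.mem_coe, Subgroup.mem_centralizer_singleton_iff, pow_one]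
      have h2 : (u ^ k) ^ p = (u ^ p) ^ k := by
        rw [← zpow_natCast, ← zpow_mul, mul_comm, zpow_mul, zpow_natCast]
      rw [h2]
      have h3 : Commute g (u ^ p) := h
      exact (h3.zpow_right k).eq.symm
    exact Subgroup.mem_centralizer_singleton_iff.mp (hle hx)

namespace CSC

variable {p : ℕ} [Fact p.Prime] {G : Type*} [Group G] [Finite G] {u : G} {m : ℕ}

theorem exists_exp (h : CSC p G u m) (g : G) : ∃ s : ℕ, g * u * g⁻¹ = u ^ s := by
  have h1 := h.normal.conj_mem u (Subgroup.mem_zpowers u) g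
  obtain ⟨s, hs⟩ := (Submonoid.mem_powers_iff _ _).mp (mem_powers_iff_mem_zpowers.mpr h1)
  exact ⟨s, hs.symm⟩

theorem orderOf_z (h : CSC p G u m) : orderOf (u ^ (p ^ m)) = p := by
  have hp : p.Prime := Fact.out
  rw [orderOf_pow_of_dvd (pow_pos hp.pos m).ne' (by rw [h.order]; exact pow_dvd_pow p (by omega)),
    h.order, pow_succ]
  exact Nat.mul_div_cancel_left p (pow_pos hp.pos m)

theorem z_central (h : CSC p G u m) (g : G) : g * u ^ (p ^ m) = u ^ (p ^ m) * g := by
  have hN : (Subgroup.zpowers (u ^ (p ^ m))).Normal := by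
    constructor
    intro n hn g
    obtain ⟨k, rfl⟩ := Subgroup.mem_zpowers_iff.mp hn
    obtain ⟨s, hs⟩ := h.exists_exp g
    have h1 : g * (u ^ (p ^ m)) * g⁻¹ = (u ^ (p ^ m)) ^ s := by
      rw [conj_pow_of_conj hs, ← pow_mul, mul_comm]
    rw [← conj_zpow, h1]
    exact Subgroup.zpow_mem _ (Subgroup.pow_mem _ (Subgroup.mem_zpowers _) _) _
  have hcard : Nat.card (Subgroup.zpowers (u ^ (p ^ m))) = p := by
    rw [Nat.card_zpowers, h.orderOf_z]
  have h2 := Cfsg.Agent.Helper76.normal_card_prime_le_center h.pgroup _ hcard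
    (Subgroup.mem_zpowers (u ^ (p ^ m)))
  exact Subgroup.mem_center_iff.mp h2 g

theorem mem_zpowers_iff (h : CSC p G u m) (g : G) : g ∈ Subgroup.zpowers u ↔ g * u = u * g := by
  constructor
  · intro hg
    obtain ⟨k, rfl⟩ := Subgroup.mem_zpowers_iff.mp hg
    exact ((Commute.refl u).zpow_left k).eq
  · exact h.cent g

theorem comm_pow_iff (h : CSC p G u m) (g : G) (s : ℕ) (hs : g * u * g⁻¹ = u ^ s) :
    g * u ^ p = u ^ p * g ↔ s ≡ 1 [MOD p ^ m] := by
  have hp : p.Prime := Fact.out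
  have h1 : g * u ^ p * g⁻¹ = u ^ (s * p) := conj_pow_of_conj hs p
  have h2 : g * u ^ p = u ^ p * g ↔ u ^ (s * p) = u ^ (1 * p) := by
    rw [← h1, one_mul]
    constructor
    · intro h3; rw [h3]; group
    · intro h3
      calc g * u ^ p = g * u ^ p * g⁻¹ * g := by group
        _ = u ^ p * g := by rw [h3]
  rw [h2, pow_eq_pow_iff_modEq, h.order, pow_succ]
  exact ⟨Nat.ModEq.mul_right_cancel' hp.ne_zero, Nat.ModEq.mul_right' p⟩

/-- Elements centralizing `u ^ p` have commutator with `u` in `⟨z⟩`. -/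
theorem comm_mem (h : CSC p G u m) (hm : 1 ≤ m) (g : G) (hg : g * u ^ p = u ^ p * g) :
    g * u * g⁻¹ * u⁻¹ ∈ Subgroup.zpowers (u ^ (p ^ m)) := by
  have hp : p.Prime := Fact.out
  obtain ⟨s, hs⟩ := h.exists_exp g
  have h1 := (h.comm_pow_iff g s hs).mp hg
  have hs1 : 1 ≤ s := by
    by_contra h0
    have : s = 0 := by omega
    rw [this] at h1
    have h2 := (Nat.modEq_zero_iff_dvd.mp h1.symm)
    have h3 : 1 < p ^ m := Nat.one_lt_pow (by omega) hp.one_lt
    have h4 := Nat.le_of_dvd (by norm_num) h2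
    omega
  obtain ⟨k, hk⟩ := (Nat.modEq_iff_dvd' hs1).mp h1.symm
  have hs' : s = p ^ m * k + 1 := by omega
  rw [hs, hs', pow_succ, mul_inv_cancel_right, pow_mul]
  exact Subgroup.pow_mem _ (Subgroup.mem_zpowers _) _

theorem le_cent (h : CSC p G u m) :
    Subgroup.zpowers u ≤ Subgroup.centralizer ({u ^ p} : Set G) := by
  rw [Subgroup.zpowers_le, Subgroup.mem_centralizer_singleton_iff]
  exact ((Commute.refl u).pow_right p).eq

/-- The index of `⟨u⟩` in `C(u ^ p)` divides `p`. -/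
theorem relIndex_dvd (h : CSC p G u m) (hm : 1 ≤ m) :
    (Subgroup.zpowers u).relIndex (Subgroup.centralizer ({u ^ p} : Set G)) ∣ p := by
  have hp : p.Prime := Fact.out
  set M := Subgroup.centralizer ({u ^ p} : Set G) with hM
  have hzc : Subgroup.zpowers (u ^ (p ^ m)) ≤ Subgroup.center G := by
    rw [Subgroup.zpowers_le, Subgroup.mem_center_iff]
    exact h.z_central
  have hc : ∀ g ∈ M, g * u * g⁻¹ * u⁻¹ ∈ Subgroup.center G := fun g hg =>
    hzc (h.comm_mem hm g (Subgroup.mem_centralizer_singleton_iff.mp hg))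
  have hker : (centralCommHom M u hc).ker = (Subgroup.zpowers u).subgroupOf M := by
    ext g
    rw [MonoidHom.mem_ker, Subgroup.mem_subgroupOf, h.mem_zpowers_iff]
    constructor
    · intro h1
      have h2 : (g : G) * u * (g : G)⁻¹ * u⁻¹ = 1 := congrArg Subtype.val h1
      calc (g : G) * u = ((g : G) * u * (g : G)⁻¹ * u⁻¹) * u * (g : G) := by group
        _ = u * (g : G) := by rw [h2, one_mul]
    · intro h1
      apply Subtype.ext
      show (g : G) * u * (g : G)⁻¹ * u⁻¹ = 1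
      rw [h1]; group
  have hrange : (centralCommHom M u hc).range ≤
      (Subgroup.zpowers (u ^ (p ^ m))).subgroupOf (Subgroup.center G) := by
    rintro _ ⟨g, rfl⟩
    rw [Subgroup.mem_subgroupOf]
    exact h.comm_mem hm g (Subgroup.mem_centralizer_singleton_iff.mp g.2)
  have hcard : Nat.card ((Subgroup.zpowers (u ^ (p ^ m))).subgroupOf (Subgroup.center G)) = p := by
    rw [Nat.card_congr (Subgroup.subgroupOfEquivOfLe hzc).toEquiv, Nat.card_zpowers, h.orderOf_z]
  have h1 : (Subgroup.zpowers u).relIndex M = Nat.card (centralCommHom M u hc).range := by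
    rw [Subgroup.relIndex, ← hker, Subgroup.index_ker]
  rw [h1, ← hcard]
  exact Subgroup.card_dvd_of_le hrange

theorem relIndex_eq (h : CSC p G u m) (hm : 1 ≤ m) (x : G) (hx : x * u ^ p = u ^ p * x)
    (hxU : x ∉ Subgroup.zpowers u) :
    (Subgroup.zpowers u).relIndex (Subgroup.centralizer ({u ^ p} : Set G)) = p := by
  have hp : p.Prime := Fact.out
  rcases (Nat.dvd_prime hp).mp (h.relIndex_dvd hm) with h1 | h1
  · exfalso
    rw [Subgroup.relIndex_eq_one] at h1
    exact hxU (h1 (Subgroup.mem_centralizer_singleton_iff.mpr hx))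
  · exact h1

/-- Elements of `⟨u⟩` of order dividing `p` lie in `⟨u ^ (p ^ m)⟩`. -/
theorem mem_z_of_pow (h : CSC p G u m) (c : G) (hc : c ∈ Subgroup.zpowers u) (hcp : c ^ p = 1) :
    ∃ k : ℕ, c = (u ^ (p ^ m)) ^ k := by
  have hp : p.Prime := Fact.out
  obtain ⟨k, rfl⟩ := (Submonoid.mem_powers_iff _ _).mp (mem_powers_iff_mem_zpowers.mpr hc)
  rw [← pow_mul] at hcp
  have h1 := orderOf_dvd_of_pow_eq_one hcp
  rw [h.order, pow_succ] at h1
  obtain ⟨k', hk'⟩ := (Nat.mul_dvd_mul_iff_right hp.pos).mp h1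
  exact ⟨k', by rw [hk', pow_mul]⟩

/-- The modular case: `Ω₁(C(u ^ p))` is elementary abelian of order `p ^ 2` and
characteristic. -/
theorem omega (h : CSC p G u m) (hm : 1 ≤ m) (hpm : p ≠ 2 ∨ 2 ≤ m) (b : G) (hb : orderOf b = p)
    (hbU : b ∉ Subgroup.zpowers u) (hbu : b * u * b⁻¹ = u ^ (1 + p ^ m)) :
    ∃ E : Subgroup G, (E : Set G) = {x | x * u ^ p = u ^ p * x ∧ x ^ p = 1} ∧
      Nat.card E = p * p ∧ IsMulCommutative E ∧ ¬ IsCyclic E ∧ E.Characteristic ∧
      (Subgroup.zpowers u).relIndex (Subgroup.centralizer ({u ^ p} : Set G)) = p := by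
  have hp : p.Prime := Fact.out
  have hUn : (Subgroup.zpowers u).Normal := h.normal
  set z := u ^ (p ^ m) with hz
  have hzo : orderOf z = p := h.orderOf_z
  have hzc : ∀ g : G, g * z = z * g := h.z_central
  have hzU : z ∈ Subgroup.zpowers u := Subgroup.pow_mem _ (Subgroup.mem_zpowers u) _
  have hbz : b ∉ Subgroup.zpowers z := fun hmem => hbU ((Subgroup.zpowers_le.mpr hzU) hmem)
  obtain ⟨E, hEcard, hEcomm, hEexp, hzE, hbE, hEnc, hEel⟩ :=
    exists_elemAb_sq' p z b hzo hb (hzc b).symm hbz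
  have hbM : b * u ^ p = u ^ p * b := by
    rw [h.comm_pow_iff b _ hbu]
    exact (Nat.modEq_iff_dvd' (by omega)).mpr (by simp) |>.symm
  have hbp : b ^ p = 1 := by rw [← hb]; exact pow_orderOf_eq_one b
  have hrel := h.relIndex_eq hm b hbM hbU
  -- the set description
  have hset : (E : Set G) = {x | x * u ^ p = u ^ p * x ∧ x ^ p = 1} := by
    ext x
    constructor
    · intro hx
      refine ⟨?_, hEexp x hx⟩
      obtain ⟨i, j, rfl⟩ := hEel x hx
      have h1 : Commute (z ^ i) (u ^ p) := by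
        have : Commute z (u ^ p) := (hzc (u ^ p)).symm
        exact this.pow_left i
      have h2 : Commute (b ^ j) (u ^ p) := by
        have : Commute b (u ^ p) := hbM
        exact this.pow_left j
      exact (h1.mul_left h2).eq
    · rintro ⟨hx1, hx2⟩
      -- decompose `x = u ^ i * b ^ j`
      set π := QuotientGroup.mk' (Subgroup.zpowers u) with hπ
      set M := Subgroup.centralizer ({u ^ p} : Set G) with hM
      have hcardM : Nat.card (M.map π) = p := by
        rw [← Subgroup.relIndex_ker, QuotientGroup.ker_mk']; exact hrel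
      have hπb1 : π b ≠ 1 := by
        intro h1
        exact hbU ((QuotientGroup.eq_one_iff b).mp h1)
      have hπbo : orderOf (π b) = p := by
        apply orderOf_eq_prime
        · rw [← map_pow, hbp, map_one]
        · exact hπb1
      have hle : Subgroup.zpowers (π b) ≤ M.map π := by
        rw [Subgroup.zpowers_le]
        exact Subgroup.mem_map_of_mem π (Subgroup.mem_centralizer_singleton_iff.mpr hbM)
      have heq : Subgroup.zpowers (π b) = M.map π :=
        Subgroup.eq_of_le_of_card_ge hle (by rw [hcardM, Nat.card_zpowers, hπbo])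
      have hπx : π x ∈ Subgroup.zpowers (π b) := by
        rw [heq]
        exact Subgroup.mem_map_of_mem π (Subgroup.mem_centralizer_singleton_iff.mpr hx1)
      obtain ⟨j, hj⟩ := (Submonoid.mem_powers_iff _ _).mp (mem_powers_iff_mem_zpowers.mpr hπx)
      have hxb : x * (b ^ j)⁻¹ ∈ Subgroup.zpowers u := by
        rw [← QuotientGroup.eq_one_iff]
        show π (x * (b ^ j)⁻¹) = 1
        rw [map_mul, map_inv, map_pow, hj, mul_inv_cancel]
      obtain ⟨i, hi⟩ := (Submonoid.mem_powers_iff _ _).mp (mem_powers_iff_mem_zpowers.mpr hxb)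
      have hx : x = u ^ i * b ^ j := by rw [hi]; group
      -- the `p`-th power
      have hconj : b ^ j * u * (b ^ j)⁻¹ = u ^ ((1 + p ^ m) ^ j) := pow_conj_of_conj hbu j
      have hpow := mul_pow_of_conj hconj i p
      rw [← hx, hx2] at hpow
      have hbjp : (b ^ j) ^ p = 1 := by rw [← pow_mul, mul_comm, pow_mul, hbp, one_pow]
      rw [hbjp, mul_one] at hpow
      have hdvd := orderOf_dvd_of_pow_eq_one hpow.symm
      rw [h.order] at hdvd
      obtain ⟨i', hi'⟩ := dvd_of_dvd_mul_geom m hm hpm i j hdvd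
      rw [hx, hi', pow_mul]
      exact E.mul_mem (E.pow_mem hzE _) (E.pow_mem hbE _)
  -- normality
  have hEn : E.Normal := by
    constructor
    intro x hx g
    have hx' : x ∈ (E : Set G) := hx
    rw [hset] at hx'
    obtain ⟨hx1, hx2⟩ := hx'
    have hgoal : g * x * g⁻¹ ∈ (E : Set G) := by
      rw [hset]
      refine ⟨?_, by rw [conj_pow, hx2]; group⟩
      obtain ⟨t, ht⟩ := h.exists_exp g⁻¹
      rw [inv_inv] at ht
      have h1 : g⁻¹ * u ^ p * g = (u ^ p) ^ t := by
        have := conj_pow_of_conj (b := g⁻¹) (c := u) (s := t) (by rw [inv_inv]; exact ht) p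
        rw [inv_inv] at this
        rw [this, ← pow_mul, mul_comm]
      have h2 : Commute x ((u ^ p) ^ t) := by
        have : Commute x (u ^ p) := hx1
        exact this.pow_right t
      calc g * x * g⁻¹ * u ^ p = g * (x * (g⁻¹ * u ^ p * g)) * g⁻¹ := by group
        _ = g * ((g⁻¹ * u ^ p * g) * x) * g⁻¹ := by rw [h1, h2.eq]
        _ = u ^ p * (g * x * g⁻¹) := by group
    exact hgoal
  refine ⟨E, hset, hEcard, hEcomm, hEnc, ?_, hrel⟩
  -- characteristic
  rw [Subgroup.characteristic_iff_map_le]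
  intro φ
  have hFn : (E.map φ.toMonoidHom).Normal := hEn.map φ.toMonoidHom φ.surjective
  rintro _ ⟨e, he, rfl⟩
  have hfF : φ.toMonoidHom e ∈ E.map φ.toMonoidHom := Subgroup.mem_map_of_mem _ he
  set f := φ.toMonoidHom e with hf
  have hfp : f ^ p = 1 := by rw [hf, ← map_pow, hEexp e he, map_one]
  have hFexp : ∀ y ∈ E.map φ.toMonoidHom, y ^ p = 1 := by
    rintro _ ⟨e', he', rfl⟩
    rw [← map_pow, hEexp e' he', map_one]
  set c := f * u * f⁻¹ * u⁻¹ with hc
  have hcF : c ∈ E.map φ.toMonoidHom := by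
    have h1 : u * f⁻¹ * u⁻¹ ∈ E.map φ.toMonoidHom :=
      hFn.conj_mem _ ((E.map φ.toMonoidHom).inv_mem hfF) u
    have h2 : c = f * (u * f⁻¹ * u⁻¹) := by rw [hc]; group
    rw [h2]
    exact (E.map φ.toMonoidHom).mul_mem hfF h1
  have hcU : c ∈ Subgroup.zpowers u := by
    have h1 : f * u * f⁻¹ ∈ Subgroup.zpowers u := hUn.conj_mem u (Subgroup.mem_zpowers u) f
    exact (Subgroup.zpowers u).mul_mem h1 ((Subgroup.zpowers u).inv_mem (Subgroup.mem_zpowers u))
  obtain ⟨k, hk⟩ := h.mem_z_of_pow c hcU (hFexp c hcF)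
  have hcc : ∀ g : G, g * c = c * g := by
    intro g
    rw [hk]
    have : Commute g z := hzc g
    exact (this.pow_right k).eq
  have hfu : f * u * f⁻¹ = c * u := by rw [hc]; group
  have hgoal : f ∈ (E : Set G) := by
    rw [hset]
    refine ⟨?_, hfp⟩
    have h1 : f * u ^ p * f⁻¹ = u ^ p := by
      rw [← conj_pow, hfu]
      have : Commute c u := (hcc u).symm
      rw [this.mul_pow, hFexp c hcF, one_mul]
    calc f * u ^ p = f * u ^ p * f⁻¹ * f := by group
      _ = u ^ p * f := by rw [h1]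
  exact hgoal

end CSC

/-- The second alternative: `Ω₁(C(℧¹(U)))` is elementary abelian of order `p ^ 2`,
characteristic, and `U` has index `p` in `C(℧¹(U))`. -/
def Alt2 {G : Type*} [Group G] (p : ℕ) (U : Subgroup G) : Prop :=
  ∃ E : Subgroup G,
    (E : Set G) = {x | x ∈ Subgroup.centralizer (Cfsg.powerClosure p 1 U : Set G) ∧ x ^ p = 1} ∧
    Nat.card E = p * p ∧ IsMulCommutative E ∧ ¬ IsCyclic E ∧ E.Characteristic ∧
    U.relIndex (Subgroup.centralizer (Cfsg.powerClosure p 1 U : Set G)) = p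

/-- In a `p`-group, an element outside a subgroup has a `p`-power-th power outside the subgroup
whose `p`-th power is inside. -/
theorem exists_pow_not_mem {G : Type*} [Group G] {p : ℕ} (hG : IsPGroup p G) (H : Subgroup G)
    (v : G) (hv : v ∉ H) : ∃ i : ℕ, v ^ (p ^ i) ∉ H ∧ (v ^ (p ^ i)) ^ p ∈ H := by
  have hex : ∃ j : ℕ, v ^ (p ^ j) ∈ H := by
    obtain ⟨j, hj⟩ := hG v
    exact ⟨j, by rw [hj]; exact H.one_mem⟩
  classical
  have hj := Nat.find_spec hex
  have hmin := fun k => Nat.find_min hex (m := k)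
  set j := Nat.find hex
  have hj0 : j ≠ 0 := by
    intro h0
    rw [h0, pow_zero, pow_one] at hj
    exact hv hj
  obtain ⟨i, hi⟩ : ∃ i, j = i + 1 := ⟨j - 1, by omega⟩
  refine ⟨i, hmin i (by omega), ?_⟩
  rw [← pow_mul, ← pow_succ, ← hi]
  exact hj

namespace CSC

variable {p : ℕ} [Fact p.Prime] {G : Type*} [Group G] [Finite G] {u : G} {m : ℕ}

theorem of_zpowers_eq (h : CSC p G u m) (α : G)
    (hα : Subgroup.zpowers α = Subgroup.zpowers u) : CSC p G α m := by
  refine ⟨h.pgroup, ?_, by rw [hα]; exact h.normal, ?_⟩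
  · have h1 : Nat.card (Subgroup.zpowers α) = Nat.card (Subgroup.zpowers u) := by rw [hα]
    rw [Nat.card_zpowers, Nat.card_zpowers, h.order] at h1
    exact h1
  · intro g hg
    rw [hα]
    apply h.cent
    have hu : u ∈ Subgroup.zpowers α := by rw [hα]; exact Subgroup.mem_zpowers u
    obtain ⟨k, rfl⟩ := Subgroup.mem_zpowers_iff.mp hu
    have : Commute g α := hg
    exact (this.zpow_right k).eq

theorem alt2_of (h : CSC p G u m) (hm : 1 ≤ m) (hpm : p ≠ 2 ∨ 2 ≤ m) (b : G) (hb : orderOf b = p)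
    (hbU : b ∉ Subgroup.zpowers u) (hbu : b * u * b⁻¹ = u ^ (1 + p ^ m)) :
    Alt2 p (Subgroup.zpowers u) := by
  obtain ⟨E, hset, hcard, hcomm, hnc, hchar, hrel⟩ := h.omega hm hpm b hb hbU hbu
  refine ⟨E, ?_, hcard, hcomm, hnc, hchar, ?_⟩
  · rw [hset, centralizer_powerClosure]
    ext x
    simp only [Set.mem_ofPred_eq, Subgroup.mem_centralizer_singleton_iff]
  · rw [centralizer_powerClosure]; exact hrel

/-- Common set-up for applying the classification of groups with a cyclic maximal subgroup to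
`C(u ^ p)`. -/
theorem transfer_setup (h : CSC p G u m) (hm : 1 ≤ m) (x : G) (hx : x * u ^ p = u ^ p * x)
    (hxU : x ∉ Subgroup.zpowers u) :
    Nat.card (Subgroup.centralizer ({u ^ p} : Set G)) = p ^ (m + 2) ∧
    IsCyclic ((Subgroup.zpowers u).subgroupOf (Subgroup.centralizer ({u ^ p} : Set G))) ∧
    ((Subgroup.zpowers u).subgroupOf (Subgroup.centralizer ({u ^ p} : Set G))).index = p ∧
    ∃ a b : Subgroup.centralizer ({u ^ p} : Set G), a * b ≠ b * a := by
  set M := Subgroup.centralizer ({u ^ p} : Set G) with hM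
  have hidx : ((Subgroup.zpowers u).subgroupOf M).index = p := h.relIndex_eq hm x hx hxU
  have hcardC : Nat.card ((Subgroup.zpowers u).subgroupOf M) = p ^ (m + 1) := by
    rw [Nat.card_congr (Subgroup.subgroupOfEquivOfLe h.le_cent).toEquiv, Nat.card_zpowers, h.order]
  refine ⟨?_, ?_, hidx, ?_⟩
  · rw [← ((Subgroup.zpowers u).subgroupOf M).card_mul_index, hcardC, hidx]
    ring
  · exact isCyclic_of_surjective (Subgroup.subgroupOfEquivOfLe h.le_cent).symm.toMonoidHom
      (Subgroup.subgroupOfEquivOfLe h.le_cent).symm.surjective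
  · refine ⟨⟨x, Subgroup.mem_centralizer_singleton_iff.mpr hx⟩,
      ⟨u, h.le_cent (Subgroup.mem_zpowers u)⟩, ?_⟩
    intro hcomm
    apply hxU
    apply h.cent
    exact congrArg Subtype.val hcomm

theorem zpowers_coe_eq (h : CSC p G u m) (a' : Subgroup.centralizer ({u ^ p} : Set G))
    (ha' : Subgroup.zpowers a' =
      (Subgroup.zpowers u).subgroupOf (Subgroup.centralizer ({u ^ p} : Set G))) :
    Subgroup.zpowers (a' : G) = Subgroup.zpowers u := by
  have h1 := congrArg (Subgroup.map (Subgroup.centralizer ({u ^ p} : Set G)).subtype) ha'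
  rw [MonoidHom.map_zpowers, Subgroup.subgroupOf_map_subtype, inf_eq_left.mpr h.le_cent] at h1
  exact h1

theorem transfer_odd (h : CSC p G u m) (hp2 : p ≠ 2) (hm : 1 ≤ m) (x : G)
    (hx : x * u ^ p = u ^ p * x) (hxU : x ∉ Subgroup.zpowers u) :
    ∃ α β : G, Subgroup.zpowers α = Subgroup.zpowers u ∧ orderOf β = p ∧
      β ∉ Subgroup.zpowers α ∧ β * α * β⁻¹ = α ^ (1 + p ^ m) := by
  obtain ⟨hcard, hcyc, hidx, hna⟩ := h.transfer_setup hm x hx hxU
  obtain ⟨a', b', ha', hza', hb', hb'a', hrel⟩ := cyclic_max_odd hp2 m hm hcard _ hcyc hidx hna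
  have hz := h.zpowers_coe_eq a' hza'
  refine ⟨(a' : G), (b' : G), hz, ?_, ?_, ?_⟩
  · rw [Subgroup.orderOf_coe, hb']
  · rw [hz]
    intro hmem
    apply hb'a'
    rw [hza', Subgroup.mem_subgroupOf]
    exact hmem
  · have := congrArg Subtype.val hrel
    simpa using this

theorem transfer_two (h : CSC 2 G u m) (hm : 1 ≤ m) (x : G)
    (hx : x * u ^ 2 = u ^ 2 * x) (hxU : x ∉ Subgroup.zpowers u) :
    ∃ α β : G, Subgroup.zpowers α = Subgroup.zpowers u ∧ β ∉ Subgroup.zpowers α ∧
      β * u ^ 2 = u ^ 2 * β ∧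
      ((β ^ 2 = 1 ∧ β * α * β⁻¹ = α⁻¹) ∨ (β ^ 2 = α ^ (2 ^ m) ∧ β * α * β⁻¹ = α⁻¹) ∨
       (2 ≤ m ∧ β ^ 2 = 1 ∧ β * α * β⁻¹ = α ^ (1 + 2 ^ m)) ∨
       (2 ≤ m ∧ β ^ 2 = 1 ∧ β * α * β⁻¹ = α ^ (2 ^ m - 1))) := by
  have : Fact (Nat.Prime 2) := ⟨Nat.prime_two⟩
  obtain ⟨hcard, hcyc, hidx, hna⟩ := h.transfer_setup hm x hx hxU
  obtain ⟨a', b', ha', hza', hb'a', hrel⟩ := cyclic_max_two m hm hcard _ hcyc hidx hna
  have hz := h.zpowers_coe_eq a' hza'
  refine ⟨(a' : G), (b' : G), hz, ?_, Subgroup.mem_centralizer_singleton_iff.mp b'.2, ?_⟩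
  · rw [hz]
    intro hmem
    apply hb'a'
    rw [hza', Subgroup.mem_subgroupOf]
    exact hmem
  · rcases hrel with ⟨h1, h2⟩ | ⟨h1, h2⟩ | ⟨h0, h1, h2⟩ | ⟨h0, h1, h2⟩
    · left
      exact ⟨by simpa using congrArg Subtype.val h1, by simpa using congrArg Subtype.val h2⟩
    · right; left
      exact ⟨by simpa using congrArg Subtype.val h1, by simpa using congrArg Subtype.val h2⟩
    · right; right; left
      exact ⟨h0, by simpa using congrArg Subtype.val h1, by simpa using congrArg Subtype.val h2⟩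
    · right; right; right
      exact ⟨h0, by simpa using congrArg Subtype.val h1, by simpa using congrArg Subtype.val h2⟩

/-- Exponents of conjugation on `u` are odd (`p = 2`). -/
theorem exp_mod_four (h : CSC 2 G u m) (g : G) (t : ℕ) (ht : g * u * g⁻¹ = u ^ t) :
    t % 4 = 1 ∨ t % 4 = 3 := by
  have h1 : orderOf (u ^ t) = orderOf u := by
    rw [← ht, ← MulAut.conj_apply]
    exact MulEquiv.orderOf_eq _ _
  have h2 : Odd t := by
    by_contra hev
    rw [Nat.not_odd_iff_even] at hev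
    obtain ⟨r, hr⟩ := hev
    have h3 : (u ^ t) ^ (2 ^ m) = 1 := by
      have e1 : t * 2 ^ m = 2 ^ (m + 1) * r := by rw [hr, pow_succ]; ring
      rw [← pow_mul, e1, pow_mul, ← h.order, pow_orderOf_eq_one, one_pow]
    have h4 := orderOf_dvd_of_pow_eq_one h3
    rw [h1, h.order] at h4
    have h5 := Nat.le_of_dvd (by positivity) h4
    have h6 : 2 ^ (m + 1) = 2 * 2 ^ m := by rw [pow_succ]; ring
    have h7 : 0 < 2 ^ m := by positivity
    omega
  obtain ⟨r, hr⟩ := h2
  omega

theorem main (h : CSC p G u m) (hna : ∃ x y : G, x * y ≠ y * x) :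
    (p = 2 ∧ Nat.card G = 2 ^ (m + 2) ∧ ∃ a b : G, orderOf a = 2 ^ (m + 1) ∧
        b ∉ Subgroup.zpowers a ∧
        ((b ^ 2 = 1 ∧ b * a * b⁻¹ = a⁻¹) ∨ (b ^ 2 = a ^ (2 ^ m) ∧ b * a * b⁻¹ = a⁻¹) ∨
          (2 ≤ m ∧ b ^ 2 = 1 ∧ b * a * b⁻¹ = a ^ (2 ^ m - 1)))) ∨
      Alt2 p (Subgroup.zpowers u) := by
  have hp : p.Prime := Fact.out
  have hUn : (Subgroup.zpowers u).Normal := h.normal
  obtain ⟨v, hv⟩ : ∃ v : G, v ∉ Subgroup.zpowers u := by
    by_contra hcon
    push Not at hcon
    obtain ⟨x, y, hxy⟩ := hna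
    apply hxy
    obtain ⟨i, hi⟩ := Subgroup.mem_zpowers_iff.mp (hcon x)
    obtain ⟨j, hj⟩ := Subgroup.mem_zpowers_iff.mp (hcon y)
    rw [← hi, ← hj, ← zpow_add, ← zpow_add, add_comm]
  have hm : 1 ≤ m := by
    by_contra hm0
    have hm0' : m = 0 := by omega
    subst hm0'
    apply hv
    apply h.cent
    have := h.z_central v
    simpa using this
  obtain ⟨i, hxU, hxp⟩ := exists_pow_not_mem h.pgroup (Subgroup.zpowers u) v hv
  set x := v ^ (p ^ i) with hx
  obtain ⟨s, hs⟩ := h.exists_exp x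
  have hsp : s ^ p ≡ 1 [MOD p ^ (m + 1)] := by
    have h1 := pow_conj_of_conj hs p
    have h2 : x ^ p * u * (x ^ p)⁻¹ = u := by
      have := (h.mem_zpowers_iff (x ^ p)).mp hxp
      rw [this]; group
    rw [h2] at h1
    have h3 : u ^ (s ^ p) = u ^ 1 := by rw [← h1, pow_one]
    rw [pow_eq_pow_iff_modEq, h.order] at h3
    exact h3
  by_cases hp2 : p = 2
  · subst hp2
    by_cases hidx : (Subgroup.zpowers u).index = 2
    · have hcard : Nat.card G = 2 ^ (m + 2) := by
        rw [← (Subgroup.zpowers u).card_mul_index, Nat.card_zpowers, h.order, hidx]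
        ring
      have hcyc : IsCyclic (Subgroup.zpowers u) := inferInstance
      obtain ⟨a, b, ha, hza, hba, hrel⟩ := cyclic_max_two m hm hcard _ hcyc hidx hna
      rcases hrel with ⟨h1, h2⟩ | ⟨h1, h2⟩ | ⟨h0, h1, h2⟩ | ⟨h0, h1, h2⟩
      · left; exact ⟨rfl, hcard, a, b, ha, hba, Or.inl ⟨h1, h2⟩⟩
      · left; exact ⟨rfl, hcard, a, b, ha, hba, Or.inr (Or.inl ⟨h1, h2⟩)⟩
      · right
        have hA := h.of_zpowers_eq a hza
        have hbo : orderOf b = 2 := by
          apply orderOf_eq_prime h1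
          intro hb1
          apply hba
          rw [hb1]
          exact Subgroup.one_mem _
        have := hA.alt2_of hm (Or.inr h0) b hbo hba h2
        rwa [hza] at this
      · left; exact ⟨rfl, hcard, a, b, ha, hba, Or.inr (Or.inr ⟨h0, h1, h2⟩)⟩
    · right
      obtain ⟨v', hv', s', hs', hs'4⟩ : ∃ v' : G, v' ∉ Subgroup.zpowers u ∧
          ∃ s' : ℕ, v' * u * v'⁻¹ = u ^ s' ∧ s' % 4 = 1 := by
        obtain ⟨s₁, hs₁⟩ := h.exists_exp v
        rcases h.exp_mod_four v s₁ hs₁ with h1 | h1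
        · exact ⟨v, hv, s₁, hs₁, h1⟩
        · obtain ⟨g₂, hg₂, hvg₂⟩ : ∃ g₂ : G, g₂ ∉ Subgroup.zpowers u ∧
              v * g₂ ∉ Subgroup.zpowers u := by
            by_contra hcon
            push Not at hcon
            apply hidx
            rw [Subgroup.index_eq_two_iff]
            refine ⟨v⁻¹, fun b => ?_⟩
            by_cases hb : b ∈ Subgroup.zpowers u
            · right
              refine ⟨hb, fun hbv => hv ?_⟩
              have h3 : v⁻¹ ∈ Subgroup.zpowers u := by
                have h2 : v⁻¹ = b⁻¹ * (b * v⁻¹) := by group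
                rw [h2]
                exact Subgroup.mul_mem _ (Subgroup.inv_mem _ hb) hbv
              exact (Subgroup.inv_mem_iff _).mp h3
            · left
              refine ⟨?_, hb⟩
              have hb' : b⁻¹ ∉ Subgroup.zpowers u := fun h' => hb ((Subgroup.inv_mem_iff _).mp h')
              have h2 := hcon b⁻¹ hb'
              have h3 : b * v⁻¹ = (v * b⁻¹)⁻¹ := by group
              rw [h3]
              exact Subgroup.inv_mem _ h2
          obtain ⟨s₂, hs₂⟩ := h.exists_exp g₂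
          rcases h.exp_mod_four g₂ s₂ hs₂ with h2 | h2
          · exact ⟨g₂, hg₂, s₂, hs₂, h2⟩
          · refine ⟨v * g₂, hvg₂, s₁ * s₂, ?_, ?_⟩
            · have e1 : v * g₂ * u * (v * g₂)⁻¹ = v * (g₂ * u * g₂⁻¹) * v⁻¹ := by group
              rw [e1, hs₂, conj_pow_of_conj hs₁]
            · rw [Nat.mul_mod, h1, h2]
      obtain ⟨i', hx'U, hx'p⟩ := exists_pow_not_mem h.pgroup (Subgroup.zpowers u) v' hv'
      set x' := v' ^ (2 ^ i') with hx'
      have hS : x' * u * x'⁻¹ = u ^ (s' ^ (2 ^ i')) := pow_conj_of_conj hs' _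
      set S := s' ^ (2 ^ i') with hSdef
      have hS4 : S % 4 = 1 := by rw [hSdef, Nat.pow_mod, hs'4]; simp
      have hS2 : S ^ 2 ≡ 1 [MOD 2 ^ (m + 1)] := by
        have h1 := pow_conj_of_conj hS 2
        have h2 : x' ^ 2 * u * (x' ^ 2)⁻¹ = u := by
          have := (h.mem_zpowers_iff (x' ^ 2)).mp hx'p
          rw [this]; group
        rw [h2] at h1
        have h3 : u ^ (S ^ 2) = u ^ 1 := by rw [← h1, pow_one]
        rw [pow_eq_pow_iff_modEq, h.order] at h3
        exact h3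
      have h4dvd : 4 ∣ 2 ^ (m + 1) := by
        obtain ⟨m', rfl⟩ : ∃ m', m = m' + 1 := ⟨m - 1, by omega⟩
        exact ⟨2 ^ m', by ring⟩
      have hnot1 : ¬ S ≡ 1 [MOD 2 ^ (m + 1)] := by
        intro h1
        apply hx'U
        apply h.cent
        have h2 : u ^ S = u ^ 1 := by rw [pow_eq_pow_iff_modEq, h.order]; exact h1
        rw [pow_one] at h2
        calc x' * u = x' * u * x'⁻¹ * x' := by group
          _ = u * x' := by rw [hS, h2]
      have hm2 : 2 ≤ m ∧ S ≡ 1 [MOD 2 ^ m] := by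
        rcases sq_modEq_one_two_pow m hm S hS2 with h1 | h1 | h1 | h1
        · exact absurd h1 hnot1
        · exfalso
          have h2 : S % 4 = (2 ^ (m + 1) - 1) % 4 := h1.of_dvd h4dvd
          obtain ⟨T, hT⟩ := h4dvd
          have hT0 : 0 < 2 ^ (m + 1) := by positivity
          rw [hT] at h2 hT0
          omega
        · have hm2 : 2 ≤ m := by
            by_contra hlt
            have hm1 : m = 1 := by omega
            subst hm1
            have h2 : S % 4 = (1 + 2 ^ 1) % 4 := h1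
            omega
          refine ⟨hm2, ?_⟩
          have h2 : S ≡ 1 + 2 ^ m [MOD 2 ^ m] := h1.of_dvd ⟨2, by rw [pow_succ]⟩
          have h3 : 1 + 2 ^ m ≡ 1 [MOD 2 ^ m] := by
            unfold Nat.ModEq
            rw [Nat.add_mod_right]
          exact h2.trans h3
        · exfalso
          by_cases hm1 : m = 1
          · subst hm1
            exact hnot1 h1
          · have h2 : S % 4 = (2 ^ m - 1) % 4 := h1.of_dvd h4dvd
            obtain ⟨m', rfl⟩ : ∃ m', m = m' + 2 := ⟨m - 2, by omega⟩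
            have hT : 2 ^ (m' + 2) = 4 * 2 ^ m' := by rw [pow_add]; ring
            have hT0 : 0 < 2 ^ m' := by positivity
            rw [hT] at h2
            omega
      obtain ⟨hm2, hSm⟩ := hm2
      have hx'M : x' * u ^ 2 = u ^ 2 * x' := (h.comm_pow_iff x' S hS).mpr hSm
      obtain ⟨α, β, hα, hβα, hβM, hrel⟩ := h.transfer_two hm x' hx'M hx'U
      have hA := h.of_zpowers_eq α hα
      have hβα2 : β * α ^ 2 = α ^ 2 * β := by
        have h1 : β ∈ Subgroup.centralizer ({u ^ 2} : Set G) :=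
          Subgroup.mem_centralizer_singleton_iff.mpr hβM
        rw [← centralizer_powerClosure, ← hα, centralizer_powerClosure] at h1
        exact Subgroup.mem_centralizer_singleton_iff.mp h1
      have hαinv : α⁻¹ = α ^ (2 ^ (m + 1) - 1) := by
        apply inv_eq_of_mul_eq_one_left
        rw [← pow_succ, Nat.sub_add_cancel Nat.one_le_two_pow, ← hA.order, pow_orderOf_eq_one]
      have hT4 : 4 ≤ 2 ^ m := by
        calc 4 = 2 ^ 2 := by norm_num
          _ ≤ 2 ^ m := Nat.pow_le_pow_right (by norm_num) hm2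
      have hT2 : 2 ^ (m + 1) = 2 * 2 ^ m := by rw [pow_succ]; ring
      have hinvbad : ¬ (2 ^ (m + 1) - 1 ≡ 1 [MOD 2 ^ m]) := by
        intro h3
        have h4 : 2 ^ m ∣ 2 ^ (m + 1) - 1 - 1 := (Nat.modEq_iff_dvd' (by omega)).mp h3.symm
        have h5 : 2 ^ m ∣ 2 ^ (m + 1) := ⟨2, by rw [pow_succ]⟩
        have h6 : 2 ^ m ∣ 2 ^ (m + 1) - (2 ^ (m + 1) - 1 - 1) := Nat.dvd_sub h5 h4
        have h7 : 2 ^ (m + 1) - (2 ^ (m + 1) - 1 - 1) = 2 := by omega
        rw [h7] at h6
        have := Nat.le_of_dvd (by norm_num) h6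
        omega
      rcases hrel with ⟨h1, h2⟩ | ⟨h1, h2⟩ | ⟨h0, h1, h2⟩ | ⟨h0, h1, h2⟩
      · exfalso
        rw [hαinv] at h2
        exact hinvbad ((hA.comm_pow_iff β _ h2).mp hβα2)
      · exfalso
        rw [hαinv] at h2
        exact hinvbad ((hA.comm_pow_iff β _ h2).mp hβα2)
      · have hβo : orderOf β = 2 := by
          apply orderOf_eq_prime h1
          intro hb1
          apply hβα
          rw [hb1]
          exact Subgroup.one_mem _
        have := hA.alt2_of hm (Or.inr h0) β hβo hβα h2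
        rwa [hα] at this
      · exfalso
        have h3 := (hA.comm_pow_iff β _ h2).mp hβα2
        have h4 : 2 ^ m ∣ 2 ^ m - 1 - 1 := (Nat.modEq_iff_dvd' (by omega)).mp h3.symm
        have h6 : 2 ^ m ∣ 2 ^ m - (2 ^ m - 1 - 1) := Nat.dvd_sub (dvd_refl _) h4
        have h7 : 2 ^ m - (2 ^ m - 1 - 1) = 2 := by omega
        rw [h7] at h6
        have := Nat.le_of_dvd (by norm_num) h6
        omega
  · right
    have h1 := modEq_one_of_pow_prime hp2 m s hsp
    have hxM : x * u ^ p = u ^ p * x := (h.comm_pow_iff x s hs).mpr h1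
    obtain ⟨α, β, hα, hβ, hβα, hrel⟩ := h.transfer_odd hp2 hm x hxM hxU
    have hA := h.of_zpowers_eq α hα
    have := hA.alt2_of hm (Or.inl hp2) β hβ hβα hrel
    rwa [hα] at this

end CSC

end Cfsg.Agent.Helper29
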