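import Mathlib
import Cfsg.Agent.Helper29.CycSelfCent
import Cfsg.Agent.Helper53.TwoGroup
import Cfsg.Agent.S0228

set_option autoImplicit false

namespace Cfsg.Agent.Helper29

/-- `T` is "dihedral-like" with rotation `a`: every element of `T` outside `⟨a⟩` is an involution
inverting `a`, and `⟨a⟩` has index at most two in `T`. -/
def DihLike {G : Type*} [Group G] (T : Subgroup G) (a : G) : Prop :=
  a ∈ T ∧ (∀ t ∈ T, t ∉ Subgroup.zpowers a → t * t = 1 ∧ t * a * t⁻¹ = a⁻¹) ∧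
    ∀ t ∈ T, ∀ s ∈ T, t ∉ Subgroup.zpowers a → s ∉ Subgroup.zpowers a →
      t * s ∈ Subgroup.zpowers a

theorem dihLike_dihedral (n : ℕ) :
    DihLike (⊤ : Subgroup (DihedralGroup n)) (DihedralGroup.r 1) := by
  have hr : ∀ i : ZMod n, DihedralGroup.r i ∈ Subgroup.zpowers (DihedralGroup.r (1 : ZMod n)) := by
    intro i
    obtain ⟨k, rfl⟩ := ZMod.intCast_surjective i
    rw [Subgroup.mem_zpowers_iff]
    exact ⟨k, DihedralGroup.r_one_zpow k⟩
  refine ⟨Subgroup.mem_top _, ?_, ?_⟩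
  · intro t _ ht
    cases t with
    | r i => exact absurd (hr i) ht
    | sr i =>
      constructor
      · simp
      · simp
  · intro t _ s _ ht hs
    cases t with
    | r i => exact absurd (hr i) ht
    | sr i =>
      cases s with
      | r j => exact absurd (hr j) hs
      | sr j =>
        rw [DihedralGroup.sr_mul_sr]
        exact hr _

theorem map_mem_zpowers' {G G' : Type*} [Group G] [Group G'] (f : G →* G') {t a : G}
    (h : t ∈ Subgroup.zpowers a) : f t ∈ Subgroup.zpowers (f a) := by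
  rw [Subgroup.mem_zpowers_iff] at h ⊢
  obtain ⟨k, hk⟩ := h
  exact ⟨k, by rw [← map_zpow, hk]⟩

theorem mem_zpowers_of_map' {G G' : Type*} [Group G] [Group G'] (f : G →* G')
    (hf : Function.Injective f) {t a : G}
    (h : f t ∈ Subgroup.zpowers (f a)) : t ∈ Subgroup.zpowers a := by
  rw [Subgroup.mem_zpowers_iff] at h ⊢
  obtain ⟨k, hk⟩ := h
  exact ⟨k, hf (by rw [map_zpow, hk])⟩

theorem DihLike.map {G G' : Type*} [Group G] [Group G'] {T : Subgroup G} {a : G}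
    (h : DihLike T a) (f : G →* G') :
    DihLike (T.map f) (f a) := by
  obtain ⟨h1, h2, h3⟩ := h
  refine ⟨Subgroup.mem_map_of_mem f h1, ?_, ?_⟩
  · rintro _ ⟨t, ht, rfl⟩ hta
    obtain ⟨e1, e2⟩ := h2 t ht (fun hc => hta (map_mem_zpowers' f hc))
    constructor
    · rw [← map_mul, e1, map_one]
    · rw [← map_inv, ← map_mul, ← map_mul, e2, map_inv]
  · rintro _ ⟨t, ht, rfl⟩ _ ⟨s, hs, rfl⟩ hta hsa
    have := h3 t ht s hs (fun hc => hta (map_mem_zpowers' f hc))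
      (fun hc => hsa (map_mem_zpowers' f hc))
    rw [← map_mul]
    exact map_mem_zpowers' f this

theorem DihLike.sub {G : Type*} [Group G] {T : Subgroup G} {a : G} (h : DihLike T a)
    (S : Subgroup G) (hS : S ≤ T) : ∃ b, DihLike S b := by
  obtain ⟨h1, h2, h3⟩ := h
  have : IsCyclic (S ⊓ Subgroup.zpowers a : Subgroup G) :=
    Subgroup.isCyclic_of_le (inf_le_right : S ⊓ Subgroup.zpowers a ≤ Subgroup.zpowers a)
  obtain ⟨b, hb⟩ := (Subgroup.isCyclic_iff_exists_zpowers_eq_top (S ⊓ Subgroup.zpowers a)).mp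
    inferInstance
  have hbS : b ∈ S ⊓ Subgroup.zpowers a := by
    rw [← hb]; exact Subgroup.mem_zpowers b
  have hout : ∀ t ∈ S, t ∉ Subgroup.zpowers b → t ∉ Subgroup.zpowers a := by
    intro t ht htb hta
    apply htb
    rw [hb]
    exact ⟨ht, hta⟩
  refine ⟨b, hbS.1, ?_, ?_⟩
  · intro t ht htb
    obtain ⟨e1, e2⟩ := h2 t (hS ht) (hout t ht htb)
    refine ⟨e1, ?_⟩
    obtain ⟨k, hk⟩ := Subgroup.mem_zpowers_iff.mp hbS.2
    rw [← hk, ← conj_zpow, e2, inv_zpow]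
  · intro t ht s hs htb hsb
    have := h3 t (hS ht) s (hS hs) (hout t ht htb) (hout s hs hsb)
    rw [hb]
    exact ⟨S.mul_mem ht hs, this⟩

/-- A dihedral-like finite group which is not generated by its rotation has twice the order of the
rotation, and is a dihedral group. -/
theorem DihLike.card_and_iso {G : Type*} [Group G] [Finite G] {S : Subgroup G} {b : G}
    (h : DihLike S b) (x : G) (hx : x ∈ S) (hxb : x ∉ Subgroup.zpowers b) :
    Nat.card S = 2 * orderOf b ∧ Nonempty (S ≃* DihedralGroup (orderOf b)) := by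
  obtain ⟨h1, h2, h3⟩ := h
  set b' : S := ⟨b, h1⟩ with hb'
  set x' : S := ⟨x, hx⟩ with hx'
  have hmem : ∀ s : S, s ∈ Subgroup.zpowers b' ↔ (s : G) ∈ Subgroup.zpowers b := by
    intro s
    rw [Subgroup.mem_zpowers_iff, Subgroup.mem_zpowers_iff]
    constructor
    · rintro ⟨k, hk⟩
      exact ⟨k, by rw [← hk]; simp [hb']⟩
    · rintro ⟨k, hk⟩
      exact ⟨k, Subtype.ext (by simp [hb', hk])⟩
  have hord : orderOf b' = orderOf b := by
    rw [hb']; exact Subgroup.orderOf_mk b h1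
  have hidx : (Subgroup.zpowers b').index = 2 := by
    rw [Subgroup.index_eq_two_iff]
    refine ⟨x', fun s => ?_⟩
    by_cases hs : s ∈ Subgroup.zpowers b'
    · refine Or.inr ⟨hs, fun hc => ?_⟩
      have : x' ∈ Subgroup.zpowers b' := by
        have := (Subgroup.zpowers b').mul_mem ((Subgroup.zpowers b').inv_mem hs) hc
        simpa using this
      exact hxb ((hmem x').mp this)
    · refine Or.inl ⟨?_, hs⟩
      rw [hmem]
      exact h3 s s.2 x hx (fun hc => hs ((hmem s).mpr hc)) hxb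
  have hcard : Nat.card S = 2 * orderOf b := by
    rw [← Subgroup.index_mul_card (Subgroup.zpowers b'), hidx, Nat.card_zpowers, hord]
  refine ⟨hcard, ?_⟩
  have hpos : 0 < orderOf b := orderOf_pos b
  have : NeZero (orderOf b) := ⟨hpos.ne'⟩
  obtain ⟨e1, e2⟩ := h2 x hx hxb
  exact Helper53.nonempty_mulEquiv_dihedralGroup_of (orderOf b) b' x' hcard hord
    (Subtype.ext (by simp [hx', e1])) (Subtype.ext (by simp [hx', hb', e2]))
    (fun hc => hxb ((hmem x').mp hc))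

/-- If `j ^ d ≡ 1` modulo a power of two with `d` odd, then `j ≡ 1`. -/
theorem modEq_one_of_pow_odd (e d j : ℕ) (hd : Odd d) (h : j ^ d ≡ 1 [MOD 2 ^ e]) :
    j ≡ 1 [MOD 2 ^ e] := by
  rw [← ZMod.natCast_eq_natCast_iff] at h ⊢
  push_cast at h ⊢
  have hd0 : d ≠ 0 := by
    rintro rfl
    exact (Nat.not_odd_iff_even.mpr (by decide)) hd
  obtain ⟨v, hv⟩ := IsUnit.of_pow_eq_one h hd0
  have h1 : v ^ d = 1 := by
    apply Units.ext
    push_cast
    rw [hv]; exact h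
  have h2 : v ^ (2 ^ e) = 1 := by
    have h3 := ZMod.pow_totient v
    have h4 : (2 ^ e).totient ∣ 2 ^ e := by
      rcases Nat.eq_zero_or_pos e with rfl | he
      · simp
      · rw [Nat.totient_prime_pow Nat.prime_two he]
        simpa using pow_dvd_pow 2 (Nat.sub_le e 1)
    exact orderOf_dvd_iff_pow_eq_one.mp ((orderOf_dvd_of_pow_eq_one h3).trans h4)
  have h5 : orderOf v ∣ Nat.gcd d (2 ^ e) :=
    Nat.dvd_gcd (orderOf_dvd_of_pow_eq_one h1) (orderOf_dvd_of_pow_eq_one h2)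
  have h6 : Nat.gcd d (2 ^ e) = 1 :=
    Nat.Coprime.pow_right e (Nat.Coprime.symm (Nat.coprime_two_left.mpr hd))
  rw [h6, Nat.dvd_one, orderOf_eq_one_iff] at h5
  rw [← hv, h5]; rfl

/-- If a power `c ^ m` with `m` coprime to an exponent of `c` commutes with `s`, so does `c`. -/
theorem comm_of_pow_comm {G : Type*} [Group G] (c s : G) (d m : ℕ) (hc : c ^ d = 1)
    (hm : Nat.Coprime m d) (h : c ^ m * s = s * c ^ m) : c * s = s * c := by
  obtain ⟨A, B, hAB⟩ := Nat.isCoprime_iff_coprime.mpr hm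
  have h1 : c = (c ^ m) ^ A := by
    have h2 : c ^ (A * (m : ℤ) + B * (d : ℤ)) = c := by rw [hAB, zpow_one]
    have h2' : c ^ (A * (m : ℤ) + B * (d : ℤ)) = (c ^ m) ^ A * (c ^ d) ^ B := by
      rw [zpow_add, mul_comm A, zpow_mul, zpow_natCast, mul_comm B, zpow_mul, zpow_natCast]
    rw [h2, hc, one_zpow, mul_one] at h2'
    exact h2'
  have h3 : Commute (c ^ m) s := h
  have h4 : Commute ((c ^ m) ^ A) s := h3.zpow_left A
  rw [← h1] at h4
  exact h4

/-- An element of odd order normalizing a cyclic 2-group centralizes it. -/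
theorem comm_of_odd_of_two_pow {G : Type*} [Group G] [Finite G] (s c : G) (f d : ℕ)
    (hs : s ^ (2 ^ f) = 1) (hd : Odd d) (hc : c ^ d = 1)
    (hn : c * s * c⁻¹ ∈ Subgroup.zpowers s) : c * s = s * c := by
  rw [← mem_powers_iff_mem_zpowers] at hn
  obtain ⟨j, hj⟩ := hn
  have hj' : c * s * c⁻¹ = s ^ j := hj.symm
  have h1 := pow_conj_of_conj hj' d
  rw [hc] at h1
  simp only [one_mul, inv_one, mul_one] at h1
  have h2 : s ^ (j ^ d) = s ^ 1 := by rw [← h1, pow_one]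
  rw [pow_eq_pow_iff_modEq] at h2
  obtain ⟨e, -, he⟩ := (Nat.dvd_prime_pow Nat.prime_two).mp (orderOf_dvd_of_pow_eq_one hs)
  rw [he] at h2
  have h3 := modEq_one_of_pow_odd e d j hd h2
  have h4 : s ^ j = s ^ 1 := by
    rw [pow_eq_pow_iff_modEq, he]; exact h3
  rw [h4, pow_one] at hj'
  calc c * s = c * s * c⁻¹ * c := by group
    _ = s * c := by rw [hj']

/-- An element killed by an odd number and by a power of two is trivial. -/
theorem eq_one_of_odd_two_pow {G : Type*} [Group G] (u : G) (d f : ℕ) (hd : Odd d)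
    (h1 : u ^ d = 1) (h2 : u ^ (2 ^ f) = 1) : u = 1 := by
  have h9 : orderOf u ∣ Nat.gcd d (2 ^ f) :=
    Nat.dvd_gcd (orderOf_dvd_of_pow_eq_one h1) (orderOf_dvd_of_pow_eq_one h2)
  have h10 : Nat.gcd d (2 ^ f) = 1 :=
    Nat.Coprime.pow_right f (Nat.Coprime.symm (Nat.coprime_two_left.mpr hd))
  rwa [h10, Nat.dvd_one, orderOf_eq_one_iff] at h9

/-- An element of odd order normalizing a dihedral-like 2-group whose rotation has order at least
four centralizes it. -/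
theorem DihLike.comm_of_odd {G : Type*} [Group G] [Finite G] {S : Subgroup G} {b : G}
    (h : DihLike S b) (hS2 : ∀ s ∈ S, ∃ k : ℕ, s ^ (2 ^ k) = 1) (hbb : b * b ≠ 1)
    (c : G) (d : ℕ) (hd : Odd d) (hc : c ^ d = 1) (hn : ∀ s ∈ S, c * s * c⁻¹ ∈ S) :
    ∀ s ∈ S, c * s = s * c := by
  obtain ⟨h1, h2, h3⟩ := h
  have hcb : c * b * c⁻¹ ∈ Subgroup.zpowers b := by
    by_contra hcon
    obtain ⟨e1, -⟩ := h2 _ (hn b h1) hcon
    apply hbb
    have h4 : c * (b * b) * c⁻¹ = 1 := by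
      calc c * (b * b) * c⁻¹ = (c * b * c⁻¹) * (c * b * c⁻¹) := by group
        _ = 1 := e1
    have h5 : b * b = c⁻¹ * (c * (b * b) * c⁻¹) * c := by group
    rw [h5, h4]; group
  obtain ⟨f, hf⟩ := hS2 b h1
  have hcomm : c * b = b * c := comm_of_odd_of_two_pow b c f d hf hd hc hcb
  have hcz : ∀ u ∈ Subgroup.zpowers b, c * u = u * c := by
    intro u hu
    obtain ⟨k, rfl⟩ := Subgroup.mem_zpowers_iff.mp hu
    exact ((show Commute c b from hcomm).zpow_right k)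
  intro y hy
  by_cases hyb : y ∈ Subgroup.zpowers b
  · exact hcz y hyb
  · have hy' : c * y * c⁻¹ ∉ Subgroup.zpowers b := by
      intro hcon
      apply hyb
      have h5 := hcz _ hcon
      have h6 : c * y * c⁻¹ = y := by
        have : c * (c * y * c⁻¹) = c * y := by rw [h5]; group
        exact mul_left_cancel this
      rwa [h6] at hcon
    have hb' := h3 y hy _ (hn y hy) hyb hy'
    obtain ⟨e1, -⟩ := h2 y hy hyb
    have hconj : c * y * c⁻¹ = y * (y * (c * y * c⁻¹)) := by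
      rw [← mul_assoc, e1, one_mul]
    have hb'S : y * (c * y * c⁻¹) ∈ S := S.mul_mem hy (hn y hy)
    generalize y * (c * y * c⁻¹) = b' at hb' hconj hb'S
    have hcb' : c * b' = b' * c := hcz b' hb'
    have hind : ∀ k : ℕ, c ^ k * y * (c ^ k)⁻¹ = y * b' ^ k := by
      intro k
      induction k with
      | zero => simp
      | succ k ih =>
        have hck : c * b' ^ k = b' ^ k * c := (show Commute c b' from hcb').pow_right k
        calc c ^ (k + 1) * y * (c ^ (k + 1))⁻¹ = c * (c ^ k * y * (c ^ k)⁻¹) * c⁻¹ := by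
              rw [pow_succ']; group
          _ = c * (y * b' ^ k) * c⁻¹ := by rw [ih]
          _ = (c * y * c⁻¹) * (c * b' ^ k * c⁻¹) := by group
          _ = y * b' * b' ^ k := by rw [hconj, hck]; group
          _ = y * b' ^ (k + 1) := by rw [pow_succ']; group
    have h7 := hind d
    rw [hc] at h7
    simp only [one_mul, inv_one, mul_one] at h7
    have h8 : b' ^ d = 1 := by
      have : y * b' ^ d = y * 1 := by rw [mul_one]; exact h7.symm
      exact mul_left_cancel this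
    obtain ⟨f', hf'⟩ := hS2 b' hb'S
    have h9 := eq_one_of_odd_two_pow b' d f' hd h8 hf'
    rw [h9, mul_one] at hconj
    calc c * y = c * y * c⁻¹ * c := by group
      _ = y * c := by rw [hconj]

/-- An element of odd order normalizing a group of order four has its cube centralizing it. -/
theorem cube_comm_of_four {G : Type*} [Group G] [Finite G] (S : Subgroup G)
    (hS : Nat.card S = 4) (c : G) (d : ℕ) (hd : Odd d) (hc : c ^ d = 1)
    (hn : ∀ s ∈ S, c * s * c⁻¹ ∈ S) : ∀ s ∈ S, c ^ 3 * s = s * c ^ 3 := by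
  intro s hs
  have hn' : ∀ i : ℕ, c ^ i * s * (c ^ i)⁻¹ ∈ S := by
    intro i
    induction i with
    | zero => simpa using hs
    | succ i ih =>
      have e : c ^ (i + 1) * s * (c ^ (i + 1))⁻¹ = c * (c ^ i * s * (c ^ i)⁻¹) * c⁻¹ := by
        rw [pow_succ']; group
      rw [e]; exact hn _ ih
  have key : ∀ a b : ℕ, a < b → b < 5 → c ^ a * s * (c ^ a)⁻¹ = c ^ b * s * (c ^ b)⁻¹ →
      c ^ 3 * s = s * c ^ 3 := by
    intro a b hab hb5 he
    obtain ⟨m, rfl⟩ : ∃ m, b = a + m := ⟨b - a, by omega⟩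
    have hm : c ^ m * s = s * c ^ m := by
      have h1 : c ^ (a + m) * s * (c ^ (a + m))⁻¹ = c ^ a * (c ^ m * s * (c ^ m)⁻¹) * (c ^ a)⁻¹ := by
        rw [pow_add]; group
      rw [h1] at he
      have h2 : s = c ^ m * s * (c ^ m)⁻¹ := by
        have h3 : (c ^ a)⁻¹ * (c ^ a * s * (c ^ a)⁻¹) * c ^ a =
            (c ^ a)⁻¹ * (c ^ a * (c ^ m * s * (c ^ m)⁻¹) * (c ^ a)⁻¹) * c ^ a := by rw [he]
        have h4 : (c ^ a)⁻¹ * (c ^ a * s * (c ^ a)⁻¹) * c ^ a = s := by group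
        have h5 : (c ^ a)⁻¹ * (c ^ a * (c ^ m * s * (c ^ m)⁻¹) * (c ^ a)⁻¹) * c ^ a =
            c ^ m * s * (c ^ m)⁻¹ := by group
        rw [h4, h5] at h3
        exact h3
      calc c ^ m * s = c ^ m * s * (c ^ m)⁻¹ * c ^ m := by group
        _ = s * c ^ m := by rw [← h2]
    have hcomm_or : c * s = s * c ∨ m = 3 := by
      rcases (show m = 1 ∨ m = 2 ∨ m = 3 ∨ m = 4 by omega) with rfl | rfl | rfl | rfl
      · left; simpa using hm
      · left; exact comm_of_pow_comm c s d 2 hc (Nat.coprime_two_left.mpr hd) hm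
      · right; rfl
      · left
        exact comm_of_pow_comm c s d 4 hc
          (Nat.Coprime.pow_left 2 (Nat.coprime_two_left.mpr hd) : Nat.Coprime (2 ^ 2) d) hm
    rcases hcomm_or with h | rfl
    · exact ((show Commute c s from h).pow_left 3)
    · exact hm
  haveI : Fintype S := Fintype.ofFinite S
  have hcard : Fintype.card S < Fintype.card (Fin 5) := by
    rw [← Nat.card_eq_fintype_card, hS]; simp
  obtain ⟨i, j, hij, hf⟩ := Fintype.exists_ne_map_eq_of_card_lt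
    (fun i : Fin 5 => (⟨c ^ (i : ℕ) * s * (c ^ (i : ℕ))⁻¹, hn' i⟩ : S)) hcard
  have hf' : c ^ (i : ℕ) * s * (c ^ (i : ℕ))⁻¹ = c ^ (j : ℕ) * s * (c ^ (j : ℕ))⁻¹ :=
    Subtype.mk.inj hf
  rcases lt_or_gt_of_ne (fun h => hij (Fin.ext h) : (i : ℕ) ≠ j) with h | h
  · exact key i j h j.2 hf'
  · exact key j i h i.2 hf'.symm

/-- `H` has the normal 2-subgroup `S` containing all its 2-elements, and is generated modulo `S`
by the element `h₁` of odd order (dividing `d`). -/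
structure TwoByCyc {G : Type*} [Group G] (H S : Subgroup G) (h₁ : G) (d : ℕ) : Prop where
  le : S ≤ H
  two : ∀ s ∈ S, ∃ k : ℕ, s ^ (2 ^ k) = 1
  norm : ∀ h ∈ H, ∀ s ∈ S, h * s * h⁻¹ ∈ S
  mem_of_two : ∀ h ∈ H, ∀ k : ℕ, h ^ (2 ^ k) = 1 → h ∈ S
  mem : h₁ ∈ H
  odd : Odd d
  pow : h₁ ^ d = 1
  gen : ∀ h ∈ H, ∃ k : ℤ, h * h₁ ^ k ∈ S

/-- A normal Sylow subgroup contains every `p`-element. -/
theorem mem_sylow_of_normal_of_pow {G : Type*} [Group G] [Finite G] {p : ℕ} [Fact p.Prime]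
    (S : Sylow p G) [(S : Subgroup G).Normal] (h : G) (k : ℕ) (hk : h ^ (p ^ k) = 1) :
    h ∈ (S : Subgroup G) := by
  have hp : IsPGroup p (Subgroup.zpowers h) := by
    rw [IsPGroup.iff_card]
    rw [Nat.card_zpowers]
    obtain ⟨m, -, hm⟩ := (Nat.dvd_prime_pow (Fact.out : p.Prime)).mp (orderOf_dvd_of_pow_eq_one hk)
    exact ⟨m, hm⟩
  obtain ⟨Q, hQ⟩ := hp.exists_le_sylow
  obtain ⟨g, rfl⟩ := MulAction.exists_smul_eq G S Q
  rw [Sylow.smul_eq_of_normal] at hQ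
  exact hQ (Subgroup.mem_zpowers h)

theorem exists_twoByCyc {G : Type*} [Group G] [Finite G] (H : Subgroup G)
    (h1 : ∀ S : Sylow 2 ↥H, (S : Subgroup ↥H).Normal)
    (h2 : ∀ (S : Sylow 2 ↥H) [(S : Subgroup ↥H).Normal], IsCyclic (↥H ⧸ (S : Subgroup ↥H))) :
    ∃ (S : Subgroup G) (h₁ : G) (d : ℕ), TwoByCyc H S h₁ d := by
  haveI : Fact (Nat.Prime 2) := ⟨Nat.prime_two⟩
  obtain ⟨S'⟩ : Nonempty (Sylow 2 ↥H) := inferInstance
  haveI := h1 S'
  obtain ⟨q, hq⟩ := (h2 S').exists_generator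
  obtain ⟨h₀, rfl⟩ := QuotientGroup.mk_surjective q
  have hS2 : ∀ s ∈ (S' : Subgroup ↥H), ∃ k : ℕ, s ^ (2 ^ k) = 1 := by
    intro s hs
    obtain ⟨k, hk⟩ := S'.isPGroup' ⟨s, hs⟩
    exact ⟨k, by simpa [Subtype.ext_iff] using hk⟩
  have hgen : ∀ h : ↥H, ∃ k : ℤ, h * h₀ ^ k ∈ (S' : Subgroup ↥H) := by
    intro h
    obtain ⟨k, hk⟩ := Subgroup.mem_zpowers_iff.mp (hq (QuotientGroup.mk h))
    refine ⟨-k, ?_⟩
    have h3 : ((h₀ ^ k : ↥H) : ↥H ⧸ (S' : Subgroup ↥H)) = (h : ↥H ⧸ (S' : Subgroup ↥H)) := by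
      rw [← hk]; rfl
    have h4 := QuotientGroup.eq.mp h3
    have h5 := (h1 S').conj_mem _ h4 (h₀ ^ k)
    have h6 : h₀ ^ k * ((h₀ ^ k)⁻¹ * h) * (h₀ ^ k)⁻¹ = h * h₀ ^ (-k) := by
      rw [zpow_neg]; group
    rwa [h6] at h5
  obtain ⟨e, d, hd, hN⟩ := Nat.exists_eq_two_pow_mul_odd (orderOf_pos h₀).ne'
  have hcop : Nat.Coprime (2 ^ e) d := Nat.Coprime.pow_left e (Nat.coprime_two_left.mpr hd)
  obtain ⟨A, B, hAB⟩ := Nat.isCoprime_iff_coprime.mpr hcop
  have hpow1 : (h₀ ^ (2 ^ e)) ^ d = 1 := by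
    rw [← pow_mul, ← hN, pow_orderOf_eq_one]
  have hpow2 : (h₀ ^ d) ^ (2 ^ e) = 1 := by
    rw [← pow_mul, mul_comm, ← hN, pow_orderOf_eq_one]
  have htS : h₀ ^ d ∈ (S' : Subgroup ↥H) := mem_sylow_of_normal_of_pow S' _ e hpow2
  have hdecomp : h₀ = (h₀ ^ (2 ^ e)) ^ A * (h₀ ^ d) ^ B := by
    have h3 : h₀ ^ (A * ((2 ^ e : ℕ) : ℤ) + B * (d : ℤ)) = (h₀ ^ (2 ^ e)) ^ A * (h₀ ^ d) ^ B := by
      rw [zpow_add, mul_comm A, zpow_mul, zpow_natCast, mul_comm B, zpow_mul, zpow_natCast]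
    rw [hAB, zpow_one] at h3
    exact h3
  have hgen' : ∀ h : ↥H, ∃ k : ℤ, h * (h₀ ^ (2 ^ e)) ^ k ∈ (S' : Subgroup ↥H) := by
    intro h
    obtain ⟨k, hk⟩ := hgen h
    refine ⟨A * k, ?_⟩
    have hc : Commute ((h₀ ^ (2 ^ e)) ^ A) ((h₀ ^ d) ^ B) :=
      (((Commute.refl h₀).pow_left (2 ^ e)).zpow_left A).symm.symm |>.pow_right d |>.zpow_right B
    have h3 : h₀ ^ k = (h₀ ^ (2 ^ e)) ^ (A * k) * (h₀ ^ d) ^ (B * k) := by
      conv_lhs => rw [hdecomp]
      rw [hc.mul_zpow, ← zpow_mul, ← zpow_mul]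
    have h4 : h * (h₀ ^ (2 ^ e)) ^ (A * k) = h * h₀ ^ k * ((h₀ ^ d) ^ (B * k))⁻¹ := by
      rw [h3]; group
    rw [h4]
    exact Subgroup.mul_mem _ hk (Subgroup.inv_mem _ (Subgroup.zpow_mem _ htS _))
  refine ⟨(S' : Subgroup ↥H).map H.subtype, ((h₀ ^ (2 ^ e) : ↥H) : G), d, ?_⟩
  refine ⟨Subgroup.map_subtype_le _, ?_, ?_, ?_, (h₀ ^ (2 ^ e)).2, hd, ?_, ?_⟩
  · rintro _ ⟨s, hs, rfl⟩
    obtain ⟨k, hk⟩ := hS2 s hs
    exact ⟨k, by rw [← map_pow, hk, map_one]⟩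
  · rintro h hh _ ⟨s, hs, rfl⟩
    refine ⟨⟨h, hh⟩ * s * ⟨h, hh⟩⁻¹, (h1 S').conj_mem s hs ⟨h, hh⟩, ?_⟩
    simp
  · intro h hh k hk
    refine ⟨⟨h, hh⟩, ?_, rfl⟩
    exact mem_sylow_of_normal_of_pow S' _ k (Subtype.ext (by simpa using hk))
  · have := congrArg (Subtype.val) hpow1
    simpa using this
  · intro h hh
    obtain ⟨k, hk⟩ := hgen' ⟨h, hh⟩
    refine ⟨k, ⟨_, hk, ?_⟩⟩
    simp

namespace TwoByCyc

variable {G : Type*} [Group G] {H S : Subgroup G} {h₁ : G} {d : ℕ}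

theorem eq_of_mem (T : TwoByCyc H S h₁ d) (hh : h₁ ∈ S) : H = S := by
  refine le_antisymm (fun h hh' => ?_) T.le
  obtain ⟨k, hk⟩ := T.gen h hh'
  have h2 := S.mul_mem hk (S.zpow_mem hh (-k))
  rwa [mul_assoc, ← zpow_add, add_neg_cancel, zpow_zero, mul_one] at h2

theorem isCyclic [Finite G] (T : TwoByCyc H S h₁ d) (hS : IsCyclic S) : IsCyclic H := by
  obtain ⟨s, hs⟩ := (Subgroup.isCyclic_iff_exists_zpowers_eq_top S).mp hS
  have hsS : s ∈ S := hs ▸ Subgroup.mem_zpowers s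
  obtain ⟨f, hf⟩ := T.two s hsS
  have hcs : h₁ * s = s * h₁ :=
    comm_of_odd_of_two_pow s h₁ f d hf T.odd T.pow (by rw [hs]; exact T.norm h₁ T.mem s hsS)
  have hcop : Nat.Coprime (2 ^ f) d := Nat.Coprime.pow_left f (Nat.coprime_two_left.mpr T.odd)
  obtain ⟨A, B, hAB⟩ := Nat.isCoprime_iff_coprime.mpr hcop
  have hwpow : ∀ n : ℕ, (s * h₁) ^ n = s ^ n * h₁ ^ n :=
    fun n => (show Commute s h₁ from hcs.symm).mul_pow n
  have hsw : s ∈ Subgroup.zpowers (s * h₁) := by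
    have h1 : (s * h₁) ^ d = s ^ d := by rw [hwpow, T.pow, mul_one]
    have h2 : s = (s ^ d) ^ B := by
      have h3 : s ^ (A * ((2 ^ f : ℕ) : ℤ) + B * (d : ℤ)) = (s ^ (2 ^ f)) ^ A * (s ^ d) ^ B := by
        rw [zpow_add, mul_comm A, zpow_mul, zpow_natCast, mul_comm B, zpow_mul, zpow_natCast]
      rw [hAB, zpow_one, hf, one_zpow, one_mul] at h3
      exact h3
    have h4 : ((s * h₁) ^ d) ^ B ∈ Subgroup.zpowers (s * h₁) :=
      Subgroup.zpow_mem _ (Subgroup.pow_mem _ (Subgroup.mem_zpowers _) d) B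
    rwa [h1, ← h2] at h4
  have hhw : h₁ ∈ Subgroup.zpowers (s * h₁) := by
    have h1 : (s * h₁) ^ (2 ^ f) = h₁ ^ (2 ^ f) := by rw [hwpow, hf, one_mul]
    have h2 : h₁ = (h₁ ^ (2 ^ f)) ^ A := by
      have h3 : h₁ ^ (A * ((2 ^ f : ℕ) : ℤ) + B * (d : ℤ)) =
          (h₁ ^ (2 ^ f)) ^ A * (h₁ ^ d) ^ B := by
        rw [zpow_add, mul_comm A, zpow_mul, zpow_natCast, mul_comm B, zpow_mul, zpow_natCast]
      rw [hAB, zpow_one, T.pow, one_zpow, mul_one] at h3
      exact h3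
    have h4 : ((s * h₁) ^ (2 ^ f)) ^ A ∈ Subgroup.zpowers (s * h₁) :=
      Subgroup.zpow_mem _ (Subgroup.pow_mem _ (Subgroup.mem_zpowers _) _) A
    rwa [h1, ← h2] at h4
  have hall : ∀ h ∈ H, h ∈ Subgroup.zpowers (s * h₁) := by
    intro h hh
    obtain ⟨k, hk⟩ := T.gen h hh
    have h1 : h * h₁ ^ k ∈ Subgroup.zpowers (s * h₁) := by
      rw [← hs] at hk
      exact (Subgroup.zpowers_le.mpr hsw) hk
    have h2 := Subgroup.mul_mem _ h1 (Subgroup.zpow_mem _ hhw (-k))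
    rwa [mul_assoc, ← zpow_add, add_neg_cancel, zpow_zero, mul_one] at h2
  have hwH : s * h₁ ∈ H := H.mul_mem (T.le hsS) T.mem
  refine ⟨⟨⟨s * h₁, hwH⟩, fun x => ?_⟩⟩
  obtain ⟨k, hk⟩ := Subgroup.mem_zpowers_iff.mp (hall x x.2)
  exact Subgroup.mem_zpowers_iff.mpr ⟨k, Subtype.ext (by simp [hk])⟩

theorem mem_of_dihLike [Finite G] (T : TwoByCyc H S h₁ d) {b : G} (hD : DihLike S b)
    (hbb : b * b ≠ 1) (x : G) (hx : x ∈ S) (hxb : x ∉ Subgroup.zpowers b)
    (hK : ∀ K : Subgroup G, K ≤ S → Nat.card K = 4 → (∀ k ∈ K, k ^ 2 = 1) →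
      Subgroup.centralizer (K : Set G) ≤ K) : h₁ ∈ S := by
  haveI : Fact (Nat.Prime 2) := ⟨Nat.prime_two⟩
  have hcomm := hD.comm_of_odd T.two hbb h₁ d T.odd T.pow (T.norm h₁ T.mem)
  obtain ⟨f, hf⟩ := T.two b hD.1
  obtain ⟨m, -, hm⟩ := (Nat.dvd_prime_pow Nat.prime_two).mp (orderOf_dvd_of_pow_eq_one hf)
  have hm1 : 1 ≤ m := by
    by_contra hcon
    have h0 : m = 0 := by omega
    subst h0
    rw [pow_zero, orderOf_eq_one_iff] at hm
    exact hbb (by rw [hm, mul_one])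
  have hzo : orderOf (b ^ (2 ^ (m - 1))) = 2 := by
    rw [orderOf_pow_of_dvd (by positivity) (by rw [hm]; exact pow_dvd_pow 2 (Nat.sub_le m 1)), hm,
      Nat.pow_div (Nat.sub_le m 1) (by norm_num)]
    have : m - (m - 1) = 1 := by omega
    rw [this, pow_one]
  obtain ⟨e1, e2⟩ := hD.2.1 x hx hxb
  have hx2 : x ^ 2 = 1 := by rw [sq]; exact e1
  have hxo : orderOf x = 2 :=
    orderOf_eq_prime hx2 (fun h => hxb (h ▸ Subgroup.one_mem _))
  have hzx : b ^ (2 ^ (m - 1)) * x = x * b ^ (2 ^ (m - 1)) := by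
    have h1 : x * b ^ (2 ^ (m - 1)) * x⁻¹ = (b ^ (2 ^ (m - 1)))⁻¹ := by
      rw [← conj_pow, e2, inv_pow]
    have h2 : (b ^ (2 ^ (m - 1)))⁻¹ = b ^ (2 ^ (m - 1)) := by
      have h3 := pow_orderOf_eq_one (b ^ (2 ^ (m - 1)))
      rw [hzo] at h3
      rw [inv_eq_iff_mul_eq_one, ← sq]; exact h3
    rw [h2] at h1
    calc b ^ (2 ^ (m - 1)) * x = x * b ^ (2 ^ (m - 1)) * x⁻¹ * x := by rw [h1]
      _ = x * b ^ (2 ^ (m - 1)) := by group
  have hxz : x ∉ Subgroup.zpowers (b ^ (2 ^ (m - 1))) := fun h =>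
    hxb ((Subgroup.zpowers_le.mpr (Subgroup.pow_mem _ (Subgroup.mem_zpowers b) _)) h)
  obtain ⟨E, hE4, -, hEexp, -, -, -, hEel⟩ :=
    exists_elemAb_sq' 2 (b ^ (2 ^ (m - 1))) x hzo hxo hzx hxz
  have hES : E ≤ S := by
    intro e he
    obtain ⟨i, j, rfl⟩ := hEel e he
    exact S.mul_mem (S.pow_mem (S.pow_mem hD.1 _) _) (S.pow_mem hx _)
  have hcE := hK E hES hE4 hEexp
  apply hES
  apply hcE
  rw [Subgroup.mem_centralizer_iff]
  intro e he
  exact (hcomm e (hES he)).symm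

/-- Elements of exponent two commute. -/
theorem comm_of_sq {u v : G} (hu : u ^ 2 = 1) (hv : v ^ 2 = 1) (huv : (u * v) ^ 2 = 1) :
    u * v = v * u := by
  have h1 : u⁻¹ = u := by rw [inv_eq_iff_mul_eq_one, ← sq]; exact hu
  have h2 : v⁻¹ = v := by rw [inv_eq_iff_mul_eq_one, ← sq]; exact hv
  have h3 : (u * v)⁻¹ = u * v := by rw [inv_eq_iff_mul_eq_one, ← sq]; exact huv
  rw [← h3, mul_inv_rev, h1, h2]

theorem klein [Finite G] (T : TwoByCyc H S h₁ d) (hS4 : Nat.card S = 4)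
    (hexp : ∀ s ∈ S, s ^ 2 = 1) (hcent : Subgroup.centralizer (S : Set G) ≤ S) (hh : h₁ ∉ S) :
    Nonempty (H ≃* alternatingGroup (Fin 4)) := by
  haveI : Fact (Nat.Prime 3) := ⟨by norm_num⟩
  have h3c := cube_comm_of_four S hS4 h₁ d T.odd T.pow (T.norm h₁ T.mem)
  have h3S : h₁ ^ 3 ∈ S := hcent (by
    rw [Subgroup.mem_centralizer_iff]
    intro s hs
    exact (h3c s hs).symm)
  have h31 : h₁ ^ 3 = 1 := eq_one_of_odd_two_pow (h₁ ^ 3) d 1 T.odd
    (by rw [← pow_mul, mul_comm, pow_mul, T.pow, one_pow]) (by simpa using hexp _ h3S)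
  have hh1 : h₁ ≠ 1 := fun h => hh (h ▸ S.one_mem)
  have hab : ∀ u ∈ S, ∀ v ∈ S, u * v = v * u := fun u hu v hv =>
    comm_of_sq (hexp u hu) (hexp v hv) (hexp _ (S.mul_mem hu hv))
  -- the order of `H`
  haveI hSn : (S.subgroupOf H).Normal :=
    ⟨fun n hn g => by
      rw [Subgroup.mem_subgroupOf] at hn ⊢
      simpa using T.norm g g.2 n hn⟩
  have hq3 : ((⟨h₁, T.mem⟩ : H) : H ⧸ S.subgroupOf H) ^ 3 = 1 := by
    rw [← QuotientGroup.mk_pow]
    have : (⟨h₁, T.mem⟩ : H) ^ 3 = 1 := Subtype.ext (by simpa using h31)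
    rw [this]; rfl
  have hq1 : ((⟨h₁, T.mem⟩ : H) : H ⧸ S.subgroupOf H) ≠ 1 := by
    intro hc
    rw [QuotientGroup.eq_one_iff, Subgroup.mem_subgroupOf] at hc
    exact hh hc
  have hqo : orderOf ((⟨h₁, T.mem⟩ : H) : H ⧸ S.subgroupOf H) = 3 := orderOf_eq_prime hq3 hq1
  have hqtop : Subgroup.zpowers ((⟨h₁, T.mem⟩ : H) : H ⧸ S.subgroupOf H) = ⊤ := by
    rw [eq_top_iff]
    intro q _
    obtain ⟨h, rfl⟩ := QuotientGroup.mk_surjective q
    obtain ⟨k, hk⟩ := T.gen h h.2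
    rw [Subgroup.mem_zpowers_iff]
    refine ⟨-k, ?_⟩
    rw [← QuotientGroup.mk_zpow, QuotientGroup.eq, Subgroup.mem_subgroupOf]
    have h5 : (((⟨h₁, T.mem⟩ : H) ^ (-k))⁻¹ * h : H) = ⟨h₁, T.mem⟩ ^ k * h := by
      rw [zpow_neg, inv_inv]
    rw [h5]
    have h6 := T.norm (h₁ ^ k) (H.zpow_mem T.mem k) _ hk
    have h7 : h₁ ^ k * ((h : G) * h₁ ^ k) * (h₁ ^ k)⁻¹ = h₁ ^ k * (h : G) := by group
    rw [h7] at h6
    simpa using h6
  have hcardQ : Nat.card (H ⧸ S.subgroupOf H) = 3 := by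
    rw [← Subgroup.card_top (G := H ⧸ S.subgroupOf H), ← hqtop, Nat.card_zpowers, hqo]
  have hcardH : Nat.card H = 12 := by
    rw [Subgroup.card_eq_card_quotient_mul_card_subgroup (S.subgroupOf H), hcardQ,
      Nat.card_congr (Subgroup.subgroupOfEquivOfLe T.le).toEquiv, hS4]
  -- no central involution
  refine S0228.result hcardH ?_
  intro z hz hzc
  have hzS : (z : G) ∈ S := T.mem_of_two z z.2 1 (by
    have : z ^ 2 = 1 := by rw [← hz]; exact pow_orderOf_eq_one z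
    have := congrArg Subtype.val this
    simpa using this)
  have hz1 : (z : G) ≠ 1 := by
    intro h
    have : z = 1 := Subtype.ext h
    rw [this, orderOf_one] at hz
    omega
  have hzh : h₁ * (z : G) = (z : G) * h₁ := by
    have := (Subgroup.mem_center_iff.mp hzc) ⟨h₁, T.mem⟩
    have := congrArg Subtype.val this
    simpa using this
  -- some element of `S` does not commute with `h₁`
  have hex : ∃ u ∈ S, h₁ * u ≠ u * h₁ := by
    by_contra hcon
    push Not at hcon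
    exact hh (hcent (by
      rw [Subgroup.mem_centralizer_iff]
      intro s hs
      exact (hcon s hs).symm))
  obtain ⟨u, hu, hune⟩ := hex
  have hC2 : Nat.card ((Subgroup.centralizer ({h₁} : Set G)).subgroupOf S) = 2 := by
    have hdvd : Nat.card ((Subgroup.centralizer ({h₁} : Set G)).subgroupOf S) ∣ 4 := by
      rw [← hS4]; exact Subgroup.card_subgroup_dvd_card _
    have hne1 : Nat.card ((Subgroup.centralizer ({h₁} : Set G)).subgroupOf S) ≠ 1 := by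
      intro h
      have hbot := Subgroup.eq_bot_of_card_eq _ h
      have hzmem : (⟨(z : G), hzS⟩ : S) ∈ (Subgroup.centralizer ({h₁} : Set G)).subgroupOf S := by
        rw [Subgroup.mem_subgroupOf, Subgroup.mem_centralizer_singleton_iff]
        exact hzh.symm
      rw [hbot, Subgroup.mem_bot] at hzmem
      exact hz1 (congrArg Subtype.val hzmem)
    have hne4 : Nat.card ((Subgroup.centralizer ({h₁} : Set G)).subgroupOf S) ≠ 4 := by
      intro h
      have htop := (Subgroup.card_eq_iff_eq_top _).mp (h.trans hS4.symm)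
      have humem : (⟨u, hu⟩ : S) ∈ (Subgroup.centralizer ({h₁} : Set G)).subgroupOf S := by
        rw [htop]; exact Subgroup.mem_top _
      rw [Subgroup.mem_subgroupOf, Subgroup.mem_centralizer_singleton_iff] at humem
      exact hune humem.symm
    have hle : Nat.card ((Subgroup.centralizer ({h₁} : Set G)).subgroupOf S) ≤ 4 :=
      Nat.le_of_dvd (by norm_num) hdvd
    generalize Nat.card ((Subgroup.centralizer ({h₁} : Set G)).subgroupOf S) = n at *
    interval_cases n <;> simp_all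
  have hidx : ((Subgroup.centralizer ({h₁} : Set G)).subgroupOf S).index = 2 := by
    have := Subgroup.index_mul_card ((Subgroup.centralizer ({h₁} : Set G)).subgroupOf S)
    rw [hC2, hS4] at this
    omega
  have hu' : h₁ * u * h₁⁻¹ ∈ S := T.norm h₁ T.mem u hu
  have hmem1 : (⟨u, hu⟩ : S) ∉ (Subgroup.centralizer ({h₁} : Set G)).subgroupOf S := by
    rw [Subgroup.mem_subgroupOf, Subgroup.mem_centralizer_singleton_iff]
    exact fun h => hune h.symm
  have hmem2 : (⟨h₁ * u * h₁⁻¹, hu'⟩ : S) ∉ (Subgroup.centralizer ({h₁} : Set G)).subgroupOf S := by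
    rw [Subgroup.mem_subgroupOf, Subgroup.mem_centralizer_singleton_iff]
    intro h
    apply hune
    have h1 : h₁ * u * h₁⁻¹ * h₁ = h₁ * (h₁ * u * h₁⁻¹) := h
    have h2 : h₁ * u * h₁⁻¹ * h₁ = h₁ * u := by group
    rw [h2] at h1
    have h3 : u = h₁ * u * h₁⁻¹ := mul_left_cancel h1
    calc h₁ * u = h₁ * u * h₁⁻¹ * h₁ := by group
      _ = u * h₁ := by rw [← h3]
  have hmem3 : (⟨u, hu⟩ : S) * ⟨h₁ * u * h₁⁻¹, hu'⟩ ∈
      (Subgroup.centralizer ({h₁} : Set G)).subgroupOf S :=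
    (Subgroup.mul_mem_iff_of_index_two hidx).mpr ⟨fun h => absurd h hmem1, fun h => absurd h hmem2⟩
  rw [Subgroup.mem_subgroupOf, Subgroup.mem_centralizer_singleton_iff] at hmem3
  have hmem3' : u * (h₁ * u * h₁⁻¹) * h₁ = h₁ * (u * (h₁ * u * h₁⁻¹)) := hmem3
  -- hence `h₁ ^ 2` commutes with `u`
  have h2c : h₁ ^ 2 * u = u * h₁ ^ 2 := by
    have h1 : h₁ * (u * (h₁ * u * h₁⁻¹)) * h₁⁻¹ = u * (h₁ * u * h₁⁻¹) := by
      rw [← hmem3']; group
    have h2 : h₁ * (u * (h₁ * u * h₁⁻¹)) * h₁⁻¹ = (h₁ * u * h₁⁻¹) * (h₁ ^ 2 * u * (h₁ ^ 2)⁻¹) := by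
      group
    rw [h2, hab u hu _ hu'] at h1
    have h3 : h₁ ^ 2 * u * (h₁ ^ 2)⁻¹ = u := mul_left_cancel h1
    calc h₁ ^ 2 * u = h₁ ^ 2 * u * (h₁ ^ 2)⁻¹ * h₁ ^ 2 := by group
      _ = u * h₁ ^ 2 := by rw [h3]
  exact hune (comm_of_pow_comm h₁ u d 2 T.pow (Nat.coprime_two_left.mpr T.odd) h2c)

theorem main [Finite G] (T : TwoByCyc H S h₁ d)
    (hyp : IsCyclic S ∨ ∃ b, DihLike S b ∧ ∀ K : Subgroup G, K ≤ S → Nat.card K = 4 →
      (∀ k ∈ K, k ^ 2 = 1) → Subgroup.centralizer (K : Set G) ≤ K) :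
    IsCyclic H ∨ (∃ n : ℕ, Nonempty (H ≃* DihedralGroup (2 ^ n))) ∨
      Nonempty (H ≃* alternatingGroup (Fin 4)) := by
  rcases hyp with hc | ⟨b, hD, hK⟩
  · exact Or.inl (T.isCyclic hc)
  by_cases hall : ∀ s ∈ S, s ∈ Subgroup.zpowers b
  · have hSb : Subgroup.zpowers b = S := le_antisymm (Subgroup.zpowers_le.mpr hD.1) hall
    exact Or.inl (T.isCyclic ((Subgroup.isCyclic_iff_exists_zpowers_eq_top S).mpr ⟨b, hSb⟩))
  push Not at hall
  obtain ⟨x, hx, hxb⟩ := hall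
  obtain ⟨hcard, ⟨iso⟩⟩ := hD.card_and_iso x hx hxb
  obtain ⟨f, hf⟩ := T.two b hD.1
  obtain ⟨m, -, hm⟩ := (Nat.dvd_prime_pow Nat.prime_two).mp (orderOf_dvd_of_pow_eq_one hf)
  rw [hm] at iso
  have hdih : h₁ ∈ S → (∃ n : ℕ, Nonempty (H ≃* DihedralGroup (2 ^ n))) := by
    intro hh
    have hHS := T.eq_of_mem hh
    rw [hHS]
    exact ⟨m, ⟨iso⟩⟩
  by_cases hbb : b * b = 1
  · have ho : orderOf b ∣ 2 := orderOf_dvd_of_pow_eq_one (by rw [sq]; exact hbb)
    rcases (Nat.dvd_prime Nat.prime_two).mp ho with h1 | h2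
    · have h2 : Nat.card S = 2 := by rw [hcard, h1]
      haveI : Fact (Nat.Prime 2) := ⟨Nat.prime_two⟩
      exact Or.inl (T.isCyclic (isCyclic_of_prime_card h2))
    · have hS4 : Nat.card S = 4 := by rw [hcard, h2]
      have hexp : ∀ s ∈ S, s ^ 2 = 1 := by
        intro s hs
        by_cases hsb : s ∈ Subgroup.zpowers b
        · obtain ⟨k, rfl⟩ := Subgroup.mem_zpowers_iff.mp hsb
          rw [← zpow_natCast, ← zpow_mul, mul_comm, zpow_mul, zpow_natCast, sq, hbb, one_zpow]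
        · rw [sq]; exact (hD.2.1 s hs hsb).1
      by_cases hh : h₁ ∈ S
      · exact Or.inr (Or.inl (hdih hh))
      · exact Or.inr (Or.inr (T.klein hS4 hexp (hK S le_rfl hS4 hexp) hh))
  · exact Or.inr (Or.inl (hdih (T.mem_of_dihLike hD hbb x hx hxb hK)))

end TwoByCyc

end Cfsg.Agent.Helper29
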