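import Mathlib
import Cfsg.Agent.Helper29.DihLike

set_option autoImplicit false

namespace Cfsg.Agent.Helper29

/-- The subgroup `K · ⟨c⟩` for an element `c` centralizing `K`. -/
def centProd {G : Type*} [Group G] (K : Subgroup G) (c : G) (hc : ∀ k ∈ K, c * k = k * c) :
    Subgroup G where
  carrier := {g | ∃ k ∈ K, ∃ i : ℤ, g = k * c ^ i}
  mul_mem' := by
    rintro _ _ ⟨k, hk, i, rfl⟩ ⟨k', hk', j, rfl⟩
    refine ⟨k * k', K.mul_mem hk hk', i + j, ?_⟩
    have h1 : c ^ i * k' = k' * c ^ i := ((show Commute c k' from hc k' hk').zpow_left i)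
    calc k * c ^ i * (k' * c ^ j) = k * (c ^ i * k') * c ^ j := by group
      _ = k * (k' * c ^ i) * c ^ j := by rw [h1]
      _ = k * k' * c ^ (i + j) := by rw [zpow_add]; group
  one_mem' := ⟨1, K.one_mem, 0, by simp⟩
  inv_mem' := by
    rintro _ ⟨k, hk, i, rfl⟩
    refine ⟨k⁻¹, K.inv_mem hk, -i, ?_⟩
    have h1 : c ^ (-i) * k⁻¹ = k⁻¹ * c ^ (-i) :=
      ((show Commute c k⁻¹ from (show Commute c k from hc k hk).inv_right).zpow_left (-i))
    rw [mul_inv_rev, ← zpow_neg, h1]

theorem mem_centProd {G : Type*} [Group G] (K : Subgroup G) (c : G)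
    (hc : ∀ k ∈ K, c * k = k * c) (g : G) :
    g ∈ centProd K c hc ↔ ∃ k ∈ K, ∃ i : ℤ, g = k * c ^ i := Iff.rfl

theorem le_centProd {G : Type*} [Group G] (K : Subgroup G) (c : G)
    (hc : ∀ k ∈ K, c * k = k * c) : K ≤ centProd K c hc :=
  fun k hk => ⟨k, hk, 0, by simp⟩

theorem self_mem_centProd {G : Type*} [Group G] (K : Subgroup G) (c : G)
    (hc : ∀ k ∈ K, c * k = k * c) : c ∈ centProd K c hc :=
  ⟨1, K.one_mem, 1, by simp⟩

theorem centProd_comm {G : Type*} [Group G] (K : Subgroup G) (c : G)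
    (hc : ∀ k ∈ K, c * k = k * c) (hK : ∀ u ∈ K, ∀ v ∈ K, u * v = v * u) :
    ∀ x ∈ centProd K c hc, ∀ y ∈ centProd K c hc, x * y = y * x := by
  rintro _ ⟨k, hk, i, rfl⟩ _ ⟨k', hk', j, rfl⟩
  have h1 : c ^ i * k' = k' * c ^ i := ((show Commute c k' from hc k' hk').zpow_left i)
  have h2 : c ^ j * k = k * c ^ j := ((show Commute c k from hc k hk).zpow_left j)
  have h3 : c ^ i * c ^ j = c ^ j * c ^ i := by rw [← zpow_add, ← zpow_add, add_comm]
  calc k * c ^ i * (k' * c ^ j) = k * (c ^ i * k') * c ^ j := by group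
    _ = k * (k' * c ^ i) * c ^ j := by rw [h1]
    _ = (k * k') * (c ^ i * c ^ j) := by group
    _ = (k' * k) * (c ^ j * c ^ i) := by rw [hK k hk k' hk', h3]
    _ = k' * (k * c ^ j) * c ^ i := by group
    _ = k' * (c ^ j * k) * c ^ i := by rw [h2]
    _ = k' * c ^ j * (k * c ^ i) := by group

/-- A commutative dihedral group has `n ∣ 2`. -/
theorem dvd_two_of_dihedral_comm (n : ℕ)
    (h : ∀ x y : DihedralGroup n, x * y = y * x) : n ∣ 2 := by
  have h1 := h (DihedralGroup.r 1) (DihedralGroup.sr 0)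
  rw [DihedralGroup.r_mul_sr, DihedralGroup.sr_mul_r] at h1
  have h2 : (0 - 1 : ZMod n) = 0 + 1 := DihedralGroup.sr.inj h1
  have h3 : ((2 : ℕ) : ZMod n) = 0 := by
    push_cast
    linear_combination -h2
  exact (ZMod.natCast_eq_zero_iff 2 n).mp h3

/-- If every 2-by-cyclic subgroup is cyclic, dihedral or `A₄`, then elementary abelian subgroups
of order four are self-centralizing. -/
theorem klein_cent_of_hyp {G : Type*} [Group G] [Finite G]
    (hL : ∀ H : Subgroup G, (∀ S : Sylow 2 ↥H, (S : Subgroup ↥H).Normal) →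
        (∀ (S : Sylow 2 ↥H) [(S : Subgroup ↥H).Normal], IsCyclic (↥H ⧸ (S : Subgroup ↥H))) →
        IsCyclic H ∨ (∃ n : ℕ, Nonempty (H ≃* DihedralGroup (2 ^ n))) ∨
          Nonempty (H ≃* alternatingGroup (Fin 4)))
    (K : Subgroup G) (hK4 : Nat.card K = 4) (hexp : ∀ k ∈ K, k ^ 2 = 1) :
    Subgroup.centralizer (K : Set G) = K := by
  haveI : Fact (Nat.Prime 2) := ⟨Nat.prime_two⟩
  have hab : ∀ u ∈ K, ∀ v ∈ K, u * v = v * u := fun u hu v hv =>
    TwoByCyc.comm_of_sq (hexp u hu) (hexp v hv) (hexp _ (K.mul_mem hu hv))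
  apply le_antisymm
  · intro c hcc
    have hc : ∀ k ∈ K, c * k = k * c := fun k hk =>
      ((Subgroup.mem_centralizer_iff.mp hcc) k hk).symm
    have hcommG := centProd_comm K c hc hab
    have hcomm : ∀ x y : centProd K c hc, x * y = y * x := fun x y =>
      Subtype.ext (hcommG x x.2 y y.2)
    have hyp1 : ∀ S : Sylow 2 ↥(centProd K c hc), (S : Subgroup ↥(centProd K c hc)).Normal := by
      intro S
      exact ⟨fun n hn g => by rw [hcomm g n, mul_assoc, mul_inv_cancel, mul_one]; exact hn⟩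
    have hyp2 : ∀ (S : Sylow 2 ↥(centProd K c hc)) [(S : Subgroup ↥(centProd K c hc)).Normal],
        IsCyclic (↥(centProd K c hc) ⧸ (S : Subgroup ↥(centProd K c hc))) := by
      intro S _
      refine ⟨⟨QuotientGroup.mk ⟨c, self_mem_centProd K c hc⟩, fun q => ?_⟩⟩
      obtain ⟨h, rfl⟩ := QuotientGroup.mk_surjective q
      obtain ⟨k, hk, i, hi⟩ := h.2
      refine ⟨i, ?_⟩
      show (QuotientGroup.mk (⟨c, self_mem_centProd K c hc⟩ : centProd K c hc) :
        ↥(centProd K c hc) ⧸ (S : Subgroup ↥(centProd K c hc))) ^ i = QuotientGroup.mk h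
      rw [← QuotientGroup.mk_zpow, QuotientGroup.eq]
      have h1 : ((⟨c, self_mem_centProd K c hc⟩ : centProd K c hc) ^ i)⁻¹ * h =
          ⟨k, le_centProd K c hc hk⟩ := by
        apply Subtype.ext
        have h2 : c ^ i * k = k * c ^ i := ((show Commute c k from hc k hk).zpow_left i)
        simp only [Subgroup.coe_mul, Subgroup.coe_inv, Subgroup.coe_zpow]
        rw [hi, ← h2]; group
      rw [h1]
      exact mem_sylow_of_normal_of_pow S _ 1 (Subtype.ext (by simpa using hexp k hk))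
    rcases hL (centProd K c hc) hyp1 hyp2 with hcyc | ⟨m, ⟨e⟩⟩ | ⟨⟨e⟩⟩
    · exfalso
      have hKc : IsCyclic K := Subgroup.isCyclic_of_le (le_centProd K c hc)
      obtain ⟨g, hg⟩ := IsCyclic.exists_generator (α := K)
      have h1 : orderOf g = 4 := by rw [orderOf_eq_card_of_forall_mem_zpowers hg, hK4]
      have h2 : g ^ 2 = 1 := Subtype.ext (by simpa using hexp g g.2)
      have h3 := orderOf_dvd_of_pow_eq_one h2
      rw [h1] at h3
      omega
    · have hcommD : ∀ x y : DihedralGroup (2 ^ m), x * y = y * x := by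
        intro x y
        apply e.symm.injective
        rw [map_mul, map_mul]
        exact hcomm _ _
      have h1 := dvd_two_of_dihedral_comm _ hcommD
      have h2 : 2 ^ m ≤ 2 := Nat.le_of_dvd (by norm_num) h1
      have h3 : Nat.card (centProd K c hc) = 2 * 2 ^ m := by
        rw [Nat.card_congr e.toEquiv, DihedralGroup.nat_card]
      have h4 : Nat.card (centProd K c hc) ≤ Nat.card K := by rw [h3, hK4]; omega
      have h5 := Subgroup.eq_of_le_of_card_ge (le_centProd K c hc) h4
      rw [h5]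
      exact self_mem_centProd K c hc
    · exfalso
      have hcommA : ∀ x y : alternatingGroup (Fin 4), x * y = y * x := by
        intro x y
        apply e.symm.injective
        rw [map_mul, map_mul]
        exact hcomm _ _
      have hcen : Subgroup.center (alternatingGroup (Fin 4)) = ⊥ :=
        alternatingGroup.center_eq_bot (by simp)
      have hsub : ∀ x : alternatingGroup (Fin 4), x = 1 := by
        intro x
        have : x ∈ Subgroup.center (alternatingGroup (Fin 4)) := by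
          rw [Subgroup.mem_center_iff]
          intro g
          exact hcommA g x
        rwa [hcen, Subgroup.mem_bot] at this
      have hcard : Nat.card (alternatingGroup (Fin 4)) = 12 := by
        rw [nat_card_alternatingGroup]; simp [Nat.factorial]
      haveI : Subsingleton (alternatingGroup (Fin 4)) := ⟨fun a b => by rw [hsub a, hsub b]⟩
      rw [Nat.card_of_subsingleton (1 : alternatingGroup (Fin 4))] at hcard
      omega
  · intro k hk
    rw [Subgroup.mem_centralizer_iff]
    intro h hh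
    exact hab h hh k hk

/-- The hypothesis on a Sylow 2-subgroup passes to every 2-subgroup, in a conjugation-free
form. -/
theorem local_hyp_of_sylow {G : Type*} [Group G] [Finite G] (P : Sylow 2 G)
    (hR : IsCyclic P ∨
      ((∃ n : ℕ, 1 ≤ n ∧ Nonempty ((P : Subgroup G) ≃* DihedralGroup (2 ^ n))) ∧
        ∀ K : Subgroup G, K ≤ P → Nat.card K = 4 → (∀ k ∈ K, k ^ 2 = 1) →
          Subgroup.centralizer (K : Set G) = K))
    (S : Subgroup G) (hS : ∀ s ∈ S, ∃ k : ℕ, s ^ (2 ^ k) = 1) :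
    IsCyclic S ∨ ∃ b, DihLike S b ∧ ∀ K : Subgroup G, K ≤ S → Nat.card K = 4 →
      (∀ k ∈ K, k ^ 2 = 1) → Subgroup.centralizer (K : Set G) ≤ K := by
  haveI : Fact (Nat.Prime 2) := ⟨Nat.prime_two⟩
  have hSp : IsPGroup 2 S := fun s => by
    obtain ⟨k, hk⟩ := hS s s.2
    exact ⟨k, Subtype.ext (by simpa using hk)⟩
  obtain ⟨Q, hQ⟩ := hSp.exists_le_sylow
  obtain ⟨g, rfl⟩ := MulAction.exists_smul_eq G P Q
  have hmem : ∀ s ∈ S, g⁻¹ * s * g ∈ (P : Subgroup G) := by
    intro s hs
    have h1 := hQ hs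
    rw [Sylow.coe_subgroup_smul, Subgroup.mem_pointwise_smul_iff_inv_smul_mem] at h1
    simpa [MulAut.smul_def] using h1
  rcases hR with hc | ⟨⟨n, hn, ⟨e⟩⟩, hK⟩
  · left
    haveI : IsCyclic ↥((g • P : Sylow 2 G) : Subgroup G) :=
      isCyclic_of_surjective (P.equivSMul g) (P.equivSMul g).surjective
    exact Subgroup.isCyclic_of_le hQ
  · right
    have hDP : ∃ a, DihLike (P : Subgroup G) a := by
      have h1 := (dihLike_dihedral (2 ^ n)).map ((P : Subgroup G).subtype.comp e.symm.toMonoidHom)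
      have h2 : (⊤ : Subgroup (DihedralGroup (2 ^ n))).map
          ((P : Subgroup G).subtype.comp e.symm.toMonoidHom) = (P : Subgroup G) := by
        ext x
        constructor
        · rintro ⟨y, -, rfl⟩
          exact (e.symm y).2
        · intro hx
          exact ⟨e ⟨x, hx⟩, Subgroup.mem_top _, by simp⟩
      rw [h2] at h1
      exact ⟨_, h1⟩
    obtain ⟨a, hDPa⟩ := hDP
    have hψφ : ∀ x, (MulAut.conj g).toMonoidHom ((MulAut.conj g⁻¹).toMonoidHom x) = x := by
      intro x
      simp [MulAut.conj_apply]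
      group
    have hS₁ : S.map (MulAut.conj g⁻¹).toMonoidHom ≤ (P : Subgroup G) := by
      rintro _ ⟨s, hs, rfl⟩
      simpa [MulAut.conj_apply] using hmem s hs
    obtain ⟨b₁, hb₁⟩ := hDPa.sub _ hS₁
    have hb := hb₁.map (MulAut.conj g).toMonoidHom
    have hmap : (S.map (MulAut.conj g⁻¹).toMonoidHom).map (MulAut.conj g).toMonoidHom = S := by
      ext x
      constructor
      · rintro ⟨_, ⟨s, hs, rfl⟩, rfl⟩
        rwa [hψφ]
      · intro hx
        exact ⟨_, ⟨x, hx, rfl⟩, hψφ x⟩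
    rw [hmap] at hb
    refine ⟨_, hb, ?_⟩
    intro K hKS hK4 hKexp c hc
    have hK₁P : K.map (MulAut.conj g⁻¹).toMonoidHom ≤ (P : Subgroup G) :=
      (Subgroup.map_mono hKS).trans hS₁
    have hK₁4 : Nat.card (K.map (MulAut.conj g⁻¹).toMonoidHom) = 4 := by
      rw [Subgroup.card_map_of_injective (MulAut.conj g⁻¹).injective]; exact hK4
    have hK₁exp : ∀ k ∈ K.map (MulAut.conj g⁻¹).toMonoidHom, k ^ 2 = 1 := by
      rintro _ ⟨k, hk, rfl⟩
      rw [← map_pow, hKexp k hk, map_one]
    have h1 := hK _ hK₁P hK₁4 hK₁exp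
    have h2 : (MulAut.conj g⁻¹).toMonoidHom c ∈
        Subgroup.centralizer ((K.map (MulAut.conj g⁻¹).toMonoidHom : Subgroup G) : Set G) := by
      rw [Subgroup.mem_centralizer_iff]
      rintro _ ⟨k, hk, rfl⟩
      rw [← map_mul, ← map_mul, (Subgroup.mem_centralizer_iff.mp hc) k hk]
    rw [h1] at h2
    obtain ⟨k, hk, hkc⟩ := h2
    have hkc' : k = c := (MulAut.conj g⁻¹).injective hkc
    rwa [← hkc']

end Cfsg.Agent.Helper29
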