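import Mathlib
import Cfsg.Agent.Helper57.G3Defs

/-!
# CALL S2518, piece P12 (seat helper29): the bit mask `g3Ok` only admits `6` as a product of two
distinct primes dividing an admitted number.
-/

set_option autoImplicit false

open Cfsg.Agent.Helper57 Cfsg.Lie Matrix

namespace Cfsg.Agent.Helper29

theorem g3_ok_spec (L r s : ℕ) (hL : g3Ok L = true) (hr : r.Prime) (hs : s.Prime) (hrs : r ≠ s)
    (hd : r * s ∣ L) : r * s = 6 := by
  have hL14 : L < 14 := by
    by_contra h
    push_neg at h
    have h0 : Nat.shiftRight 13278 L = 0 := by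
      show 13278 >>> L = 0
      rw [Nat.shiftRight_eq_div_pow]
      apply Nat.div_eq_of_lt
      calc 13278 < 2 ^ 14 := by norm_num
        _ ≤ 2 ^ L := Nat.pow_le_pow_right (by norm_num) h
    unfold g3Ok at hL
    rw [h0] at hL
    exact absurd hL (by decide)
  have hr2 := hr.two_le
  have hs2 := hs.two_le
  have hLpos : 0 < L := by
    rcases Nat.eq_zero_or_pos L with h | h
    · subst h; exact absurd hL (by decide)
    · exact h
  have hle : r * s ≤ L := Nat.le_of_dvd hLpos hd
  have hr7 : r ≤ 6 := by nlinarith
  have hs7 : s ≤ 6 := by nlinarith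
  interval_cases r <;> interval_cases s <;>
    first
    | rfl
    | exact absurd rfl hrs
    | (norm_num at hr; done)
    | (norm_num at hs; done)
    | (exfalso; interval_cases L <;> first | omega | exact absurd hL (by decide))

end Cfsg.Agent.Helper29
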