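import Mathlib
import Cfsg.Agent.Helper57.G3Defs

/-!
# CALL S2518, piece P5 (seat helper29): the stabiliser of the point `0` is enumerated by the
products of two tables.
-/

set_option autoImplicit false

open Cfsg.Agent.Helper57 Cfsg.Lie Matrix

namespace Cfsg.Agent.Helper29

theorem g3_stab_tables (R : Subgroup (Equiv.Perm (Fin 728))) (b1 b2 : Fin 728) (T1 T2 : List ℕ)
    (hR : Nat.card R = 728 * (T1.length * T2.length)) (htr : ∀ x : Fin 728, ∃ σ ∈ R, σ 0 = x)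
    (h1 : ∀ N ∈ T1, g3Good R N) (h2 : ∀ N ∈ T2, g3Good R N)
    (hf1 : ∀ N ∈ T1, g3Ent N 0 = 0)
    (hf2 : ∀ N ∈ T2, g3Ent N 0 = 0 ∧ g3Ent N b1.val = b1.val)
    (hn1 : (T1.map (fun N => g3Ent N b1.val)).Nodup)
    (hn2 : (T2.map (fun N => g3Ent N b2.val)).Nodup) :
    ∀ σ ∈ R, σ 0 = 0 → ∃ N1 ∈ T1, ∃ N2 ∈ T2,
      ∀ x : Fin 728, (σ x).val = g3Ent N1 (g3Ent N2 x.val) := by
  classical
  have hc : ∀ N : ℕ, ∃ τ : Equiv.Perm (Fin 728),
      g3Good R N → (τ ∈ R ∧ ∀ x : Fin 728, (τ x).val = g3Ent N x.val) := by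
    intro N
    by_cases h : g3Good R N
    · obtain ⟨τ, hτ, hτx⟩ := h
      exact ⟨τ, fun _ => ⟨hτ, hτx⟩⟩
    · exact ⟨1, fun h' => absurd h' h⟩
  choose c hc using hc
  obtain ⟨St, hSt⟩ : ∃ St : Finset (Equiv.Perm (Fin 728)), ∀ σ, σ ∈ St ↔ (σ ∈ R ∧ σ 0 = 0) :=
    ⟨(Set.toFinite {σ : Equiv.Perm (Fin 728) | σ ∈ R ∧ σ 0 = 0}).toFinset, fun σ =>
      Set.Finite.mem_toFinset _⟩
  obtain ⟨Rf, hRfm⟩ : ∃ Rf : Finset (Equiv.Perm (Fin 728)), ∀ σ, σ ∈ Rf ↔ σ ∈ R :=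
    ⟨(Set.toFinite {σ : Equiv.Perm (Fin 728) | σ ∈ R}).toFinset, fun σ =>
      Set.Finite.mem_toFinset _⟩
  have hRf : Rf.card = 728 * (T1.length * T2.length) := by
    rw [← hR]
    exact (Nat.subtype_card Rf hRfm).symm
  have hStc : St.card = T1.length * T2.length := by
    have key : Rf.card = ∑ _b : Fin 728, St.card := by
      rw [Finset.card_eq_sum_card_fiberwise (s := Rf) (t := Finset.univ)
        (f := fun σ : Equiv.Perm (Fin 728) => σ 0) (fun σ _ => Finset.mem_univ _)]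
      apply Finset.sum_congr rfl
      intro x _
      obtain ⟨τ, hτ, hτx⟩ := htr x
      apply Finset.card_nbij' (fun σ => τ⁻¹ * σ) (fun ρ => τ * ρ)
      · intro σ hσ
        rw [Finset.mem_coe, Finset.mem_filter, hRfm] at hσ
        rw [Finset.mem_coe, hSt]
        refine ⟨R.mul_mem (R.inv_mem hτ) hσ.1, ?_⟩
        rw [Equiv.Perm.mul_apply, hσ.2, ← hτx]
        exact τ.symm_apply_apply 0
      · intro ρ hρ
        rw [Finset.mem_coe, hSt] at hρ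
        rw [Finset.mem_coe, Finset.mem_filter, hRfm]
        exact ⟨R.mul_mem hτ hρ.1, by rw [Equiv.Perm.mul_apply, hρ.2, hτx]⟩
      · intro σ _
        show τ * (τ⁻¹ * σ) = σ
        group
      · intro ρ _
        show τ⁻¹ * (τ * ρ) = ρ
        group
    rw [Finset.sum_const, Finset.card_univ, Fintype.card_fin, smul_eq_mul, hRf] at key
    exact (Nat.eq_of_mul_eq_mul_left (by norm_num) key).symm
  have hT1 : T1.Nodup := List.Nodup.of_map _ hn1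
  have hT2 : T2.Nodup := List.Nodup.of_map _ hn2
  obtain ⟨P, hPdef⟩ : ∃ P : Finset (ℕ × ℕ), P = T1.toFinset ×ˢ T2.toFinset := ⟨_, rfl⟩
  have hP : P.card = T1.length * T2.length := by
    rw [hPdef, Finset.card_product, List.toFinset_card_of_nodup hT1,
      List.toFinset_card_of_nodup hT2]
  have hmemP : ∀ p : ℕ × ℕ, p ∈ P ↔ p.1 ∈ T1 ∧ p.2 ∈ T2 := by
    intro p
    rw [hPdef, Finset.mem_product, List.mem_toFinset, List.mem_toFinset]
  have hinj : Set.InjOn (fun p : ℕ × ℕ => c p.1 * c p.2) (P : Set (ℕ × ℕ)) := by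
    intro p hp q hq heq
    obtain ⟨hN1, hN2⟩ := (hmemP p).1 (Finset.mem_coe.1 hp)
    obtain ⟨hM1, hM2⟩ := (hmemP q).1 (Finset.mem_coe.1 hq)
    have heq' : c p.1 * c p.2 = c q.1 * c q.2 := heq
    have a1 := (hc p.1 (h1 p.1 hN1)).2
    have a2 := (hc p.2 (h2 p.2 hN2)).2
    have a3 := (hc q.1 (h1 q.1 hM1)).2
    have a4 := (hc q.2 (h2 q.2 hM2)).2
    have fixN2 : c p.2 b1 = b1 := Fin.ext (by rw [a2, (hf2 p.2 hN2).2])
    have fixM2 : c q.2 b1 = b1 := Fin.ext (by rw [a4, (hf2 q.2 hM2).2])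
    have e1 : g3Ent p.1 b1.val = g3Ent q.1 b1.val := by
      have h := congrArg (fun σ : Equiv.Perm (Fin 728) => (σ b1).val) heq'
      simp only [Equiv.Perm.mul_apply, fixN2, fixM2] at h
      rw [a1, a3] at h
      exact h
    have hNM1 : p.1 = q.1 := List.inj_on_of_nodup_map hn1 hN1 hM1 e1
    rw [hNM1] at heq'
    have heq2 : c p.2 = c q.2 := mul_left_cancel heq'
    have e2 : g3Ent p.2 b2.val = g3Ent q.2 b2.val := by
      rw [← a2, ← a4, heq2]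
    have hNM2 : p.2 = q.2 := List.inj_on_of_nodup_map hn2 hN2 hM2 e2
    exact Prod.ext hNM1 hNM2
  have hsub : P.image (fun p : ℕ × ℕ => c p.1 * c p.2) ⊆ St := by
    intro σ hσ
    rw [Finset.mem_image] at hσ
    obtain ⟨p, hp, hσeq⟩ := hσ
    obtain ⟨hN1, hN2⟩ := (hmemP p).1 hp
    have a1 := hc p.1 (h1 p.1 hN1)
    have a2 := hc p.2 (h2 p.2 hN2)
    have hσeq' : c p.1 * c p.2 = σ := hσeq
    rw [← hσeq', hSt]
    refine ⟨R.mul_mem a1.1 a2.1, ?_⟩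
    have z2 : c p.2 0 = 0 := Fin.ext (by rw [a2.2, Fin.val_zero]; exact (hf2 p.2 hN2).1)
    have z1 : c p.1 0 = 0 := Fin.ext (by rw [a1.2, Fin.val_zero]; exact hf1 p.1 hN1)
    rw [Equiv.Perm.mul_apply, z2, z1]
  have himg : P.image (fun p : ℕ × ℕ => c p.1 * c p.2) = St := by
    apply Finset.eq_of_subset_of_card_le hsub
    rw [Finset.card_image_of_injOn hinj, hP, hStc]
  intro σ hσ hσ0
  have hmem : σ ∈ St := (hSt σ).2 ⟨hσ, hσ0⟩
  rw [← himg, Finset.mem_image] at hmem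
  obtain ⟨p, hp, hσeq⟩ := hmem
  obtain ⟨hN1, hN2⟩ := (hmemP p).1 hp
  have hσeq' : c p.1 * c p.2 = σ := hσeq
  refine ⟨p.1, hN1, p.2, hN2, fun x => ?_⟩
  rw [← hσeq', Equiv.Perm.mul_apply, (hc p.1 (h1 p.1 hN1)).2, (hc p.2 (h2 p.2 hN2)).2]

end Cfsg.Agent.Helper29
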