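import Mathlib
import Cfsg.Agent.Helper57.G3Defs

/-!
# CALL S2518, piece P6 (seat helper29): the points `0`, `b1`, `b2` form a base.
-/

set_option autoImplicit false

open Cfsg.Agent.Helper57 Cfsg.Lie Matrix

namespace Cfsg.Agent.Helper29

theorem g3_base (R : Subgroup (Equiv.Perm (Fin 728))) (b1 b2 : Fin 728) (T1 T2 : List ℕ)
    (henum : ∀ σ ∈ R, σ 0 = 0 → ∃ N1 ∈ T1, ∃ N2 ∈ T2,
      ∀ x : Fin 728, (σ x).val = g3Ent N1 (g3Ent N2 x.val))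
    (h2 : ∀ N ∈ T2, g3Good R N) (hf2 : ∀ N ∈ T2, g3Ent N b1.val = b1.val)
    (hn1 : (T1.map (fun N => g3Ent N b1.val)).Nodup)
    (hn2 : (T2.map (fun N => g3Ent N b2.val)).Nodup)
    (Nid : ℕ) (hid : ∀ x : Fin 728, g3Ent Nid x.val = x.val) (hid1 : Nid ∈ T1) (hid2 : Nid ∈ T2) :
    ∀ σ ∈ R, σ 0 = 0 → σ b1 = b1 → σ b2 = b2 → σ = 1 := by
  intro σ hσ h0 hb1 hb2
  obtain ⟨N1, hN1, N2, hN2, hx⟩ := henum σ hσ h0
  have e1 : g3Ent N1 b1.val = g3Ent Nid b1.val := by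
    have h := hx b1
    rw [hb1, hf2 N2 hN2] at h
    rw [← h, hid b1]
  have hN1id : N1 = Nid := List.inj_on_of_nodup_map hn1 hN1 hid1 e1
  obtain ⟨τ, hτ, hτx⟩ := h2 N2 hN2
  have hx' : ∀ x : Fin 728, (σ x).val = g3Ent N2 x.val := by
    intro x
    rw [hx x, hN1id, ← hτx x, hid (τ x)]
  have e2 : g3Ent N2 b2.val = g3Ent Nid b2.val := by
    rw [← hx' b2, hb2, hid b2]
  have hN2id : N2 = Nid := List.inj_on_of_nodup_map hn2 hN2 hid2 e2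
  ext x
  rw [hx' x, hN2id, hid x]
  rfl

end Cfsg.Agent.Helper29
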