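import Mathlib
import Cfsg.Agent.Helper80.SqrtCount
import Cfsg.Agent.Helper79.FrobSchur
import Cfsg.Agent.Helper79.Codegree
import Cfsg.Agent.Helper3.Induced

/-!
# Counting the solutions of `x ^ 2 = 1` in a `2`-group with many generators

If `G` is a finite `2`-group with `|G / Φ(G)| ≥ 2 ^ (2k+1)` then `2 ^ (k+1)` divides the number of
solutions of `x ^ 2 = 1`.  Proof: Frobenius--Schur count, and orbits of the linear characters of
`G / Φ(G)` on the irreducible characters.
-/

set_option autoImplicit false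

namespace Cfsg.Agent.Helper29

universe u

section FrattiniTwo
variable {G : Type u} [Group G] [Finite G]

/-- A maximal subgroup of a finite `2`-group has index `2`. -/
theorem index_eq_two_of_isCoatom (hG : IsPGroup 2 G) {M : Subgroup G} (hM : IsCoatom M) :
    M.index = 2 := by
  have : Fact (Nat.Prime 2) := ⟨Nat.prime_two⟩
  obtain ⟨m, hm⟩ := IsPGroup.iff_card.1 (hG.to_subgroup M)
  obtain ⟨n, hn⟩ := IsPGroup.iff_card.1 hG
  have hlt : Nat.card M < Nat.card G :=
    lt_of_le_of_ne (Subgroup.card_le_card_group M) (fun h => hM.1 ((Subgroup.card_eq_iff_eq_top M).1 h))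
  rw [hm, hn] at hlt
  have hmn : m < n := (Nat.pow_lt_pow_iff_right (by norm_num)).1 hlt
  have hdvd : 2 ^ (m + 1) ∣ Nat.card G := by rw [hn]; exact pow_dvd_pow 2 hmn
  obtain ⟨K, hK, hMK⟩ := Sylow.exists_subgroup_card_pow_succ hdvd hm
  have hne : M ≠ K := by
    rintro rfl
    rw [hm] at hK
    have : m = m + 1 := Nat.pow_right_injective (le_refl 2) hK
    omega
  have hKtop : K = ⊤ := hM.2 K (lt_of_le_of_ne hMK hne)
  have h1 := Subgroup.card_mul_index M
  rw [hKtop, Subgroup.card_top] at hK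
  rw [hm, hK, pow_succ] at h1
  exact Nat.eq_of_mul_eq_mul_left (pow_pos (by norm_num) m) h1

omit [Finite G] in
theorem mem_frattini_iff (x : G) : x ∈ frattini G ↔ ∀ M : Subgroup G, IsCoatom M → x ∈ M := by
  simp [frattini, Order.radical, Subgroup.mem_iInf]

/-- In a finite `2`-group squares lie in the Frattini subgroup. -/
theorem sq_mem_frattini (hG : IsPGroup 2 G) (g : G) : g * g ∈ frattini G := by
  rw [mem_frattini_iff]
  intro M hM
  have h := Subgroup.sq_mem_of_index_two (index_eq_two_of_isCoatom hG hM) g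
  rwa [pow_two] at h

/-- In a finite `2`-group commutators lie in the Frattini subgroup. -/
theorem comm_mem_frattini (hG : IsPGroup 2 G) (g h : G) : g * h * g⁻¹ * h⁻¹ ∈ frattini G := by
  rw [mem_frattini_iff]
  intro M hM
  have h2 := index_eq_two_of_isCoatom hG hM
  rw [Subgroup.mul_mem_iff_of_index_two h2, Subgroup.mul_mem_iff_of_index_two h2,
    Subgroup.mul_mem_iff_of_index_two h2, inv_mem_iff, inv_mem_iff]
  tauto

theorem quot_frattini_mul_self (hG : IsPGroup 2 G) (q : G ⧸ frattini G) : q * q = 1 := by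
  obtain ⟨g, rfl⟩ := QuotientGroup.mk_surjective q
  rw [← QuotientGroup.mk_mul, QuotientGroup.eq_one_iff]
  exact sq_mem_frattini hG g

theorem quot_frattini_comm (hG : IsPGroup 2 G) (a b : G ⧸ frattini G) : a * b = b * a := by
  obtain ⟨g, rfl⟩ := QuotientGroup.mk_surjective a
  obtain ⟨h, rfl⟩ := QuotientGroup.mk_surjective b
  have h1 : ((g * h * g⁻¹ * h⁻¹ : G) : G ⧸ frattini G) = 1 :=
    (QuotientGroup.eq_one_iff _).2 (comm_mem_frattini hG g h)
  rw [QuotientGroup.mk_mul, QuotientGroup.mk_mul, QuotientGroup.mk_mul, QuotientGroup.mk_inv,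
    QuotientGroup.mk_inv] at h1
  have h2 : (g : G ⧸ frattini G) * h = ((g : G ⧸ frattini G) * h * (g : G ⧸ frattini G)⁻¹ *
      (h : G ⧸ frattini G)⁻¹) * ((h : G ⧸ frattini G) * g) := by group
  rw [h2, h1, one_mul]

/-- The number of linear characters of `G / Φ(G)` for a finite `2`-group. -/
theorem card_hom_quot_frattini (hG : IsPGroup 2 G) :
    Nat.card (G ⧸ frattini G →* ℂˣ) = Nat.card (G ⧸ frattini G) := by
  let _ : CommGroup (G ⧸ frattini G) :=
    { (inferInstance : Group (G ⧸ frattini G)) with mul_comm := quot_frattini_comm hG }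
  have : NeZero (Monoid.exponent (G ⧸ frattini G)) := ⟨Monoid.exponent_ne_zero_of_finite⟩
  exact CommGroup.card_monoidHom_of_hasEnoughRootsOfUnity (G ⧸ frattini G) ℂ

end FrattiniTwo

section Twist
open Cfsg
open scoped ComplexConjugate

variable {G : Type u} [Group G]

/-- Linear characters of `G / N` act on the irreducible characters of `G` by multiplication. -/
@[reducible] noncomputable def twistAction (N : Subgroup G) [N.Normal] :
    MulAction (G ⧸ N →* ℂˣ) (IrrCharacter G) where
  smul l χ := ⟨fun g => ((l (g : G ⧸ N) : ℂˣ) : ℂ) * (χ : G → ℂ) g,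
    Helper79.isIrrCharacter_twist (l.comp (QuotientGroup.mk' N)) χ.2⟩
  one_smul χ := Subtype.ext (by funext g; simp [HSMul.hSMul, SMul.smul])
  mul_smul l m χ := Subtype.ext (by funext g; simp [HSMul.hSMul, SMul.smul, mul_assoc])

theorem twistAction_apply (N : Subgroup G) [N.Normal] (l : G ⧸ N →* ℂˣ) (χ : IrrCharacter G)
    (g : G) :
    ((twistAction N).smul l χ : G → ℂ) g = ((l (g : G ⧸ N) : ℂˣ) : ℂ) * (χ : G → ℂ) g := rfl

theorem twist_indicator (N : Subgroup G) [N.Normal] [Fintype G]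
    (hsq : ∀ q : G ⧸ N, q * q = 1) (l : G ⧸ N →* ℂˣ) (χ : IrrCharacter G) :
    ∑ s : G, ((twistAction N).smul l χ : G → ℂ) (s * s) = ∑ s : G, (χ : G → ℂ) (s * s) := by
  refine Finset.sum_congr rfl fun s _ => ?_
  rw [twistAction_apply, QuotientGroup.mk_mul, hsq, map_one, Units.val_one, one_mul]

theorem twist_degree (N : Subgroup G) [N.Normal] (l : G ⧸ N →* ℂˣ) (χ : IrrCharacter G) :
    charDegree ((twistAction N).smul l χ : G → ℂ) = charDegree (χ : G → ℂ) := by
  unfold charDegree
  rw [twistAction_apply, QuotientGroup.mk_one, map_one, Units.val_one, one_mul]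

/-- The stabilizer of `χ` among the linear characters of `G / N` has order at most `χ(1)²`. -/
theorem card_stabilizer_twist_le [Fintype G] (N : Subgroup G) [N.Normal] (χ : IrrCharacter G) :
    Nat.card (@MulAction.stabilizer (G ⧸ N →* ℂˣ) (IrrCharacter G) _ (twistAction N) χ) ≤
      charDegree (χ : G → ℂ) ^ 2 := by
  classical
  let _ := twistAction N
  have : Fintype (IrrCharacter G) := Fintype.ofFinite _
  have hχ := Helper79.irr_isCharacter χ
  have hψ : IsCharacter G ((χ : G → ℂ) * fun g => conj ((χ : G → ℂ) g)) :=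
    Helper79.isCharacter_mul hχ (Helper79.isCharacter_conj hχ)
  have hnat : ∀ θ : IrrCharacter G, ∃ n : ℕ,
      classInner ((χ : G → ℂ) * fun g => conj ((χ : G → ℂ) g)) θ = (n : ℂ) :=
    fun θ => Helper3.classInner_isCharacter_nat hψ (Helper79.irr_isCharacter θ)
  choose mult hmult using hnat
  have hexp := Helper3.classFunction_eq_sum _ (Helper79.isCharacter_isClassFunction hψ)
  have h1 := congrFun hexp 1
  have hψ1 : ((χ : G → ℂ) * fun g => conj ((χ : G → ℂ) g)) 1 =
      ((charDegree (χ : G → ℂ) ^ 2 : ℕ) : ℂ) := by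
    rw [Pi.mul_apply, Helper80.irr_one_eq]
    simp [pow_two]
  have hsumnat : charDegree (χ : G → ℂ) ^ 2 =
      ∑ θ : IrrCharacter G, mult θ * charDegree (θ : G → ℂ) := by
    have h2 : ((charDegree (χ : G → ℂ) ^ 2 : ℕ) : ℂ) =
        ((∑ θ : IrrCharacter G, mult θ * charDegree (θ : G → ℂ) : ℕ) : ℂ) := by
      rw [← hψ1, h1, Finset.sum_apply, Nat.cast_sum]
      refine Finset.sum_congr rfl fun θ _ => ?_
      rw [Pi.smul_apply, smul_eq_mul, hmult, Helper80.irr_one_eq, Nat.cast_mul]
    exact_mod_cast h2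
  let lin : MulAction.stabilizer (G ⧸ N →* ℂˣ) χ → IrrCharacter G := fun l =>
    ⟨fun g => (((l : G ⧸ N →* ℂˣ) (g : G ⧸ N) : ℂˣ) : ℂ),
      Helper79.isIrrCharacter_of_hom ((l : G ⧸ N →* ℂˣ).comp (QuotientGroup.mk' N))⟩
  have hlin_inj : Function.Injective lin := by
    intro l m h
    apply Subtype.ext
    apply MonoidHom.ext
    intro q
    obtain ⟨g, rfl⟩ := QuotientGroup.mk_surjective q
    have h3 := congrFun (congrArg Subtype.val h) g
    exact Units.ext h3
  have hlin_mult : ∀ l : MulAction.stabilizer (G ⧸ N →* ℂˣ) χ, mult (lin l) = 1 := by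
    intro l
    have hl : ∀ g : G, (((l : G ⧸ N →* ℂˣ) (g : G ⧸ N) : ℂˣ) : ℂ) * (χ : G → ℂ) g =
        (χ : G → ℂ) g := by
      intro g
      have h3 := l.2
      rw [MulAction.mem_stabilizer_iff] at h3
      exact congrFun (congrArg Subtype.val h3) g
    have h4 : classInner ((χ : G → ℂ) * fun g => conj ((χ : G → ℂ) g)) (lin l) = 1 := by
      unfold classInner
      have hterm : ∀ g : G, ((χ : G → ℂ) * fun g => conj ((χ : G → ℂ) g)) g *
          conj ((lin l : G → ℂ) g) = (χ : G → ℂ) g * conj ((χ : G → ℂ) g) := by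
        intro g
        have h7 : (lin l : G → ℂ) g * (χ : G → ℂ) g = (χ : G → ℂ) g := hl g
        rw [Pi.mul_apply, mul_assoc, ← map_mul, mul_comm ((χ : G → ℂ) g) ((lin l : G → ℂ) g), h7]
      rw [Finset.sum_congr rfl fun g _ => hterm g, Helper80.irr_orthogonality_conj χ χ, if_pos rfl,
        Nat.card_eq_fintype_card]
      exact inv_mul_cancel₀ (by exact_mod_cast Fintype.card_ne_zero)
    have h5 := hmult (lin l)
    rw [h4] at h5
    exact_mod_cast h5.symm
  have hlin_deg : ∀ l : MulAction.stabilizer (G ⧸ N →* ℂˣ) χ,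
      charDegree (lin l : G → ℂ) = 1 := by
    intro l
    have h := Helper80.irr_one_eq (lin l)
    have h6 : (lin l : G → ℂ) 1 = 1 := by
      change ((((l : G ⧸ N →* ℂˣ) ((1 : G) : G ⧸ N) : ℂˣ) : ℂ)) = 1
      rw [QuotientGroup.mk_one, map_one, Units.val_one]
    rw [h6] at h
    exact_mod_cast h.symm
  have : Finite (MulAction.stabilizer (G ⧸ N →* ℂˣ) χ) :=
    Finite.of_injective lin hlin_inj
  have : Fintype (MulAction.stabilizer (G ⧸ N →* ℂˣ) χ) := Fintype.ofFinite _
  calc Nat.card (MulAction.stabilizer (G ⧸ N →* ℂˣ) χ)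
      = Fintype.card (MulAction.stabilizer (G ⧸ N →* ℂˣ) χ) := Nat.card_eq_fintype_card
    _ = ∑ l : MulAction.stabilizer (G ⧸ N →* ℂˣ) χ,
          mult (lin l) * charDegree (lin l : G → ℂ) := by simp [hlin_mult, hlin_deg]
    _ = ∑ θ ∈ Finset.univ.image lin, mult θ * charDegree (θ : G → ℂ) :=
        (Finset.sum_image (f := fun θ : IrrCharacter G => mult θ * charDegree (θ : G → ℂ))
          (fun a _ b _ h => hlin_inj h)).symm
    _ ≤ ∑ θ : IrrCharacter G, mult θ * charDegree (θ : G → ℂ) :=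
        Finset.sum_le_sum_of_subset (Finset.subset_univ _)
    _ = charDegree (χ : G → ℂ) ^ 2 := hsumnat.symm

end Twist

section Main
open Cfsg
open scoped ComplexConjugate

/-- In a finite `2`-group with `|G / Φ(G)| ≥ 2 ^ (2k+1)`, the number of solutions of `x ^ 2 = 1`
is divisible by `2 ^ (k+1)`. -/
theorem two_pow_dvd_card_sq_eq_one {G : Type u} [Group G] [Finite G] (hG : IsPGroup 2 G) (k : ℕ)
    (hgen : 2 ^ (2 * k + 1) ≤ Nat.card (G ⧸ frattini G)) :
    2 ^ (k + 1) ∣ Nat.card {x : G // x ^ 2 = 1} := by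
  classical
  have : Fintype G := Fintype.ofFinite G
  have : Fintype (IrrCharacter G) := Fintype.ofFinite _
  have : Fact (Nat.Prime 2) := ⟨Nat.prime_two⟩
  let act : MulAction (G ⧸ frattini G →* ℂˣ) (IrrCharacter G) := twistAction (frattini G)
  obtain ⟨d, hd⟩ := IsPGroup.iff_card.1 (hG.to_quotient (frattini G))
  have hΛ : Nat.card (G ⧸ frattini G →* ℂˣ) = 2 ^ d := (card_hom_quot_frattini hG).trans hd
  have hΛfin : Finite (G ⧸ frattini G →* ℂˣ) :=
    Nat.finite_of_card_ne_zero (by rw [hΛ]; positivity)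
  have hdk : 2 * k + 1 ≤ d := by
    rw [hd] at hgen; exact (Nat.pow_le_pow_iff_right (by norm_num)).1 hgen
  obtain ⟨n, hn⟩ := IsPGroup.iff_card.1 hG
  have hsq := quot_frattini_mul_self hG
  -- the Frobenius--Schur indicators
  have hν : ∀ χ : IrrCharacter G,
      (Nat.card G : ℂ)⁻¹ * ∑ s : G, (χ : G → ℂ) (s * s) = 0 ∨
      (Nat.card G : ℂ)⁻¹ * ∑ s : G, (χ : G → ℂ) (s * s) = 1 ∨
      (Nat.card G : ℂ)⁻¹ * ∑ s : G, (χ : G → ℂ) (s * s) = -1 :=
    fun χ => (Helper79.irr_frobenius_schur χ.2).1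
  let e : IrrCharacter G → ℤ := fun χ =>
    if (Nat.card G : ℂ)⁻¹ * ∑ s : G, (χ : G → ℂ) (s * s) = 1 then 1
    else if (Nat.card G : ℂ)⁻¹ * ∑ s : G, (χ : G → ℂ) (s * s) = -1 then -1 else 0
  have he : ∀ χ : IrrCharacter G,
      conj ((Nat.card G : ℂ)⁻¹ * ∑ s : G, (χ : G → ℂ) (s * s)) = (e χ : ℂ) := by
    intro χ
    rcases hν χ with h | h | h
    · have h1 : e χ = 0 := by
        simp only [e]
        rw [if_neg (by rw [h]; norm_num), if_neg (by rw [h]; norm_num)]
      rw [h, h1]; simp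
    · have h1 : e χ = 1 := by
        simp only [e]
        rw [if_pos h]
      rw [h, h1]; simp
    · have h1 : e χ = -1 := by
        simp only [e]
        rw [if_neg (by rw [h]; norm_num), if_pos h]
      rw [h, h1]; simp
  let F : IrrCharacter G → ℤ := fun χ => e χ * (charDegree (χ : G → ℂ) : ℤ)
  have hcount : ((Nat.card {x : G // x ^ 2 = 1} : ℕ) : ℤ) = ∑ χ : IrrCharacter G, F χ := by
    have h := Helper80.sum_indicator_mul (G := G) 1
    have h2 : (((Finset.univ.filter (fun u : G => u * u = 1)).card : ℕ) : ℂ) =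
        ((∑ χ : IrrCharacter G, F χ : ℤ) : ℂ) := by
      rw [← h, Int.cast_sum]
      refine Finset.sum_congr rfl fun χ _ => ?_
      have h3 := he χ
      rw [Nat.card_eq_fintype_card] at h3
      rw [h3, Helper80.irr_one_eq]
      simp [F]
    have h3 : Nat.card {x : G // x ^ 2 = 1} =
        (Finset.univ.filter (fun u : G => u * u = 1)).card := by
      rw [Nat.card_eq_fintype_card, Fintype.card_subtype]
      congr 1
      ext u
      simp [pow_two]
    rw [h3]
    exact_mod_cast h2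
  have hFinv : ∀ (l : G ⧸ frattini G →* ℂˣ) (χ : IrrCharacter G), F (l • χ) = F χ := by
    intro l χ
    have h1 : ∑ s : G, ((l • χ : IrrCharacter G) : G → ℂ) (s * s) =
        ∑ s : G, (χ : G → ℂ) (s * s) := twist_indicator (frattini G) hsq l χ
    have h2 : charDegree ((l • χ : IrrCharacter G) : G → ℂ) = charDegree (χ : G → ℂ) :=
      twist_degree (frattini G) l χ
    simp only [F, e, h1, h2]
  have hdvd : ((2 : ℤ) ^ (k + 1)) ∣ ∑ χ : IrrCharacter G, F χ := by
    have : Fintype (MulAction.orbitRel.Quotient (G ⧸ frattini G →* ℂˣ) (IrrCharacter G)) :=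
      Fintype.ofFinite _
    rw [← Finset.sum_fiberwise (Finset.univ) (fun χ : IrrCharacter G =>
      (Quotient.mk'' χ : MulAction.orbitRel.Quotient (G ⧸ frattini G →* ℂˣ) (IrrCharacter G))) F]
    refine Finset.dvd_sum fun ω _ => ?_
    induction ω using Quotient.inductionOn' with
    | h χ₀ =>
      have hconst : ∀ χ ∈ Finset.univ.filter (fun χ : IrrCharacter G =>
          (Quotient.mk'' χ : MulAction.orbitRel.Quotient (G ⧸ frattini G →* ℂˣ)
            (IrrCharacter G)) = Quotient.mk'' χ₀), F χ = F χ₀ := by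
        intro χ hχ
        rw [Finset.mem_filter] at hχ
        have h1 : χ ∈ MulAction.orbit (G ⧸ frattini G →* ℂˣ) χ₀ :=
          MulAction.orbitRel_apply.1 (Quotient.eq''.1 hχ.2)
        obtain ⟨l, rfl⟩ := h1
        exact hFinv l χ₀
      rw [Finset.sum_congr rfl hconst, Finset.sum_const, nsmul_eq_mul]
      have hcard : (Finset.univ.filter (fun χ : IrrCharacter G =>
          (Quotient.mk'' χ : MulAction.orbitRel.Quotient (G ⧸ frattini G →* ℂˣ)
            (IrrCharacter G)) = Quotient.mk'' χ₀)).card =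
          (MulAction.stabilizer (G ⧸ frattini G →* ℂˣ) χ₀).index := by
        rw [MulAction.index_stabilizer, ← Nat.card_coe_set_eq, Nat.card_eq_fintype_card,
          Fintype.card_subtype]
        congr 1
        ext χ
        simp only [Finset.mem_filter, Finset.mem_univ, true_and]
        exact Quotient.eq''
      rw [hcard]
      -- arithmetic of 2-powers
      have hS := card_stabilizer_twist_le (frattini G) χ₀
      have hmul := Subgroup.card_mul_index (MulAction.stabilizer (G ⧸ frattini G →* ℂˣ) χ₀)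
      rw [hΛ] at hmul
      obtain ⟨s, hsd, hs⟩ := (Nat.dvd_prime_pow Nat.prime_two).1 (Dvd.intro _ hmul)
      have hidx : (MulAction.stabilizer (G ⧸ frattini G →* ℂˣ) χ₀).index = 2 ^ (d - s) := by
        rw [hs] at hmul
        have h1 : (2 : ℕ) ^ s * 2 ^ (d - s) = 2 ^ d := by
          rw [← pow_add, Nat.add_sub_cancel' hsd]
        exact Nat.eq_of_mul_eq_mul_left (pow_pos (by norm_num) s) (hmul.trans h1.symm)
      have hdeg : charDegree (χ₀ : G → ℂ) ∣ 2 ^ n := hn ▸ Helper79.irr_charDegree_dvd_card χ₀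
      obtain ⟨a, -, ha⟩ := (Nat.dvd_prime_pow Nat.prime_two).1 hdeg
      rw [hs, ha, ← pow_mul] at hS
      have hs2a : s ≤ a * 2 := (Nat.pow_le_pow_iff_right (by norm_num)).1 hS
      rw [hidx]
      simp only [F, ha]
      have h1 : (((2 ^ (d - s) : ℕ) : ℤ)) * (e χ₀ * ((2 ^ a : ℕ) : ℤ)) =
          e χ₀ * (2 : ℤ) ^ (d - s + a) := by
        push_cast; ring
      rw [h1]
      exact Dvd.dvd.mul_left (pow_dvd_pow 2 (by omega)) _
  have h4 : ((2 ^ (k + 1) : ℕ) : ℤ) ∣ ((Nat.card {x : G // x ^ 2 = 1} : ℕ) : ℤ) := by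
    rw [hcount]; exact_mod_cast hdvd
  exact Int.natCast_dvd_natCast.1 h4

end Main

end Cfsg.Agent.Helper29
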