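import Mathlib
import Cfsg.Agent.Helper32.JorDefs

/-!
# CALL S3620, piece BR0 (seat helper29): unpacking the Jordan-set hypothesis.
-/

set_option autoImplicit false

namespace Cfsg.Agent.Helper29.JorBR0

open Equiv Cfsg.Agent.Helper32.Jor

theorem jordan_elementary {G Ω : Type*} [Group G] [MulAction G Ω] (Γ : Set Ω)
    (hJ : MulAction.IsPretransitive ↥(fixingSubgroup G Γᶜ)
      ↥(SubMulAction.ofFixingSubgroup G Γᶜ)) :
    ∀ a ∈ Γ, ∀ b ∈ Γ, ∃ g : G, g • a = b ∧ ∀ x, x ∉ Γ → g • x = x := by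
  intro a ha b hb
  have ham : a ∈ SubMulAction.ofFixingSubgroup G Γᶜ := by
    rw [SubMulAction.mem_ofFixingSubgroup_iff]; simpa using ha
  have hbm : b ∈ SubMulAction.ofFixingSubgroup G Γᶜ := by
    rw [SubMulAction.mem_ofFixingSubgroup_iff]; simpa using hb
  obtain ⟨h, hh⟩ := hJ.exists_smul_eq
    (⟨a, ham⟩ : SubMulAction.ofFixingSubgroup G Γᶜ) ⟨b, hbm⟩
  refine ⟨(h : G), congrArg Subtype.val hh, ?_⟩
  intro z hz
  exact (mem_fixingSubgroup_iff G).mp h.2 z (by simpa using hz)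

end Cfsg.Agent.Helper29.JorBR0
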