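import Mathlib
import Cfsg.Agent.Helper32.JorDefs

/-!
# CALL S3620, piece BR2 (seat helper29): transfer from subgroups of `Perm X` to a group action.
-/

set_option autoImplicit false

namespace Cfsg.Agent.Helper29.JorBR2

open Equiv Cfsg.Agent.Helper32.Jor

theorem exists_toPerm_eq_of_isPreprimitive {G X : Type*} [Group G] [MulAction G X] [Fintype X]
    [DecidableEq X]
    (hmain : ∀ P : Subgroup (Perm X), MulAction.IsPreprimitive P X → ∀ Δ : Finset X,
      IsJ P Δ → 2 ≤ Δ.card → 2 * Δ.card < Fintype.card X → alternatingGroup X ≤ P)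
    (hprim : MulAction.IsPreprimitive G X) (Γ : Finset X)
    (hJ : ∀ a ∈ Γ, ∀ b ∈ Γ, ∃ g : G, g • a = b ∧ ∀ x, x ∉ Γ → g • x = x)
    (h2 : 2 ≤ Γ.card) (hn : 2 * Γ.card < Fintype.card X) :
    ∀ σ : Perm X, Perm.sign σ = 1 → ∃ g : G, MulAction.toPerm g = σ := by
  have hP : MulAction.IsPreprimitive ↥(MulAction.toPermHom G X).range X := by
    let φ : G → ↥(MulAction.toPermHom G X).range := (MulAction.toPermHom G X).rangeRestrict
    let f : X →ₑ[φ] X := ⟨id, fun g x => rfl⟩
    exact MulAction.IsPreprimitive.of_surjective (f := f) Function.surjective_id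
  have hJP : IsJ (MulAction.toPermHom G X).range Γ := by
    intro a ha b hb
    obtain ⟨g, hg, hfix⟩ := hJ a ha b hb
    exact ⟨MulAction.toPermHom G X g, ⟨g, rfl⟩, hg, hfix⟩
  have hle := hmain _ hP Γ hJP h2 hn
  intro σ hσ
  obtain ⟨g, hg⟩ := hle (Equiv.Perm.mem_alternatingGroup.2 hσ)
  exact ⟨g, hg⟩

end Cfsg.Agent.Helper29.JorBR2
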