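import Mathlib
import Cfsg.Agent.Helper32.JorDefs

/-!
# CALL S3620, piece Fa (seat helper29): the blocks through a point outside a closed set `S` and
a `(t-2)`-subset of `S`.
-/

set_option autoImplicit false

namespace Cfsg.Agent.Helper29.JorFa

open Equiv Cfsg.Agent.Helper32.Jor

variable {Ω : Type*} [Fintype Ω] [DecidableEq Ω]

theorem design_a_bound (t k : ℕ) (ht : 2 ≤ t) (hk : t + 1 ≤ k) (Γ : Finset Ω → Finset Ω)
    (h1 : ∀ X : Finset Ω, X.card = t → X ⊆ Γ X ∧ (Γ X).card = k)
    (h2 : ∀ X X' : Finset Ω, X.card = t → X'.card = t → X' ⊆ Γ X → Γ X' = Γ X)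
    (S : Finset Ω) (hS : ∀ X : Finset Ω, X.card = t → X ⊆ S → Γ X ⊆ S)
    (hSt : t ≤ S.card) (hSne : S ≠ Finset.univ) :
    (S.card + 2 - t) * (k - t) + 1 ≤ Sᶜ.card := by
  classical
  obtain ⟨p, hp⟩ : ∃ p, p ∉ S := by
    by_contra h
    push_neg at h
    exact hSne (Finset.eq_univ_iff_forall.2 h)
  obtain ⟨W, hWS, hWc⟩ := Finset.exists_subset_card_eq (show t - 2 ≤ S.card by omega)
  have hpW : p ∉ W := fun h => hp (hWS h)
  have hXcard : ∀ σ, σ ∈ S → σ ∉ W → (insert p (insert σ W)).card = t := by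
    intro σ hσS hσW
    rw [Finset.card_insert_of_notMem, Finset.card_insert_of_notMem hσW, hWc]
    · omega
    · intro h
      rcases Finset.mem_insert.1 h with h | h
      · exact hp (h ▸ hσS)
      · exact hpW h
  -- a block through `p` meets `S` in `insert σ W` only
  have hcl1 : ∀ σ, σ ∈ S → σ ∉ W → ∀ y, y ∈ Γ (insert p (insert σ W)) → y ∈ S →
      y ∈ insert σ W := by
    intro σ hσS hσW y hyB hyS
    by_contra hy
    have hX'card : (insert y (insert σ W)).card = t := by
      rw [Finset.card_insert_of_notMem hy, Finset.card_insert_of_notMem hσW, hWc]; omega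
    have hX'sub : insert y (insert σ W) ⊆ Γ (insert p (insert σ W)) := by
      intro z hz
      rcases Finset.mem_insert.1 hz with h | h
      · rw [h]; exact hyB
      · exact (h1 _ (hXcard σ hσS hσW)).1 (Finset.mem_insert_of_mem h)
    have hX'S : insert y (insert σ W) ⊆ S := by
      intro z hz
      rcases Finset.mem_insert.1 hz with h | h
      · rw [h]; exact hyS
      · rcases Finset.mem_insert.1 h with h | h
        · rw [h]; exact hσS
        · exact hWS h
    have e1 := h2 _ _ (hXcard σ hσS hσW) hX'card hX'sub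
    have e2 := hS _ hX'card hX'S
    rw [e1] at e2
    exact hp (e2 ((h1 _ (hXcard σ hσS hσW)).1 (Finset.mem_insert_self _ _)))
  -- two different blocks through `p` and `W` meet in `insert p W` only
  have hcl2 : ∀ σ σ', σ ∈ S → σ ∉ W → σ' ∈ S → σ' ∉ W → σ ≠ σ' →
      ∀ y, y ∈ Γ (insert p (insert σ W)) → y ∈ Γ (insert p (insert σ' W)) → y ∈ insert p W := by
    intro σ σ' hσS hσW hσ'S hσ'W hne y hy hy'
    by_contra hyn
    have hX''card : (insert y (insert p W)).card = t := by
      rw [Finset.card_insert_of_notMem hyn, Finset.card_insert_of_notMem hpW, hWc]; omega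
    have hsub : ∀ τ, τ ∈ S → τ ∉ W → y ∈ Γ (insert p (insert τ W)) →
        insert y (insert p W) ⊆ Γ (insert p (insert τ W)) := by
      intro τ hτS hτW hyτ z hz
      rcases Finset.mem_insert.1 hz with h | h
      · rw [h]; exact hyτ
      · apply (h1 _ (hXcard τ hτS hτW)).1
        rcases Finset.mem_insert.1 h with h | h
        · rw [h]; exact Finset.mem_insert_self _ _
        · exact Finset.mem_insert_of_mem (Finset.mem_insert_of_mem h)
    have e1 := h2 _ _ (hXcard σ hσS hσW) hX''card (hsub σ hσS hσW hy)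
    have e2 := h2 _ _ (hXcard σ' hσ'S hσ'W) hX''card (hsub σ' hσ'S hσ'W hy')
    have e3 : Γ (insert p (insert σ W)) = Γ (insert p (insert σ' W)) := by rw [← e1, e2]
    have hσ'B : σ' ∈ Γ (insert p (insert σ W)) := by
      rw [e3]
      exact (h1 _ (hXcard σ' hσ'S hσ'W)).1
        (Finset.mem_insert_of_mem (Finset.mem_insert_self _ _))
    rcases Finset.mem_insert.1 (hcl1 σ hσS hσW σ' hσ'B hσ'S) with h | h
    · exact hne h.symm
    · exact hσ'W h
  -- the disjoint family
  obtain ⟨D, hD⟩ : ∃ D : Ω → Finset Ω,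
      ∀ σ, D σ = Γ (insert p (insert σ W)) \ insert p (insert σ W) := ⟨_, fun _ => rfl⟩
  have hDcard : ∀ σ ∈ S \ W, (D σ).card = k - t := by
    intro σ hσ
    rw [Finset.mem_sdiff] at hσ
    rw [hD, Finset.card_sdiff_of_subset (h1 _ (hXcard σ hσ.1 hσ.2)).1,
      (h1 _ (hXcard σ hσ.1 hσ.2)).2, hXcard σ hσ.1 hσ.2]
  have hDdisj : ∀ σ ∈ S \ W, ∀ σ' ∈ S \ W, σ ≠ σ' → Disjoint (D σ) (D σ') := by
    intro σ hσ σ' hσ' hne
    rw [Finset.mem_sdiff] at hσ hσ'
    rw [Finset.disjoint_left]
    intro y hy hy'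
    rw [hD] at hy hy'
    have hy1 := Finset.mem_sdiff.1 hy
    have hy2 := Finset.mem_sdiff.1 hy'
    have h3 := hcl2 σ σ' hσ.1 hσ.2 hσ'.1 hσ'.2 hne y hy1.1 hy2.1
    apply hy1.2
    rcases Finset.mem_insert.1 h3 with h | h
    · rw [h]; exact Finset.mem_insert_self _ _
    · exact Finset.mem_insert_of_mem (Finset.mem_insert_of_mem h)
  have hDsub : (S \ W).biUnion D ⊆ Sᶜ.erase p := by
    intro y hy
    rw [Finset.mem_biUnion] at hy
    obtain ⟨σ, hσ, hyD⟩ := hy
    rw [Finset.mem_sdiff] at hσ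
    rw [hD] at hyD
    have hy1 := Finset.mem_sdiff.1 hyD
    rw [Finset.mem_erase, Finset.mem_compl]
    constructor
    · intro hyp
      apply hy1.2
      rw [hyp]; exact Finset.mem_insert_self _ _
    · intro hyS
      exact hy1.2 (Finset.mem_insert_of_mem (hcl1 σ hσ.1 hσ.2 y hy1.1 hyS))
  have hcount := Finset.card_le_card hDsub
  rw [Finset.card_biUnion hDdisj, Finset.sum_congr rfl hDcard, Finset.sum_const, smul_eq_mul,
    Finset.card_sdiff_of_subset hWS, hWc,
    Finset.card_erase_of_mem (Finset.mem_compl.2 hp)] at hcount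
  have hpos : 0 < Sᶜ.card := Finset.card_pos.2 ⟨p, Finset.mem_compl.2 hp⟩
  have he : S.card - (t - 2) = S.card + 2 - t := by omega
  rw [he] at hcount
  omega

end Cfsg.Agent.Helper29.JorFa
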