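import Mathlib
import Cfsg.Agent.Helper32.JorDefs

/-!
# CALL S3620, piece Fe (seat helper29): from binomial coefficients to falling factorials.
-/

set_option autoImplicit false

namespace Cfsg.Agent.Helper29.JorFe

open Equiv Cfsg.Agent.Helper32.Jor

theorem desc_of_choose (s d t : ℕ) (E F : ℕ → ℕ) (h0 : E (t - 1) = 0) (hE0 : E 0 ≤ d.choose t)
    (hrec : ∀ i, 1 ≤ i → i ≤ t →
      E i + F i = s.choose i * d.choose (t - i) ∧ i * F i = (t - i + 1) * E (i - 1)) :
    ∃ x : ℕ → ℕ, x (t - 1) = 0 ∧ x 0 ≤ d.descFactorial t ∧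
      ∀ i, 1 ≤ i → i ≤ t →
        x i + x (i - 1) = s.descFactorial i * d.descFactorial (t - i) := by
  refine ⟨fun i => i.factorial * (t - i).factorial * E i, ?_, ?_, ?_⟩
  · show (t - 1).factorial * (t - (t - 1)).factorial * E (t - 1) = 0
    rw [h0, mul_zero]
  · show (0 : ℕ).factorial * (t - 0).factorial * E 0 ≤ d.descFactorial t
    rw [Nat.factorial_zero, one_mul, Nat.sub_zero, Nat.descFactorial_eq_factorial_mul_choose]
    exact Nat.mul_le_mul_left _ hE0
  · intro i hi1 hit
    obtain ⟨e1, e2⟩ := hrec i hi1 hit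
    show i.factorial * (t - i).factorial * E i +
      (i - 1).factorial * (t - (i - 1)).factorial * E (i - 1) =
      s.descFactorial i * d.descFactorial (t - i)
    obtain ⟨j, hj⟩ : ∃ j, i = j + 1 := ⟨i - 1, by omega⟩
    obtain ⟨m, hm⟩ : ∃ m, t - i = m := ⟨_, rfl⟩
    have h3 : t - (i - 1) = m + 1 := by omega
    have h4 : i - 1 = j := by omega
    rw [h3, h4, hm, Nat.descFactorial_eq_factorial_mul_choose,
      Nat.descFactorial_eq_factorial_mul_choose]
    rw [hm, h4] at e2
    rw [hm] at e1
    rw [hj] at e1 e2 ⊢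
    rw [Nat.factorial_succ j, Nat.factorial_succ m]
    have h5 : j.factorial * ((m + 1) * m.factorial) * E j =
        j.factorial * m.factorial * ((j + 1) * F (j + 1)) := by
      rw [e2]; ring
    rw [h5]
    have h6 : (j + 1) * j.factorial * m.factorial * E (j + 1) +
        j.factorial * m.factorial * ((j + 1) * F (j + 1)) =
        (j + 1) * j.factorial * m.factorial * (E (j + 1) + F (j + 1)) := by ring
    rw [h6, e1]; ring

end Cfsg.Agent.Helper29.JorFe
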