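import Mathlib
import Cfsg.Agent.Helper32.JorDefs

/-!
# CALL S3620, piece H6 (seat helper29): all fibres of an equivariant map onto a transitive
`G`-set have the same size.
-/

set_option autoImplicit false

namespace Cfsg.Agent.Helper29.JorH6

open Equiv Cfsg.Agent.Helper32.Jor

theorem card_fiber {G Ω X : Type*} [Group G] [MulAction G Ω] [Fintype Ω] [DecidableEq Ω]
    [MulAction G X] [Fintype X] [DecidableEq X] [MulAction.IsPretransitive G X]
    (π : Ω → X) (hπ : ∀ (g : G) (ω : Ω), π (g • ω) = g • π ω) :
    ∃ b : ℕ, ∀ S' : Finset X, (Finset.univ.filter (fun ω => π ω ∈ S')).card = b * S'.card := by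
  by_cases hX : IsEmpty X
  · refine ⟨0, fun S' => ?_⟩
    have hS' : S' = ∅ := Finset.eq_empty_of_forall_notMem (fun x => (hX.false x).elim)
    rw [hS']
    simp
  · rw [not_isEmpty_iff] at hX
    obtain ⟨x₀⟩ := hX
    have hfib : ∀ x : X, (Finset.univ.filter (fun ω => π ω = x)).card =
        (Finset.univ.filter (fun ω => π ω = x₀)).card := by
      intro x
      obtain ⟨g, hg⟩ := MulAction.exists_smul_eq G x₀ x
      symm
      apply Finset.card_bij (fun ω _ => g • ω)
      · intro ω hω
        rw [Finset.mem_filter] at hω ⊢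
        exact ⟨Finset.mem_univ _, by rw [hπ, hω.2, hg]⟩
      · intro ω₁ _ ω₂ _ h
        exact MulAction.injective g h
      · intro ω hω
        rw [Finset.mem_filter] at hω
        refine ⟨g⁻¹ • ω, ?_, smul_inv_smul g ω⟩
        rw [Finset.mem_filter]
        refine ⟨Finset.mem_univ _, ?_⟩
        rw [hπ, hω.2, ← hg, inv_smul_smul]
    refine ⟨(Finset.univ.filter (fun ω => π ω = x₀)).card, fun S' => ?_⟩
    rw [Finset.card_eq_sum_card_fiberwise (s := Finset.univ.filter (fun ω => π ω ∈ S'))
      (f := π) (t := S') (fun ω hω => (Finset.mem_filter.1 hω).2)]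
    have hterm : ∀ x ∈ S', ((Finset.univ.filter (fun ω => π ω ∈ S')).filter
        (fun ω => π ω = x)).card = (Finset.univ.filter (fun ω => π ω = x₀)).card := by
      intro x hx
      rw [← hfib x]
      congr 1
      ext ω
      simp only [Finset.mem_filter, Finset.mem_univ, true_and]
      constructor
      · exact fun h => h.2
      · exact fun h => ⟨h ▸ hx, h⟩
    rw [Finset.sum_congr rfl hterm, Finset.sum_const, smul_eq_mul, mul_comm]

end Cfsg.Agent.Helper29.JorH6
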