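import Mathlib
import Cfsg.Agent.Helper32.JorDefs

/-!
# CALL S3620, piece NB1 (seat helper29): a Jordan set which is a block of the stabiliser of `α`
satisfies the hypothesis `hstar` of `lemmaZ`.
-/

set_option autoImplicit false

namespace Cfsg.Agent.Helper29.JorNB1

open Equiv Cfsg.Agent.Helper32.Jor

variable {Ω : Type*} [Fintype Ω] [DecidableEq Ω]

theorem block_hstar (G : Subgroup (Perm Ω)) (T : Finset Ω) (h2 : Rel2 G T) (α : Ω)
    (hαT : α ∉ T) (M' : Finset Ω) (hM' : IsJ G M') (hM'T : Disjoint M' T) (hαM' : α ∉ M')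
    (hblk : ∀ g ∈ G, (∀ x ∈ T, g x = x) → g α = α → ¬ Disjoint (mv g M') M' → mv g M' = M') :
    ∀ k ∈ G, (∀ x ∈ T, k x = x) → α ∉ mv k M' → ¬ Disjoint (mv k M') M' → mv k M' = M' := by
  intro k hk hkT hαk hmeet
  by_contra hne
  obtain ⟨μ₀, hμk, hμM⟩ := Finset.not_disjoint_iff.1 hmeet
  have hnsub : ¬ mv k M' ⊆ M' := by
    intro hsub
    exact hne (Finset.eq_of_subset_of_card_le hsub (by rw [card_mv]))
  obtain ⟨ζ, hζk, hζM⟩ := Finset.not_subset.1 hnsub
  have hkMT : Disjoint (mv k M') T := by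
    have h1 : Disjoint (mv k M') (mv k T) := disjoint_mv.2 hM'T
    rwa [mv_eq_self_of_fix hkT] at h1
  have hJ : IsJ G (M' ∪ mv k M') := IsJ.union hM' (IsJ.mv hM' hk) (fun h => hmeet h.symm)
  have hμT : μ₀ ∉ T := fun h => (Finset.disjoint_left.1 hM'T) hμM h
  have hζT : ζ ∉ T := fun h => (Finset.disjoint_left.1 hkMT) hζk h
  have hαμ : α ≠ μ₀ := fun h => hαM' (h ▸ hμM)
  have hαζ : α ≠ ζ := fun h => hαk (h ▸ hζk)
  obtain ⟨k', hk', hk'T, hk'α, hk'μ⟩ := h2 α μ₀ α ζ hαT hμT hαT hζT hαμ hαζ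
  have hζY : ζ ∈ mv k' M' := by rw [← hk'μ]; exact apply_mem_mv.2 hμM
  have hYdisj : Disjoint (mv k' M') M' := by
    by_contra h
    have h3 := hblk k' hk' hk'T hk'α h
    rw [h3] at hζY
    exact hζM hζY
  -- the block property, conjugated by `k'`
  have hblkY : ∀ d ∈ G, (∀ x ∈ T, d x = x) → d α = α →
      ¬ Disjoint (mv d (mv k' M')) (mv k' M') → mv d (mv k' M') = mv k' M' := by
    intro d hd hdT hdα hdm
    have hg : k'⁻¹ * d * k' ∈ G := G.mul_mem (G.mul_mem (G.inv_mem hk') hd) hk'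
    have hk'invT : ∀ x ∈ T, k'⁻¹ x = x := by
      intro x hx
      have h3 := hk'T x hx
      calc k'⁻¹ x = k'⁻¹ (k' x) := by rw [h3]
        _ = x := by simp
    have hgT : ∀ x ∈ T, (k'⁻¹ * d * k') x = x := by
      intro x hx
      simp only [Perm.mul_apply]
      rw [hk'T x hx, hdT x hx, hk'invT x hx]
    have hgα : (k'⁻¹ * d * k') α = α := by
      simp only [Perm.mul_apply]
      rw [hk'α, hdα]
      calc k'⁻¹ α = k'⁻¹ (k' α) := by rw [hk'α]
        _ = α := by simp
    have hmv : mv (k'⁻¹ * d * k') M' = mv k'⁻¹ (mv d (mv k' M')) := by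
      rw [mv_mul, mv_mul]
    have hnd : ¬ Disjoint (mv (k'⁻¹ * d * k') M') M' := by
      rw [hmv]
      intro hdis
      apply hdm
      have h3 : Disjoint (mv k' (mv k'⁻¹ (mv d (mv k' M')))) (mv k' M') := disjoint_mv.2 hdis
      rwa [mv_mv_inv] at h3
    have h4 := hblk _ hg hgT hgα hnd
    rw [hmv] at h4
    have h5 := congrArg (mv k') h4
    rwa [mv_mv_inv] at h5
  -- `mv k' M'` lies in the union
  have hYJ : mv k' M' ⊆ M' ∪ mv k M' := by
    by_contra hns
    obtain ⟨ξ', hξY, hξJ⟩ := Finset.not_subset.1 hns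
    have hJY : M' ∪ mv k M' ⊆ mv k' M' := by
      intro j hj
      obtain ⟨d, hd, hdζ, hdfix⟩ := hJ ζ (Finset.mem_union_right _ hζk) j hj
      have hdT : ∀ x ∈ T, d x = x := by
        intro x hx
        apply hdfix
        intro hxJ
        rcases Finset.mem_union.1 hxJ with h | h
        · exact (Finset.disjoint_left.1 hM'T) h hx
        · exact (Finset.disjoint_left.1 hkMT) h hx
      have hdα : d α = α := by
        apply hdfix
        intro hxJ
        rcases Finset.mem_union.1 hxJ with h | h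
        · exact hαM' h
        · exact hαk h
      have hdξ : d ξ' = ξ' := hdfix ξ' hξJ
      have hnd : ¬ Disjoint (mv d (mv k' M')) (mv k' M') := by
        rw [Finset.not_disjoint_iff]
        refine ⟨ξ', ?_, hξY⟩
        rw [← hdξ]
        exact apply_mem_mv.2 hξY
      have hfix := hblkY d hd hdT hdα hnd
      rw [← hdζ, ← hfix]
      exact apply_mem_mv.2 hζY
    exact (Finset.disjoint_left.1 hYdisj) (hJY (Finset.mem_union_left _ hμM)) hμM
  -- cardinalities
  have hsub2 : mv k' M' ⊆ (mv k M').erase μ₀ := by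
    intro y hy
    rw [Finset.mem_erase]
    constructor
    · intro hyμ
      rw [hyμ] at hy
      exact (Finset.disjoint_left.1 hYdisj) hy hμM
    · rcases Finset.mem_union.1 (hYJ hy) with h | h
      · exact absurd h ((Finset.disjoint_left.1 hYdisj) hy)
      · exact h
  have hc := Finset.card_le_card hsub2
  rw [Finset.card_erase_of_mem hμk, card_mv, card_mv] at hc
  have hpos : 0 < M'.card := Finset.card_pos.2 ⟨μ₀, hμM⟩
  omega

end Cfsg.Agent.Helper29.JorNB1
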