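import Mathlib
import Cfsg.Agent.Helper32.JorDefs

/-!
# CALL S3620, piece S3 (seat helper29): if the maximal Jordan set `M` has at least half of the
points then the rest is a block of the stabiliser of `α`.
-/

set_option autoImplicit false

namespace Cfsg.Agent.Helper29.JorS3

open Equiv Cfsg.Agent.Helper32.Jor

variable {Ω : Type*} [Fintype Ω] [DecidableEq Ω]

theorem step3 (G : Subgroup (Perm Ω)) (T : Finset Ω) (α : Ω) (hαT : α ∉ T)
    (M : Finset Ω) (hM : IsJ G M) (hMT : Disjoint M T) (hαM : α ∉ M)
    (hmax : ∀ J' : Finset Ω, IsJ G J' → M ⊆ J' → Disjoint J' T → α ∉ J' →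
      J' = M ∨ J' = (insert α T)ᶜ)
    (hbig : Fintype.card Ω ≤ 2 * M.card + T.card)
    (g : Perm Ω) (hg : g ∈ G) (hgT : ∀ x ∈ T, g x = x) (hgα : g α = α) :
    mv g (M ∪ insert α T)ᶜ = (M ∪ insert α T)ᶜ ∨
      Disjoint (mv g (M ∪ insert α T)ᶜ) (M ∪ insert α T)ᶜ := by
  have hA : mv g (insert α T) = insert α T := by
    apply mv_eq_self_of_fix
    intro x hx
    rcases Finset.mem_insert.1 hx with h | h
    · rw [h]; exact hgα
    · exact hgT x h
  have hMA : Disjoint M (insert α T) := by
    rw [Finset.disjoint_insert_right]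
    exact ⟨hαM, hMT⟩
  have hgMA : Disjoint (mv g M) (insert α T) := by
    have h1 : Disjoint (mv g M) (mv g (insert α T)) := disjoint_mv.2 hMA
    rwa [hA] at h1
  have hmvR : mv g (M ∪ insert α T)ᶜ = (mv g M ∪ insert α T)ᶜ := by
    rw [mv_compl, mv_union, hA]
  have hmeet : ¬ Disjoint M (mv g M) := by
    intro hdis
    have h1 : (M ∪ mv g M).card = M.card + (mv g M).card := Finset.card_union_of_disjoint hdis
    rw [card_mv] at h1
    have h2 : M ∪ mv g M ⊆ (insert α T)ᶜ := by
      intro x hx
      rw [Finset.mem_compl]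
      rcases Finset.mem_union.1 hx with h | h
      · exact fun hxA => (Finset.disjoint_left.1 hMA) h hxA
      · exact fun hxA => (Finset.disjoint_left.1 hgMA) h hxA
    have h3 := Finset.card_le_card h2
    rw [Finset.card_compl, Finset.card_insert_of_notMem hαT, h1] at h3
    have h4 : T.card + 1 ≤ Fintype.card Ω := by
      have h5 := Finset.card_le_univ (insert α T)
      rwa [Finset.card_insert_of_notMem hαT] at h5
    omega
  have hJ : IsJ G (M ∪ mv g M) := IsJ.union hM (IsJ.mv hM hg) hmeet
  have hJT : Disjoint (M ∪ mv g M) T := by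
    rw [Finset.disjoint_union_left]
    exact ⟨hMT, Finset.disjoint_of_subset_right (Finset.subset_insert α T) hgMA⟩
  have hαJ : α ∉ M ∪ mv g M := by
    intro h
    rcases Finset.mem_union.1 h with h | h
    · exact hαM h
    · exact (Finset.disjoint_left.1 hgMA) h (Finset.mem_insert_self α T)
  rcases hmax _ hJ Finset.subset_union_left hJT hαJ with h | h
  · left
    have hsub : mv g M ⊆ M := by
      intro x hx
      have hx' : x ∈ M ∪ mv g M := Finset.mem_union_right _ hx
      rwa [h] at hx'
    have heq : mv g M = M := Finset.eq_of_subset_of_card_le hsub (by rw [card_mv])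
    rw [hmvR, heq]
  · right
    rw [hmvR, Finset.disjoint_left]
    intro x hx hxR
    rw [Finset.mem_compl, Finset.mem_union, not_or] at hx hxR
    have hxA : x ∈ (insert α T)ᶜ := Finset.mem_compl.2 hxR.2
    rw [← h] at hxA
    rcases Finset.mem_union.1 hxA with h' | h'
    · exact hxR.1 h'
    · exact hx.1 h'

end Cfsg.Agent.Helper29.JorS3
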