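import Cfsg.Agent.Helper29.MaxClass2b

/-!
# 2-groups of maximal class, part 3 (helper29): the centre has order 2 and the central quotient
is dihedral (`taussky_center_quotient`).
-/

set_option autoImplicit false

namespace Cfsg.Agent.Helper29

/-- Central quotient of a 2-group of maximal class (given through its commutator quotient). -/
theorem taussky_center_quotient {X : Type*} [Group X] [Finite X] (m : ℕ)
    (hX : Nat.card X = 2 ^ (m + 3)) (hidx : (commutator X).index = 4)
    (hsq : ∀ g : X, g ^ 2 ∈ commutator X) :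
    Nat.card (Subgroup.center X) = 2 ∧
      Nonempty (X ⧸ Subgroup.center X ≃* DihedralGroup (2 ^ (m + 1))) := by
  obtain ⟨a, x, r, ha, hx, hr, hxa, hdvd, hxx⟩ := taussky_gens m hX hidx hsq
  have hA : (Subgroup.zpowers a).index = 2 := by
    have h1 := (Subgroup.zpowers a).card_mul_index
    rw [Nat.card_zpowers, ha, hX, pow_succ] at h1
    exact Nat.eq_of_mul_eq_mul_left (by positivity) h1
  have hxa_ne : x * a ≠ a * x := by
    intro h
    have h1 : x * a * x⁻¹ = a := by rw [h]; group
    rw [hxa] at h1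
    have h2 : a ^ (2 * r + 1) = a ^ 1 := by rw [h1, pow_one]
    rw [pow_eq_pow_iff_modEq, ha] at h2
    have h3 : 2 ^ (m + 2) ∣ 2 * r + 1 - 1 := (Nat.modEq_iff_dvd' (by omega)).mp h2.symm
    have h4 : 2 * r + 1 - 1 = 2 * r := by omega
    rw [h4, pow_succ, mul_comm] at h3
    have h5 : 2 ^ (m + 1) ∣ r := (Nat.mul_dvd_mul_iff_left (by norm_num)).mp h3
    have h6 : 2 ∣ r := dvd_trans (dvd_pow_self 2 (by omega)) h5
    exact (Nat.not_even_iff_odd.mpr hr) (even_iff_two_dvd.mpr h6)
  have haQ : a ^ (2 ^ (m + 2)) = 1 := by rw [← ha, pow_orderOf_eq_one]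
  -- `z = a ^ (2 ^ (m + 1))` is central
  have hz_center : a ^ (2 ^ (m + 1)) ∈ Subgroup.center X := by
    have hM : Subgroup.centralizer {a ^ (2 ^ (m + 1))} = ⊤ := by
      apply eq_top_of_index_prime Nat.prime_two hA (b := x) _ _ hx
      · rw [Subgroup.zpowers_le, Subgroup.mem_centralizer_singleton_iff, ← pow_succ, ← pow_succ']
      · rw [Subgroup.mem_centralizer_singleton_iff]
        have h1 := conj_pow_of_conj hxa (2 ^ (m + 1))
        have h2 : (2 * r + 1) * 2 ^ (m + 1) = 2 ^ (m + 2) * r + 2 ^ (m + 1) := by ring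
        have h3 : a ^ ((2 * r + 1) * 2 ^ (m + 1)) = a ^ (2 ^ (m + 1)) := by
          rw [h2, pow_add a (2 ^ (m + 2) * r) (2 ^ (m + 1)), pow_mul a (2 ^ (m + 2)) r, haQ,
            one_pow, one_mul]
        rw [h3] at h1
        calc x * a ^ (2 ^ (m + 1)) = x * a ^ (2 ^ (m + 1)) * x⁻¹ * x := by group
          _ = a ^ (2 ^ (m + 1)) * x := by rw [h1]
    rw [Subgroup.mem_center_iff]
    intro g
    have hg : g ∈ Subgroup.centralizer {a ^ (2 ^ (m + 1))} := hM ▸ Subgroup.mem_top g
    exact Subgroup.mem_centralizer_singleton_iff.mp hg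
  have hpow_center : ∀ k : ℕ, a ^ k ∈ Subgroup.center X ↔ 2 ^ (m + 1) ∣ k := by
    intro k
    constructor
    · intro h
      have h1 : x * a ^ k * x⁻¹ = a ^ k := by
        have := Subgroup.mem_center_iff.mp h x
        rw [this]; group
      rw [conj_pow_of_conj hxa, pow_eq_pow_iff_modEq, ha] at h1
      have h3 : 2 ^ (m + 2) ∣ (2 * r + 1) * k - k :=
        (Nat.modEq_iff_dvd' (Nat.le_mul_of_pos_left k (by omega))).mp h1.symm
      have h4 : (2 * r + 1) * k - k = 2 * (r * k) := by
        have : (2 * r + 1) * k = 2 * (r * k) + k := by ring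
        omega
      rw [h4, pow_succ, mul_comm (2 ^ (m + 1)) 2] at h3
      have h5 : 2 ^ (m + 1) ∣ r * k := (Nat.mul_dvd_mul_iff_left (by norm_num)).mp h3
      exact (Nat.Coprime.pow_left _ (Nat.coprime_two_left.mpr hr)).dvd_of_dvd_mul_left h5
    · rintro ⟨j, rfl⟩
      rw [pow_mul]
      exact Subgroup.pow_mem _ hz_center j
  -- the centre
  have hcenter : Subgroup.center X = Subgroup.zpowers (a ^ (2 ^ (m + 1))) := by
    apply le_antisymm
    · intro g hg
      have hga : g ∈ Subgroup.zpowers a := by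
        by_contra hga
        have h1 : x⁻¹ * g ∈ Subgroup.zpowers a := by
          rw [Subgroup.mul_mem_iff_of_index_two hA]
          constructor
          · intro h; exact absurd ((Subgroup.inv_mem_iff _).mp h) hx
          · intro h; exact absurd h hga
        obtain ⟨k, hk⟩ := Subgroup.mem_zpowers_iff.mp h1
        apply hxa_ne
        have h2 : x = g * (a ^ k)⁻¹ := by rw [hk]; group
        have h3 : Commute (a ^ k) a := (Commute.refl a).zpow_left k
        have h4 : g * a = a * g := Subgroup.mem_center_iff.mp hg a |>.symm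
        rw [h2]
        calc g * (a ^ k)⁻¹ * a = g * a * (a ^ k)⁻¹ := by
              rw [mul_assoc, mul_assoc, (h3.inv_left).eq]
          _ = a * (g * (a ^ k)⁻¹) := by rw [h4]; group
      obtain ⟨k, rfl⟩ := (Submonoid.mem_powers_iff _ _).mp (mem_powers_iff_mem_zpowers.mpr hga)
      obtain ⟨j, rfl⟩ := (hpow_center k).mp hg
      rw [pow_mul]
      exact Subgroup.pow_mem _ (Subgroup.mem_zpowers _) j
    · rw [Subgroup.zpowers_le]; exact hz_center
  have hzord : orderOf (a ^ (2 ^ (m + 1))) = 2 := by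
    have : Fact (Nat.Prime 2) := ⟨Nat.prime_two⟩
    apply orderOf_eq_prime
    · rw [← pow_mul, ← pow_succ, haQ]
    · intro h
      have h1 := (hpow_center (2 ^ m)).mp
      have h3 := orderOf_dvd_of_pow_eq_one h
      rw [ha] at h3
      have h4 := Nat.le_of_dvd (by positivity) h3
      have h5 : 2 ^ (m + 1) < 2 ^ (m + 2) := Nat.pow_lt_pow_right (by norm_num) (by omega)
      omega
  have hccard : Nat.card (Subgroup.center X) = 2 := by
    rw [hcenter, Nat.card_zpowers, hzord]
  refine ⟨hccard, ?_⟩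
  have hQcard : Nat.card (X ⧸ Subgroup.center X) = 2 * 2 ^ (m + 1) := by
    have h1 := (Subgroup.center X).card_mul_index
    rw [hccard, hX] at h1
    have h2 : Nat.card (X ⧸ Subgroup.center X) = (Subgroup.center X).index := rfl
    rw [h2]
    have h3 : 2 ^ (m + 3) = 2 * (2 * 2 ^ (m + 1)) := by ring
    omega
  have hmk1 : ∀ g : X, (g : X ⧸ Subgroup.center X) = 1 ↔ g ∈ Subgroup.center X :=
    fun g => QuotientGroup.eq_one_iff g
  have haQ' : orderOf (a : X ⧸ Subgroup.center X) = 2 ^ (m + 1) := by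
    apply orderOf_eq_prime_pow
    · rw [← QuotientGroup.mk_pow, hmk1, hpow_center]
      intro h
      have h4 := Nat.le_of_dvd (by positivity) h
      have h5 : 2 ^ m < 2 ^ (m + 1) := Nat.pow_lt_pow_right (by norm_num) (by omega)
      omega
    · rw [← QuotientGroup.mk_pow, hmk1]
      exact hz_center
  have hxQ : (x : X ⧸ Subgroup.center X) * (x : X ⧸ Subgroup.center X) = 1 := by
    rw [← QuotientGroup.mk_mul, hmk1]
    rcases hxx with h | h
    · rw [h]; exact Subgroup.one_mem _
    · rw [h]; exact hz_center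
  have haxQ : (x : X ⧸ Subgroup.center X) * (a : X ⧸ Subgroup.center X) *
      (x : X ⧸ Subgroup.center X)⁻¹ = (a : X ⧸ Subgroup.center X)⁻¹ := by
    apply eq_inv_of_mul_eq_one_left
    rw [← QuotientGroup.mk_inv, ← QuotientGroup.mk_mul, ← QuotientGroup.mk_mul,
      ← QuotientGroup.mk_mul, hmk1, hxa, ← pow_succ, hpow_center]
    obtain ⟨d, hd⟩ := hdvd
    refine ⟨d, ?_⟩
    have h5 : 2 * r + 1 + 1 = 2 * (r + 1) := by ring
    rw [h5, hd]; ring
  have hxaQ : (x : X ⧸ Subgroup.center X) ∉ Subgroup.zpowers (a : X ⧸ Subgroup.center X) := by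
    intro h
    obtain ⟨k, hk⟩ := Subgroup.mem_zpowers_iff.mp h
    rw [← QuotientGroup.mk_zpow] at hk
    have h1 : (a ^ k)⁻¹ * x ∈ Subgroup.center X := QuotientGroup.eq.mp hk
    apply hxa_ne
    have h3 : Commute (a ^ k) a := (Commute.refl a).zpow_left k
    have h4 := Subgroup.mem_center_iff.mp h1 a
    have h2 : x = a ^ k * ((a ^ k)⁻¹ * x) := by group
    rw [h2]
    calc a ^ k * ((a ^ k)⁻¹ * x) * a = a ^ k * (((a ^ k)⁻¹ * x) * a) := by group
      _ = a ^ k * (a * ((a ^ k)⁻¹ * x)) := by rw [h4]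
      _ = a * (a ^ k * ((a ^ k)⁻¹ * x)) := by
          rw [← mul_assoc, h3.eq, mul_assoc]
  exact Cfsg.Agent.Helper73.nonempty_mulEquiv_dihedralGroup (2 ^ (m + 1))
    (a : X ⧸ Subgroup.center X) (x : X ⧸ Subgroup.center X) hQcard haQ' hxQ haxQ hxaQ

end Cfsg.Agent.Helper29
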