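import Cfsg.Agent.Helper63.N14Defs

/-!
# S4414 piece A3 (CALL by helper63): `S = S_p S_2 S_q`.
-/

set_option autoImplicit false

namespace Cfsg.Agent.Helper29.N14

open Cfsg.Agent.Helper63.N14

/-- A3. `S = S_p S_2 S_q`. -/
theorem prod_decomp {S : Type*} [Group S] [Finite S] (p q : ℕ) (hp : p.Prime) (hq : q.Prime)
    (hp2 : p ≠ 2) (hq2 : q ≠ 2) (hpq : p ≠ q)
    (hπ : ∀ r : ℕ, r.Prime → r ∣ Nat.card S → r = 2 ∨ r = p ∨ r = q)
    (S₂ : Sylow 2 S) (Sp : Sylow p S) (Sq : Sylow q S)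
    (h2q : Nat.card ↥((S₂ : Subgroup S) ⊔ (Sq : Subgroup S)) = Nat.card ↥S₂ * Nat.card ↥Sq)
    (hSpN : (Sp : Subgroup S).Normal) :
    ∀ s : S, ∃ a ∈ (Sp : Subgroup S), ∃ t ∈ (S₂ : Subgroup S), ∃ x ∈ (Sq : Subgroup S),
      s = a * t * x := by
  have : Fact p.Prime := ⟨hp⟩
  have : Fact q.Prime := ⟨hq⟩
  have : Fact (Nat.Prime 2) := ⟨Nat.prime_two⟩
  have := hSpN
  have hdisj : Disjoint (S₂ : Subgroup S) (Sq : Subgroup S) :=
    IsPGroup.disjoint_of_ne 2 q (Ne.symm hq2) _ _ S₂.isPGroup' Sq.isPGroup'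
  have hH : ∀ h ∈ (S₂ : Subgroup S) ⊔ (Sq : Subgroup S),
      ∃ t ∈ (S₂ : Subgroup S), ∃ x ∈ (Sq : Subgroup S), h = t * x := by
    obtain ⟨f, hf⟩ : ∃ f : ↥(S₂ : Subgroup S) × ↥(Sq : Subgroup S) →
        ↥((S₂ : Subgroup S) ⊔ (Sq : Subgroup S)), ∀ tx, ((f tx : S)) = (tx.1 : S) * (tx.2 : S) :=
      ⟨fun tx => ⟨(tx.1 : S) * (tx.2 : S), Subgroup.mul_mem _
        ((le_sup_left : (S₂ : Subgroup S) ≤ (S₂ : Subgroup S) ⊔ (Sq : Subgroup S)) tx.1.2)
        ((le_sup_right : (Sq : Subgroup S) ≤ (S₂ : Subgroup S) ⊔ (Sq : Subgroup S)) tx.2.2)⟩,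
        fun _ => rfl⟩
    have hinj : Function.Injective f := by
      rintro ⟨t, x⟩ ⟨t', x'⟩ h
      have h1 : (t : S) * x = t' * x' := by
        have := congrArg Subtype.val h
        rwa [hf, hf] at this
      have h2 : (t' : S)⁻¹ * t = x' * (x : S)⁻¹ := by
        rw [inv_mul_eq_iff_eq_mul, ← mul_assoc, ← h1]
        group
      have h3 : (t' : S)⁻¹ * t ∈ (S₂ : Subgroup S) ⊓ (Sq : Subgroup S) :=
        Subgroup.mem_inf.2 ⟨Subgroup.mul_mem _ (Subgroup.inv_mem _ t'.2) t.2, by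
          rw [h2]
          exact Subgroup.mul_mem _ x'.2 (Subgroup.inv_mem _ x.2)⟩
      rw [hdisj.eq_bot, Subgroup.mem_bot, inv_mul_eq_one] at h3
      have h5 : (x : S) = x' := by
        rw [← h3] at h1
        exact mul_left_cancel h1
      exact Prod.ext (Subtype.ext h3.symm) (Subtype.ext h5)
    have hbij : Function.Bijective f :=
      hinj.bijective_of_nat_card_le (by rw [Nat.card_prod, h2q]; exact le_of_eq rfl)
    intro h hh
    obtain ⟨⟨t, x⟩, htx⟩ := hbij.2 ⟨h, hh⟩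
    refine ⟨t, t.2, x, x.2, ?_⟩
    have := congrArg Subtype.val htx
    rw [hf] at this
    exact this.symm
  have htop : (Sp : Subgroup S) ⊔ ((S₂ : Subgroup S) ⊔ (Sq : Subgroup S)) = ⊤ := by
    rw [← Subgroup.index_eq_one]
    by_contra hne
    obtain ⟨r, hr, hrd⟩ := Nat.exists_prime_and_dvd hne
    have hrS : r ∣ Nat.card S := hrd.trans (Subgroup.index_dvd_card _)
    rcases hπ r hr hrS with rfl | rfl | rfl
    · have h1 : ((Sp : Subgroup S) ⊔ ((S₂ : Subgroup S) ⊔ (Sq : Subgroup S))).index ∣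
          (S₂ : Subgroup S).index := Subgroup.index_dvd_of_le (le_sup_of_le_right le_sup_left)
      exact S₂.not_dvd_index (hrd.trans h1)
    · have h1 : ((Sp : Subgroup S) ⊔ ((S₂ : Subgroup S) ⊔ (Sq : Subgroup S))).index ∣
          (Sp : Subgroup S).index := Subgroup.index_dvd_of_le le_sup_left
      exact Sp.not_dvd_index (hrd.trans h1)
    · have h1 : ((Sp : Subgroup S) ⊔ ((S₂ : Subgroup S) ⊔ (Sq : Subgroup S))).index ∣
          (Sq : Subgroup S).index := Subgroup.index_dvd_of_le (le_sup_of_le_right le_sup_right)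
      exact Sq.not_dvd_index (hrd.trans h1)
  intro s
  have hs : s ∈ (Sp : Subgroup S) ⊔ ((S₂ : Subgroup S) ⊔ (Sq : Subgroup S)) := by
    rw [htop]
    trivial
  rw [← SetLike.mem_coe, Subgroup.normal_mul] at hs
  obtain ⟨a, ha, h, hh, rfl⟩ := Set.mem_mul.1 hs
  obtain ⟨t, ht, x, hx, rfl⟩ := hH h hh
  exact ⟨a, ha, t, ht, x, hx, (mul_assoc _ _ _).symm⟩

end Cfsg.Agent.Helper29.N14
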