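import Cfsg.Prelude.Def_Transfer
import Cfsg.Prelude.Def_Solvable
import Cfsg.Agent.Helper63.N15Defs

set_option autoImplicit false
set_option linter.unusedSectionVars false

namespace Cfsg.Agent.Helper29.N15

open Cfsg.Agent.Helper63.N15

variable {G : Type*} [Group G] [Finite G] {V : Type*} [AddCommGroup V] [Module (ZMod 3) V]
  [Finite V] {ρ : Representation (ZMod 3) G V} {R : Subgroup G} {b q₁ q₂ q₃ : G} {v₁ v₂ v₃ : V}

theorem m4d_mul_apply (ρ : Representation (ZMod 3) G V) (g h : G) (v : V) :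
    ρ (g * h) v = ρ g (ρ h v) := by
  rw [map_mul]
  rfl

theorem m4d_one_apply (ρ : Representation (ZMod 3) G V) (v : V) : ρ 1 v = v := by
  rw [map_one]
  rfl

theorem m4d_inj (ρ : Representation (ZMod 3) G V) (r : G) (x y : V) (h : ρ r x = ρ r y) :
    x = y := by
  have h1 : ρ r⁻¹ (ρ r x) = ρ r⁻¹ (ρ r y) := by rw [h]
  rwa [← m4d_mul_apply, ← m4d_mul_apply, inv_mul_cancel, m4d_one_apply, m4d_one_apply] at h1

theorem m4d_sign (x y : V) (h : x = y ∨ x = -y) :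
    ∃ α : ZMod 3, (α = 1 ∨ α = -1) ∧ x = α • y := by
  rcases h with h | h
  · exact ⟨1, Or.inl rfl, by rw [h, one_smul]⟩
  · exact ⟨-1, Or.inr rfl, by rw [h, neg_smul, one_smul]⟩

theorem m4d_sq (α : ZMod 3) (h : α = 1 ∨ α = -1) : α * α = 1 := by
  rcases h with rfl | rfl <;> decide

/-- the double transposition `a ↔ a'`, `d ↔ d'` -/
theorem m4d_aux (c : Cfg ρ R b q₁ q₂ q₃ v₁ v₂ v₃) (a a' d d' : V) (r : G)
    (hspan : ∀ v : V, ∃ x₁ x₂ x₃ x₄ : ZMod 3, v = x₁ • a + x₂ • a' + x₃ • d + x₄ • d')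
    (hind : ∀ x₁ x₂ x₃ x₄ : ZMod 3, x₁ • a + x₂ • a' + x₃ • d + x₄ • d' = 0 →
      x₁ = 0 ∧ x₂ = 0 ∧ x₃ = 0 ∧ x₄ = 0)
    (hmono : ∀ e : V, (e = a ∨ e = a' ∨ e = d ∨ e = d') →
      ∃ e' : V, (e' = a ∨ e' = a' ∨ e' = d ∨ e' = d') ∧ (ρ r e = e' ∨ ρ r e = -e'))
    (hB : ∀ e : V, (e = a ∨ e = a' ∨ e = d ∨ e = d') →
      ρ r e ≠ e ∧ ρ r e ≠ -e ∧ (ρ r (ρ r e) = e ∨ ρ r (ρ r e) = -e))
    (h1 : ρ r a = a' ∨ ρ r a = -a')
    (hdet : ∀ α β γ δ : ZMod 3, ρ r a = α • a' → ρ r a' = β • a → ρ r d = γ • d' →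
      ρ r d' = δ • d → α * β * γ * δ = 1) :
    r ^ 2 = 1 ∨ ∀ v : V, ρ (r ^ 2) v = -v := by
  have h10 : (1 : ZMod 3) ≠ 0 := by decide
  -- a general step: `ρ r x = α • y` and `ρ r (ρ r x) = ± x` give `ρ r y = β • x`
  have hback : ∀ (x y : V) (α : ZMod 3), (α = 1 ∨ α = -1) → ρ r x = α • y →
      (ρ r (ρ r x) = x ∨ ρ r (ρ r x) = -x) →
      ∃ β : ZMod 3, (β = 1 ∨ β = -1) ∧ ρ r y = β • x := by
    intro x y α hα hx hxx
    obtain ⟨s, hs, hs2⟩ := m4d_sign _ _ hxx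
    rw [hx, map_smul] at hs2
    refine ⟨α * s, ?_, ?_⟩
    · rcases hα with rfl | rfl <;> rcases hs with rfl | rfl <;> decide
    · calc ρ r y = (α * α) • ρ r y := by rw [m4d_sq α hα, one_smul]
        _ = α • (α • ρ r y) := by rw [smul_smul]
        _ = α • (s • x) := by rw [hs2]
        _ = (α * s) • x := by rw [smul_smul]
  obtain ⟨α, hα, hra⟩ := m4d_sign _ _ h1
  obtain ⟨β, hβ, hra'⟩ := hback a a' α hα hra (hB a (Or.inl rfl)).2.2
  -- the image of `d`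
  obtain ⟨e', he', hrd⟩ := hmono d (Or.inr (Or.inr (Or.inl rfl)))
  obtain ⟨γ0, hγ0, hrd0⟩ := m4d_sign _ _ hrd
  have hd' : e' = d' := by
    rcases he' with rfl | rfl | rfl | rfl
    · -- ρ r d = γ0 • a = ρ r ((γ0 * β) • a')
      exfalso
      have h2 : ρ r d = ρ r ((γ0 * β) • a') := by
        rw [map_smul, hra', smul_smul, mul_assoc, m4d_sq β hβ, mul_one, hrd0]
      have h3 := m4d_inj ρ r _ _ h2
      have h4 := hind 0 (-(γ0 * β)) 1 0 (by rw [h3]; module)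
      exact h10 h4.2.2.1
    · exfalso
      have h2 : ρ r d = ρ r ((γ0 * α) • a) := by
        rw [map_smul, hra, smul_smul, mul_assoc, m4d_sq α hα, mul_one, hrd0]
      have h3 := m4d_inj ρ r _ _ h2
      have h4 := hind (-(γ0 * α)) 0 1 0 (by rw [h3]; module)
      exact h10 h4.2.2.1
    · exfalso
      rcases hrd with h2 | h2
      · exact (hB e' (Or.inr (Or.inr (Or.inl rfl)))).1 h2
      · exact (hB e' (Or.inr (Or.inr (Or.inl rfl)))).2.1 h2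
    · rfl
  rw [hd'] at hrd0
  obtain ⟨δ, hδ, hrd'⟩ := hback d d' γ0 hγ0 hrd0 (hB d (Or.inr (Or.inr (Or.inl rfl)))).2.2
  have hprod := hdet α β γ0 δ hra hra' hrd0 hrd'
  have hγδ : γ0 * δ = α * β := by
    rcases hα with rfl | rfl <;> rcases hβ with rfl | rfl <;> rcases hγ0 with rfl | rfl <;>
      rcases hδ with rfl | rfl <;> revert hprod <;> decide
  have hs : α * β = 1 ∨ α * β = -1 := by
    rcases hα with rfl | rfl <;> rcases hβ with rfl | rfl <;> decide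
  have h_a : ρ r (ρ r a) = (α * β) • a := by rw [hra, map_smul, hra', smul_smul]
  have h_a' : ρ r (ρ r a') = (α * β) • a' := by rw [hra', map_smul, hra, smul_smul, mul_comm]
  have h_d : ρ r (ρ r d) = (α * β) • d := by rw [hrd0, map_smul, hrd', smul_smul, hγδ]
  have h_d' : ρ r (ρ r d') = (α * β) • d' := by
    rw [hrd', map_smul, hrd0, smul_smul, mul_comm, hγδ]
  have hall : ∀ v : V, ρ r (ρ r v) = (α * β) • v := by
    intro v
    obtain ⟨x₁, x₂, x₃, x₄, rfl⟩ := hspan v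
    simp only [map_add, map_smul, h_a, h_a', h_d, h_d']
    module
  rcases hs with hs1 | hs1
  · left
    apply c.faith
    intro v
    rw [pow_two, m4d_mul_apply, hall v, hs1, one_smul]
  · right
    intro v
    rw [pow_two, m4d_mul_apply, hall v, hs1, neg_smul, one_smul]

/-- M4d. Squares of `R` lie in `{1, -1}`. -/
theorem m4d (c : Cfg ρ R b q₁ q₂ q₃ v₁ v₂ v₃) (e₁ e₂ e₃ e₄ : V)
    (h : Mono4 ρ b e₁ e₂ e₃ e₄)
    (ha : ∀ r ∈ R, (∀ e ∈ ({e₁, e₂, e₃, e₄} : Set V), ρ r e = e ∨ ρ r e = -e) ∨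
      (∀ e ∈ ({e₁, e₂, e₃, e₄} : Set V), ρ r e ≠ e ∧ ρ r e ≠ -e ∧
        (ρ r (ρ r e) = e ∨ ρ r (ρ r e) = -e)))
    (hd4 : ∀ g : G, Det4 ρ g e₁ e₂ e₃ e₄) :
    ∀ r ∈ R, r ^ 2 = 1 ∨ ∀ v : V, ρ (r ^ 2) v = -v := by
  intro r hr
  obtain ⟨hspan, hind, hmono, -, -, -, -, -⟩ := h
  rcases ha r hr with hA | hB
  · -- diagonal
    left
    apply c.faith
    have hfix : ∀ e : V, (e = e₁ ∨ e = e₂ ∨ e = e₃ ∨ e = e₄) → ρ r (ρ r e) = e := by
      intro e he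
      rcases hA e he with h1 | h1
      · rw [h1, h1]
      · rw [h1, map_neg, h1, neg_neg]
    intro v
    obtain ⟨x₁, x₂, x₃, x₄, rfl⟩ := hspan v
    rw [pow_two, m4d_mul_apply]
    simp only [map_add, map_smul]
    rw [hfix e₁ (Or.inl rfl), hfix e₂ (Or.inr (Or.inl rfl)),
      hfix e₃ (Or.inr (Or.inr (Or.inl rfl))), hfix e₄ (Or.inr (Or.inr (Or.inr rfl)))]
  · have hB' : ∀ e : V, (e = e₁ ∨ e = e₂ ∨ e = e₃ ∨ e = e₄) →
        ρ r e ≠ e ∧ ρ r e ≠ -e ∧ (ρ r (ρ r e) = e ∨ ρ r (ρ r e) = -e) := fun e he => hB e he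
    have hmono' : ∀ e : V, (e = e₁ ∨ e = e₂ ∨ e = e₃ ∨ e = e₄) →
        ∃ e' : V, (e' = e₁ ∨ e' = e₂ ∨ e' = e₃ ∨ e' = e₄) ∧ (ρ r e = e' ∨ ρ r e = -e') := by
      intro e he
      obtain ⟨e', he', h'⟩ := hmono r e he
      exact ⟨e', he', h'⟩
    obtain ⟨e', he', h1⟩ := hmono' e₁ (Or.inl rfl)
    rcases he' with rfl | rfl | rfl | rfl
    · exfalso
      rcases h1 with h2 | h2
      · exact (hB' e' (Or.inl rfl)).1 h2
      · exact (hB' e' (Or.inl rfl)).2.1 h2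
    · exact m4d_aux c e₁ e' e₃ e₄ r hspan hind hmono' hB' h1 (hd4 r).2.1
    · refine m4d_aux c e₁ e' e₂ e₄ r ?_ ?_ ?_ ?_ h1 (hd4 r).2.2.1
      · intro v
        obtain ⟨x₁, x₂, x₃, x₄, hv⟩ := hspan v
        exact ⟨x₁, x₃, x₂, x₄, by rw [hv]; abel⟩
      · intro x₁ x₂ x₃ x₄ h0
        obtain ⟨p1, p2, p3, p4⟩ := hind x₁ x₃ x₂ x₄ (by rw [← h0]; abel)
        exact ⟨p1, p3, p2, p4⟩
      · intro e he
        obtain ⟨e'', he'', h''⟩ := hmono' e (by tauto)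
        exact ⟨e'', by tauto, h''⟩
      · intro e he
        exact hB' e (by tauto)
    · refine m4d_aux c e₁ e' e₂ e₃ r ?_ ?_ ?_ ?_ h1 (hd4 r).2.2.2
      · intro v
        obtain ⟨x₁, x₂, x₃, x₄, hv⟩ := hspan v
        exact ⟨x₁, x₄, x₂, x₃, by rw [hv]; abel⟩
      · intro x₁ x₂ x₃ x₄ h0
        obtain ⟨p1, p2, p3, p4⟩ := hind x₁ x₃ x₄ x₂ (by rw [← h0]; abel)
        exact ⟨p1, p4, p2, p3⟩
      · intro e he
        obtain ⟨e'', he'', h''⟩ := hmono' e (by tauto)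
        exact ⟨e'', by tauto, h''⟩
      · intro e he
        exact hB' e (by tauto)

end Cfsg.Agent.Helper29.N15
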