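import Cfsg.Prelude.Def_Transfer
import Cfsg.Prelude.Def_Solvable
import Cfsg.Agent.Helper63.N15Defs

set_option autoImplicit false
set_option linter.unusedSectionVars false

namespace Cfsg.Agent.Helper29.N15

open Cfsg.Agent.Helper63.N15

variable {G : Type*} [Group G] [Finite G] {V : Type*} [AddCommGroup V] [Module (ZMod 3) V]
  [Finite V] {ρ : Representation (ZMod 3) G V} {R : Subgroup G} {b q₁ q₂ q₃ : G} {v₁ v₂ v₃ : V}

theorem m4f_mul_apply (ρ : Representation (ZMod 3) G V) (g h : G) (v : V) :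
    ρ (g * h) v = ρ g (ρ h v) := by
  rw [map_mul]
  rfl

theorem m4f_one_apply (ρ : Representation (ZMod 3) G V) (v : V) : ρ 1 v = v := by
  rw [map_one]
  rfl

theorem m4f_eq_of_act (c : Cfg ρ R b q₁ q₂ q₃ v₁ v₂ v₃) (g h : G)
    (hgh : ∀ v, ρ g v = ρ h v) : g = h := by
  have h1 : h⁻¹ * g = 1 := by
    apply c.faith
    intro v
    rw [m4f_mul_apply, hgh v, ← m4f_mul_apply, inv_mul_cancel, m4f_one_apply]
  calc g = h * (h⁻¹ * g) := by group
    _ = h := by rw [h1, mul_one]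

/-- M4f (group theory + faithfulness). -/
theorem m4f (c : Cfg ρ R b q₁ q₂ q₃ v₁ v₂ v₃) (hz : ∃ z ∈ R, ∀ v : V, ρ z v = -v)
    (hcard : Nat.card R = 32)
    (hA : ∃ A : Subgroup G, A ≤ R ∧ (∀ a ∈ A, ∀ a' ∈ A, a * a' = a' * a) ∧
      (∀ a ∈ A, a ^ 2 = 1) ∧ Nat.card A = 8)
    (hcen : ∀ x ∈ R, (∀ y ∈ R, x * y = y * x) → IsZ ρ x)
    (hsq : ∀ r ∈ R, r ^ 2 = 1 ∨ ∀ v : V, ρ (r ^ 2) v = -v) : IsES32 R := by
  obtain ⟨z, hzR, hzv⟩ := hz
  have hF : ∀ g : G, (∀ v, ρ g v = -v) → g = z := fun g hg =>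
    m4f_eq_of_act c g z (fun v => by rw [hg v, hzv v])
  have hz1 : z ≠ 1 := by
    intro h1
    have h2 := hzv v₁
    rw [h1, m4f_one_apply] at h2
    have h4 : (2 : ZMod 3) • v₁ = 0 := by
      rw [two_smul]
      nth_rewrite 1 [h2]
      exact neg_add_cancel v₁
    have h5 : (2 : ZMod 3) • ((2 : ZMod 3) • v₁) = 0 := by rw [h4, smul_zero]
    rw [smul_smul] at h5
    have h6 : (2 * 2 : ZMod 3) = 1 := by decide
    rw [h6, one_smul] at h5
    exact c.v1 h5
  have hzz : z * z = 1 := by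
    apply c.faith
    intro v
    rw [m4f_mul_apply, hzv, hzv, neg_neg]
  have hz2 : z ^ 2 = 1 := by rw [pow_two]; exact hzz
  have hzc : ∀ x : G, x * z = z * x := by
    intro x
    apply m4f_eq_of_act c
    intro v
    rw [m4f_mul_apply, m4f_mul_apply, hzv, hzv, map_neg]
  have hsq' : ∀ r ∈ R, ∃ ε : ZMod 3, (ε = 1 ∨ ε = -1) ∧ ∀ v, ρ r (ρ r v) = ε • v := by
    intro r hr
    rcases hsq r hr with h1 | h1
    · refine ⟨1, Or.inl rfl, fun v => ?_⟩
      rw [← m4f_mul_apply, ← pow_two, h1, m4f_one_apply, one_smul]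
    · refine ⟨-1, Or.inr rfl, fun v => ?_⟩
      rw [← m4f_mul_apply, ← pow_two, h1 v, neg_smul, one_smul]
  refine ⟨hcard, ⟨z, hzR, hz1, hz2, fun x _ => hzc x, ?_, ?_, ?_⟩, hA⟩
  · intro x hx hxc
    rcases hcen x hx hxc with h1 | h1
    · exact Or.inl h1
    · exact Or.inr (hF x h1)
  · intro x hx
    rcases hsq x hx with h1 | h1
    · exact Or.inl h1
    · exact Or.inr (hF _ h1)
  · intro x hx y hy
    obtain ⟨εx, hεx, hx2⟩ := hsq' x hx
    obtain ⟨εy, hεy, hy2⟩ := hsq' y hy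
    obtain ⟨εxy, hεxy, hxy2⟩ := hsq' (x * y) (R.mul_mem hx hy)
    have key : ∀ v, εxy • ρ y (ρ x v) = (εy * εx) • ρ x (ρ y v) := by
      intro v
      have h1 := hxy2 (ρ y (ρ x v))
      rw [m4f_mul_apply, m4f_mul_apply] at h1
      rw [hy2 (ρ x v)] at h1
      simp only [map_smul] at h1
      rw [hx2 v] at h1
      simp only [map_smul, smul_smul] at h1
      exact h1.symm
    have hs : (εy * εx) * (εy * εx) = 1 := by
      rcases hεx with rfl | rfl <;> rcases hεy with rfl | rfl <;> decide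
    have hs2 : εy * εx * εxy = 1 ∨ εy * εx * εxy = -1 := by
      rcases hεx with rfl | rfl <;> rcases hεy with rfl | rfl <;> rcases hεxy with rfl | rfl <;>
        decide
    have hX : ∀ v, ρ x (ρ y v) = (εy * εx * εxy) • ρ y (ρ x v) := by
      intro v
      calc ρ x (ρ y v) = ((εy * εx) * (εy * εx)) • ρ x (ρ y v) := by rw [hs, one_smul]
        _ = (εy * εx) • ((εy * εx) • ρ x (ρ y v)) := by rw [smul_smul]
        _ = (εy * εx) • (εxy • ρ y (ρ x v)) := by rw [key v]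
        _ = (εy * εx * εxy) • ρ y (ρ x v) := by rw [smul_smul]
    rcases hs2 with h1 | h1
    · left
      apply m4f_eq_of_act c
      intro v
      rw [m4f_mul_apply, m4f_mul_apply, hX v, h1, one_smul]
    · right
      apply m4f_eq_of_act c
      intro v
      rw [m4f_mul_apply, m4f_mul_apply, m4f_mul_apply, hX v, h1, hzv, neg_smul, one_smul]

end Cfsg.Agent.Helper29.N15
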