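import Cfsg.Agent.Helper85.PiDefs
import Cfsg.Agent.Helper85.PiGen
import Cfsg.Agent.Helper87.NormSys
import Cfsg.Agent.Helper88.SmallControl

/-!
# CALL S5113, piece BRC (helper29): a map of `F` on `N` with `R ≤ N ≤ N_S(R) ∩ T` normalizing the fully
normalized subgroup `R` is, up to conjugation by an element of `N_S(R)`, a map of the candidate subsystem
restricting on `R` to an element of `O^p(Aut_F(R))`.  Alperin induction in the normalizer system `N_F(R)`.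
-/

set_option autoImplicit false

namespace Cfsg.Agent.Helper29.PiBRC

open Cfsg Cfsg.FusionSystem Cfsg.Agent.Helper85 Cfsg.Agent.Helper88

variable {Ω : Type*} [Group Ω] {S : Subgroup Ω}

theorem pi_brc [Finite S] {p : ℕ} [Fact p.Prime] (hS : IsPGroup p S) {F : FusionSystem S}
    {T : Subgroup Ω} (hh : PiHyp F p T) (hc : PiConjS F p T) : PiBrc F p T := by
  intro R N γ hR hRN hNN hNT hγ himg
  have hF := hh.sat
  have hRS : R ≤ S := hR.1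
  have hS'S : normalizerIn S R ≤ S := inf_le_left
  have : Finite (normalizerIn S R) := Helper88.finite_of_le hS'S
  have : Finite R := Helper88.finite_of_le hRS
  have hS'p : IsPGroup p (normalizerIn S R) := hS.to_le hS'S
  obtain ⟨NS, hNS⟩ : ∃ NS : FusionSystem (normalizerIn S R), F.IsNormalizerSystem R NS :=
    ⟨Cfsg.Agent.Helper87.normalizerSystem F R hRS,
      Cfsg.Agent.Helper87.isNormalizerSystem_normalizerSystem F R hRS⟩
  have hNsat : NS.IsSaturated p :=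
    Cfsg.Agent.Helper84.normalizerSystem_saturated p hS F hF R hR NS hNS
  -- conjugation by elements of `N_S(R)`
  have hconj : ∀ u ∈ normalizerIn S R, ∀ x ∈ R, u * x * u⁻¹ ∈ R ∧ u⁻¹ * x * u ∈ R := by
    intro u hu x hx
    have hn : u ∈ Subgroup.normalizer (R : Set Ω) := (mem_normalizerIn_iff.mp hu).2
    refine ⟨conj_mem_of_mem_normalizer hn hx, ?_⟩
    have h1 := conj_mem_of_mem_normalizer (Subgroup.inv_mem _ hn) hx
    rwa [inv_inv] at h1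
  -- every map of `NS` is a map of `F` and preserves `R`
  have hNmap : ∀ (P : Subgroup Ω) (f : Ω → Ω), IsMap NS P f →
      IsMap F P f ∧ (R ≤ P → ∀ x ∈ R, f x ∈ R) := by
    intro P f hf
    obtain ⟨hfF, -, -, f', -, hf'P, hf'R⟩ := (isMap_nsys_iff hNS).mp hf
    exact ⟨hfF, fun hRP x hx => by rw [← hf'P x (hRP hx)]; exact hf'R x hx⟩
  -- `γ` is a map of `NS`
  have hγR : ∀ x ∈ R, γ x ∈ R := by
    intro x hx
    have h1 := (hγ.restrict hRN).apply_mem_img hx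
    rwa [himg] at h1
  have hγN : IsMap NS N γ := by
    rw [isMap_nsys_iff hNS]
    refine ⟨hγ, hNN, fun x hx => ?_, γ, ?_, fun x _ => rfl, hγR⟩
    · rw [mem_normalizerIn_iff]
      refine ⟨hγ.mem hx, ?_⟩
      apply Subgroup.mem_normalizer_fintype
      intro k hk
      have hk' : k ∈ img R γ := by rw [himg]; exact hk
      obtain ⟨r, hr, rfl⟩ := (hγ.restrict hRN).mem_img.mp hk'
      rw [← hγ.map_conj hx (hRN hr)]
      exact hγR _ (hconj x (hNN hx) r hr).1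
    · have e : N ⊔ R = N := sup_eq_left.mpr hRN
      rw [e]; exact hγ
  -- the induction
  obtain ⟨C, hCdef⟩ : ∃ C : Subgroup Ω → (Ω → Ω) → Prop, ∀ P f, C P f ↔
      (R ≤ P → ∃ u ∈ normalizerIn S R, ∃ β₀ : MulAut R, β₀ ∈ PiO F p R ∧
        (∀ x ∈ R, f x = u * autFun β₀ x * u⁻¹) ∧
        PiGen F p T (P ⊓ T) (fun x => u⁻¹ * f x * u)) := ⟨_, fun _ _ => Iff.rfl⟩
  have haut : ∀ Q : Subgroup Ω, NS.IsFullyAutomized p Q → NS.IsReceptive Q → NS.IsCentric Q →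
      NS.IsRadical p Q → ∀ α ∈ NS.autGroup Q, ∀ P : Subgroup Ω, P ≤ Q → C P (autFun α) := by
    intro Q hQa _ _ _ α hα P hPQ
    rw [hCdef]
    intro hRP
    have hQS' : Q ≤ normalizerIn S R := hQa.1
    have hQS : Q ≤ S := hQS'.trans hS'S
    have hRQ : R ≤ Q := hRP.trans hPQ
    have : Finite Q := Helper88.finite_of_le hQS
    obtain ⟨P₀, hP₀⟩ := hQa.2
    obtain ⟨σ, hσ, β, hβ, hαeq⟩ := exists_sylow_mul_pResidual P₀ ⟨α, hα⟩
    have hαeq' : α = (σ : MulAut Q) * (β : MulAut Q) := congrArg Subtype.val hαeq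
    rw [hP₀, Subgroup.mem_subgroupOf] at hσ
    obtain ⟨v, hv, hvc⟩ := (mem_autInducedBy_iff (normalizerIn S R) Q _).1 hσ
    -- the formula for `α`
    have hαv : ∀ x ∈ Q, autFun α x = v * autFun (β : MulAut Q) x * v⁻¹ := by
      intro x hx
      have hβx : autFun (β : MulAut Q) x ∈ Q := autFun_mem _ hx
      rw [hαeq', autFun_mul _ _ hx, autFun_apply' _ hβx, hvc]
    -- every element of `Aut_NS(Q)` is a map of `F` preserving `R` and `Q ⊓ T`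
    have hA : ∀ δ ∈ NS.autGroup Q, IsMap F Q (autFun δ) ∧ (∀ x ∈ R, autFun δ x ∈ R) := by
      intro δ hδ
      have h1 := hNmap Q _ (IsMap.of_mem_autGroup hQS' hδ)
      exact ⟨h1.1, h1.2 hRQ⟩
    -- restriction to `R`
    obtain ⟨Ψ, hΨ⟩ := exists_restrictHom (NS.autGroup Q) hRQ (fun δ hδ => (hA δ hδ).2)
    have hΨF : ∀ δ : NS.autGroup Q, Ψ δ ∈ F.autGroup R := by
      intro δ
      rw [Helper88.mem_autGroup_iff F hRS]
      exact ((hA δ δ.2).1.restrict hRQ).congr (fun x hx => hΨ δ x hx)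
    have hΨβ : Ψ β ∈ PiO F p R := by
      have h1 := map_pResidual_le p (Ψ.codRestrict (F.autGroup R) hΨF) hβ
      exact ⟨_, h1, rfl⟩
    -- restriction to `Q ⊓ T`
    have hQT : ∀ δ ∈ NS.autGroup Q, ∀ x ∈ Q ⊓ T, autFun δ x ∈ Q ⊓ T := by
      intro δ hδ x hx
      exact ⟨autFun_mem δ hx.1, pi_mapsTo hS hh (hA δ hδ).1 x hx.1 hx.2⟩
    obtain ⟨Ψ₂, hΨ₂⟩ := exists_restrictHom (NS.autGroup Q) (inf_le_left : Q ⊓ T ≤ Q) hQT
    have hQTS : Q ⊓ T ≤ S := inf_le_left.trans hQS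
    have hΨ₂F : ∀ δ : NS.autGroup Q, Ψ₂ δ ∈ F.autGroup (Q ⊓ T) := by
      intro δ
      rw [Helper88.mem_autGroup_iff F hQTS]
      exact ((hA δ δ.2).1.restrict inf_le_left).congr (fun x hx => hΨ₂ δ x hx)
    have hΨ₂β : Ψ₂ β ∈ PiO F p (Q ⊓ T) := by
      have h1 := map_pResidual_le p (Ψ₂.codRestrict (F.autGroup (Q ⊓ T)) hΨ₂F) hβ
      exact ⟨_, h1, rfl⟩
    refine ⟨v, hv, Ψ β, hΨβ, fun x hx => ?_, ?_⟩
    · rw [hαv x (hRQ hx), hΨ β x hx]
    · have hbase : PiGen F p T (P ⊓ T) (autFun (Ψ₂ β)) :=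
        PiGen.base (inf_le_right : Q ⊓ T ≤ T) hΨ₂β (inf_le_inf_right T hPQ)
      refine hbase.congr (fun x hx => ?_)
      have hxQ : x ∈ Q := hPQ hx.1
      rw [hΨ₂ β x ⟨hxQ, hx.2⟩, hαv x hxQ]
      group
  have hcomp : ∀ (P Q : Subgroup Ω) (f g : Ω → Ω), IsMap NS P f → IsMap NS Q g → C P f → C Q g →
      (∀ x ∈ P, f x ∈ Q) → C P (g ∘ f) := by
    intro P Q f g hf hg hCf hCg hPQ
    rw [hCdef] at hCf hCg ⊢
    intro hRP
    obtain ⟨u₁, hu₁, β₁, hβ₁, hf₁, he₁⟩ := hCf hRP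
    have hfF : IsMap F P f := (hNmap P f hf).1
    -- `R ≤ Q`
    have hfR : ∀ x ∈ R, f x ∈ R := by
      intro x hx
      rw [hf₁ x hx]
      exact (hconj u₁ hu₁ _ (autFun_mem β₁ hx)).1
    have hRQ : R ≤ Q := by
      intro r hr
      have h1 : u₁⁻¹ * r * u₁ ∈ R := (hconj u₁ hu₁ r hr).2
      have h2 : autFun β₁⁻¹ (u₁⁻¹ * r * u₁) ∈ R := autFun_mem _ h1
      have h3 : f (autFun β₁⁻¹ (u₁⁻¹ * r * u₁)) = r := by
        rw [hf₁ _ h2, autFun_apply_inv β₁ h1]; group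
      rw [← h3]
      exact hPQ _ (hRP h2)
    obtain ⟨u₂, hu₂, β₂, hβ₂, hg₂, he₂⟩ := hCg hRQ
    -- conjugation by `u₁` on `R` as an element of `Aut_F(R)`
    have hu₁S : u₁ ∈ S := hS'S hu₁
    have hκmap : IsMap F R (fun x => u₁ * x * u₁⁻¹) := isMap_conj F hRS hu₁S
    have hκimg : img R (fun x => u₁ * x * u₁⁻¹) = R := by
      apply le_antisymm
      · unfold img
        rw [Subgroup.closure_le]
        rintro _ ⟨x, hx, rfl⟩
        exact (hconj u₁ hu₁ x hx).1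
      · intro r hr
        refine Subgroup.subset_closure ⟨u₁⁻¹ * r * u₁, (hconj u₁ hu₁ r hr).2, ?_⟩
        show u₁ * (u₁⁻¹ * r * u₁) * u₁⁻¹ = r
        group
    obtain ⟨κ, hκ, hκf⟩ := hκmap.exists_aut hκimg
    have hκinv : ∀ z ∈ R, autFun κ⁻¹ z = u₁⁻¹ * z * u₁ := by
      intro z hz
      have h1 : u₁⁻¹ * z * u₁ ∈ R := (hconj u₁ hu₁ z hz).2
      have h2 : autFun κ (u₁⁻¹ * z * u₁) = z := by
        rw [hκf _ h1]; group
      rw [← h2, autFun_inv_apply κ h1, h2]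
    -- the new `β₀`
    have hnorm : κ⁻¹ * β₂ * κ ∈ PiO F p R := by
      obtain ⟨b, hb, rfl⟩ := hβ₂
      have h1 := pResidual_conj_mem p hb (⟨κ, hκ⟩ : F.autGroup R)⁻¹
      refine ⟨_, h1, ?_⟩
      simp
    have hβ₀ : κ⁻¹ * β₂ * κ * β₁ ∈ PiO F p R := Subgroup.mul_mem _ hnorm hβ₁
    refine ⟨u₂ * u₁, Subgroup.mul_mem _ hu₂ hu₁, κ⁻¹ * β₂ * κ * β₁, hβ₀, fun x hx => ?_, ?_⟩
    · have hb1 : autFun β₁ x ∈ R := autFun_mem β₁ hx
      have hk1 : autFun κ (autFun β₁ x) ∈ R := autFun_mem κ hb1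
      have hb2 : autFun β₂ (autFun κ (autFun β₁ x)) ∈ R := autFun_mem β₂ hk1
      show g (f x) = u₂ * u₁ * autFun (κ⁻¹ * β₂ * κ * β₁) x * (u₂ * u₁)⁻¹
      rw [autFun_mul _ _ hx, autFun_mul _ _ hb1, autFun_mul _ _ hk1, hκinv _ hb2, hκf _ hb1,
        hg₂ _ (hfR x hx), hf₁ x hx]
      group
    · -- the generated map
      have hu₁i : u₁⁻¹ ∈ S := S.inv_mem hu₁S
      have h2 := hc (Q ⊓ T) _ u₁⁻¹ he₂ hu₁i
      have h3 : PiGen F p T (P ⊓ T)
          ((fun y => u₁⁻¹ * (fun x => u₂⁻¹ * g x * u₂) (u₁⁻¹⁻¹ * y * u₁⁻¹) * u₁⁻¹⁻¹) ∘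
            (fun x => u₁⁻¹ * f x * u₁)) := by
        refine PiGen.comp he₁ h2 (fun x hx => ?_)
        refine Subgroup.subset_closure ⟨f x, ⟨hPQ x hx.1, pi_mapsTo hS hh hfF x hx.1 hx.2⟩, ?_⟩
        show u₁⁻¹ * f x * u₁⁻¹⁻¹ = u₁⁻¹ * f x * u₁
        rw [inv_inv]
      refine h3.congr (fun x hx => ?_)
      show (u₂ * u₁)⁻¹ * g (f x) * (u₂ * u₁) =
        u₁⁻¹ * (u₂⁻¹ * g (u₁⁻¹⁻¹ * (u₁⁻¹ * f x * u₁) * u₁⁻¹) * u₂) * u₁⁻¹⁻¹
      have e : u₁⁻¹⁻¹ * (u₁⁻¹ * f x * u₁) * u₁⁻¹ = f x := by group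
      rw [e]
      group
  have hcongr : ∀ (P : Subgroup Ω) (f g : Ω → Ω), IsMap NS P f → C P f → (∀ x ∈ P, g x = f x) →
      C P g := by
    intro P f g _ hCf hfg
    rw [hCdef] at hCf ⊢
    intro hRP
    obtain ⟨u, hu, β₀, hβ₀, hf₀, he⟩ := hCf hRP
    refine ⟨u, hu, β₀, hβ₀, fun x hx => by rw [hfg x (hRP hx)]; exact hf₀ x hx, ?_⟩
    exact he.congr (fun x hx => by rw [hfg x hx.1])
  have hfin := alperin_induction hS'p hNsat C haut hcomp hcongr hγN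
  rw [hCdef] at hfin
  obtain ⟨u, hu, β₀, hβ₀, hf₀, he⟩ := hfin hRN
  refine ⟨u, hu, β₀, hβ₀, hf₀, ?_⟩
  have e : N ⊓ T = N := inf_eq_left.mpr hNT
  rw [e] at he
  exact he

end Cfsg.Agent.Helper29.PiBRC
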