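import Mathlib

/-!
# CALL S2357, piece ORD6 (helper29): counting the elements of order `6` when all involutions are
conjugate.
-/

set_option autoImplicit false

namespace Cfsg.Agent.Helper29

theorem ree2357_six_aux {G : Type*} [Group G] (g : G) (hg : orderOf g = 6) :
    g ^ 3 ≠ 1 ∧ g ^ 3 * g ^ 3 = 1 ∧ orderOf (g ^ 4) = 3 ∧ g ^ 3 * g ^ 4 = g := by
  have hg6 : g ^ 6 = 1 := by rw [← hg]; exact pow_orderOf_eq_one g
  refine ⟨?_, ?_, ?_, ?_⟩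
  · intro h
    have h3 := orderOf_dvd_of_pow_eq_one h
    rw [hg] at h3
    omega
  · rw [← pow_add]; exact hg6
  · rw [orderOf_pow' g (by norm_num), hg]; rfl
  · rw [← pow_add, show 3 + 4 = 6 + 1 from rfl, pow_succ, hg6, one_mul]

theorem ree2357_comm_aux {G : Type*} [Group G] (a z t v : G) (h : z * t * z⁻¹ = a)
    (hv : v * a = a * v) : t * (z⁻¹ * v * z) = (z⁻¹ * v * z) * t := by
  rw [← h] at hv
  calc t * (z⁻¹ * v * z) = z⁻¹ * ((z * t * z⁻¹) * v) * z := by group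
    _ = z⁻¹ * (v * (z * t * z⁻¹)) * z := by rw [hv]
    _ = (z⁻¹ * v * z) * t := by group

theorem ree2357_six_inv {G : Type*} [Group G] (a z t v : G) (ht1 : t ≠ 1) (ht2 : t * t = 1)
    (h : z * t * z⁻¹ = a) (hv3 : orderOf v = 3) (hv : v * a = a * v) :
    orderOf (t * (z⁻¹ * v * z)) = 6 ∧ (t * (z⁻¹ * v * z)) ^ 3 = t ∧
      (t * (z⁻¹ * v * z)) ^ 4 = z⁻¹ * v * z := by
  have hcomm : Commute t (z⁻¹ * v * z) := ree2357_comm_aux a z t v h hv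
  have hto : orderOf t = 2 := orderOf_eq_prime (by rw [pow_two]; exact ht2) ht1
  have hvo : orderOf (z⁻¹ * v * z) = 3 := by
    have h3 := (MulAut.conj z⁻¹).orderOf_eq v
    rw [MulAut.conj_apply, inv_inv] at h3
    rw [h3, hv3]
  have hv'3 : (z⁻¹ * v * z) ^ 3 = 1 := by rw [← hvo]; exact pow_orderOf_eq_one _
  have ht2' : t ^ 2 = 1 := by rw [pow_two]; exact ht2
  refine ⟨?_, ?_, ?_⟩
  · rw [hcomm.orderOf_mul_eq_mul_orderOf_of_coprime (by rw [hto, hvo]; norm_num), hto, hvo]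
  · rw [hcomm.mul_pow, hv'3, mul_one, pow_succ, ht2', one_mul]
  · rw [hcomm.mul_pow, show 4 = 2 * 2 from rfl, pow_mul, ht2', one_pow, one_mul,
      show 2 * 2 = 3 + 1 from rfl, pow_succ, hv'3, one_mul]

/-- PIECE ORD6 -/
theorem card_orderOf_six {G : Type*} [Group G] [Finite G] (a : G) (ha1 : a ≠ 1)
    (ha2 : a * a = 1) (hconj : ∀ t : G, t ≠ 1 → t * t = 1 → ∃ y : G, y * t * y⁻¹ = a) :
    Nat.card {g : G // orderOf g = 6} =
      Nat.card {t : G // t ≠ 1 ∧ t * t = 1} *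
        Nat.card {v : G // orderOf v = 3 ∧ v * a = a * v} := by
  classical
  choose! y hy using hconj
  rw [← Nat.card_prod]
  have hA : ∀ g : G, orderOf g = 6 →
      orderOf (y (g ^ 3) * g ^ 4 * (y (g ^ 3))⁻¹) = 3 ∧
        (y (g ^ 3) * g ^ 4 * (y (g ^ 3))⁻¹) * a = a * (y (g ^ 3) * g ^ 4 * (y (g ^ 3))⁻¹) := by
    intro g hg
    obtain ⟨h1, h2, h3, h4⟩ := ree2357_six_aux g hg
    have hya := hy (g ^ 3) h1 h2
    refine ⟨?_, ?_⟩
    · have h5 := (MulAut.conj (y (g ^ 3))).orderOf_eq (g ^ 4)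
      rw [MulAut.conj_apply] at h5
      rw [h5, h3]
    · rw [← hya]; group
  refine Nat.card_congr
    { toFun := fun g => (⟨g.1 ^ 3, (ree2357_six_aux g.1 g.2).1, (ree2357_six_aux g.1 g.2).2.1⟩,
        ⟨y (g.1 ^ 3) * g.1 ^ 4 * (y (g.1 ^ 3))⁻¹, hA g.1 g.2⟩)
      invFun := fun tv => ⟨tv.1.1 * ((y tv.1.1)⁻¹ * tv.2.1 * y tv.1.1),
        (ree2357_six_inv a (y tv.1.1) tv.1.1 tv.2.1 tv.1.2.1 tv.1.2.2
          (hy tv.1.1 tv.1.2.1 tv.1.2.2) tv.2.2.1 tv.2.2.2).1⟩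
      left_inv := ?_
      right_inv := ?_ }
  · rintro ⟨g, hg⟩
    apply Subtype.ext
    show g ^ 3 * ((y (g ^ 3))⁻¹ * (y (g ^ 3) * g ^ 4 * (y (g ^ 3))⁻¹) * y (g ^ 3)) = g
    have h4 := (ree2357_six_aux g hg).2.2.2
    have h5 : (y (g ^ 3))⁻¹ * (y (g ^ 3) * g ^ 4 * (y (g ^ 3))⁻¹) * y (g ^ 3) = g ^ 4 := by group
    rw [h5, h4]
  · rintro ⟨⟨t, ht1, ht2⟩, ⟨v, hv3, hva⟩⟩
    obtain ⟨_, e3, e4⟩ := ree2357_six_inv a (y t) t v ht1 ht2 (hy t ht1 ht2) hv3 hva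
    apply Prod.ext
    · apply Subtype.ext
      exact e3
    · apply Subtype.ext
      show y ((t * ((y t)⁻¹ * v * y t)) ^ 3) * (t * ((y t)⁻¹ * v * y t)) ^ 4 *
        (y ((t * ((y t)⁻¹ * v * y t)) ^ 3))⁻¹ = v
      rw [e3, e4]
      group

end Cfsg.Agent.Helper29
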